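import Mathlib
import Cfsg.Agent.Helper1.SZ

set_option autoImplicit false

namespace Cfsg.Agent.Helper4

open scoped Pointwise

/-- A minimal normal subgroup of a finite solvable group is elementary abelian. -/
theorem minNormal_elemAbelian {G : Type*} [Group G] [Finite G] [Group.IsSolvable G]
    (M : Subgroup G) [M.Normal] (hM : M ≠ ⊥)
    (hmin : ∀ K : Subgroup G, K.Normal → K ≤ M → K = ⊥ ∨ K = M) :
    ∃ q : ℕ, q.Prime ∧ (∀ x ∈ M, ∀ y ∈ M, x * y = y * x) ∧ ∀ x ∈ M, x ^ q = 1 := by
  haveI : Nontrivial M := (Subgroup.nontrivial_iff_ne_bot M).mpr hM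
  obtain ⟨q, hq, A, hchar, hne, hcomm, hexp⟩ := Cfsg.Agent.Helper1.exists_char_elemAbelian M
  haveI := hchar
  have hAn : (A.map M.subtype).Normal := ConjAct.normal_of_characteristic_of_normal
  have hle : A.map M.subtype ≤ M := by
    rintro _ ⟨a, -, rfl⟩; exact a.2
  have hne' : A.map M.subtype ≠ ⊥ := by
    intro h
    apply hne
    rw [eq_bot_iff]
    intro a ha
    have : (a : G) ∈ A.map M.subtype := ⟨a, ha, rfl⟩
    rw [h, Subgroup.mem_bot] at this
    exact Subgroup.mem_bot.mpr (Subtype.ext this)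
  have hAM : A.map M.subtype = M := (hmin _ hAn hle).resolve_left hne'
  have hmem : ∀ x ∈ M, ∃ a ∈ A, (a : G) = x := by
    intro x hx
    rw [← hAM] at hx
    obtain ⟨a, ha, rfl⟩ := hx
    exact ⟨a, ha, rfl⟩
  refine ⟨q, hq, ?_, ?_⟩
  · intro x hx y hy
    obtain ⟨a, ha, rfl⟩ := hmem x hx
    obtain ⟨b, hb, rfl⟩ := hmem y hy
    exact congrArg Subtype.val (hcomm a ha b hb)
  · intro x hx
    obtain ⟨a, ha, rfl⟩ := hmem x hx
    have := congrArg Subtype.val (hexp a ha)
    simpa using this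

section Prim

variable {G : Type*} [Group G] {Ω : Type*} [MulAction G Ω] [FaithfulSMul G Ω]

/-- A nontrivial normal subgroup of a faithful primitive group is transitive. -/
theorem isPretransitive_of_normal_of_prim (hprim : MulAction.IsPreprimitive G Ω)
    (M : Subgroup G) [M.Normal] (hM : M ≠ ⊥) : MulAction.IsPretransitive M Ω := by
  haveI := hprim
  apply MulAction.IsQuasiPreprimitive.isPretransitive_of_normal
  intro hfix
  apply hM
  rw [eq_bot_iff]
  intro m hm
  rw [Subgroup.mem_bot]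
  apply FaithfulSMul.eq_of_smul_eq_smul (α := Ω)
  intro ω
  rw [one_smul]
  have : ω ∈ MulAction.fixedPoints M Ω := by rw [hfix]; exact Set.mem_univ ω
  exact this ⟨m, hm⟩

/-- A transitive abelian subgroup of a faithful group is regular. -/
theorem stabilizer_eq_bot_of_abelian_transitive (M : Subgroup G)
    (hab : ∀ x ∈ M, ∀ y ∈ M, x * y = y * x) [MulAction.IsPretransitive M Ω] (ω : Ω) :
    MulAction.stabilizer M ω = ⊥ := by
  rw [eq_bot_iff]
  intro m hm
  rw [Subgroup.mem_bot]
  apply Subtype.ext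
  apply FaithfulSMul.eq_of_smul_eq_smul (α := Ω)
  intro ω'
  obtain ⟨m', rfl⟩ := MulAction.exists_smul_eq M ω ω'
  rw [MulAction.mem_stabilizer_iff] at hm
  have hm' : (m : G) • ω = ω := hm
  show (m : G) • (m' : G) • ω = (1 : G) • (m' : G) • ω
  rw [one_smul, smul_smul, hab m m.2 m' m'.2, ← smul_smul, hm']

theorem isComplement'_stabilizer_of_regular (M : Subgroup G) [M.Normal]
    [MulAction.IsPretransitive M Ω] (ω : Ω) (hreg : MulAction.stabilizer M ω = ⊥) :
    Subgroup.IsComplement' M (MulAction.stabilizer G ω) := by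
  apply Subgroup.isComplement'_of_disjoint_and_mul_eq_univ
  · rw [disjoint_iff, eq_bot_iff]
    intro x hx
    rw [Subgroup.mem_bot]
    have h1 : (⟨x, hx.1⟩ : M) ∈ MulAction.stabilizer M ω := by
      rw [MulAction.mem_stabilizer_iff]
      exact MulAction.mem_stabilizer_iff.mp hx.2
    rw [hreg, Subgroup.mem_bot] at h1
    exact congrArg Subtype.val h1
  · rw [Set.eq_univ_iff_forall]
    intro g
    obtain ⟨m, hm⟩ := MulAction.exists_smul_eq M ω (g • ω)
    have hm' : (m : G) • ω = g • ω := hm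
    refine ⟨(m : G), m.2, (m : G)⁻¹ * g, ?_, by group⟩
    rw [SetLike.mem_coe, MulAction.mem_stabilizer_iff, mul_smul, ← hm', inv_smul_smul]

theorem stabilizer_inf_centralizer_eq_bot (M : Subgroup G) [MulAction.IsPretransitive M Ω]
    (ω : Ω) : MulAction.stabilizer G ω ⊓ Subgroup.centralizer (M : Set G) = ⊥ := by
  rw [eq_bot_iff]
  intro h hh
  rw [Subgroup.mem_bot]
  apply FaithfulSMul.eq_of_smul_eq_smul (α := Ω)
  intro ω'
  obtain ⟨m, rfl⟩ := MulAction.exists_smul_eq M ω ω'
  have h1 : h • ω = ω := MulAction.mem_stabilizer_iff.mp hh.1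
  have h2 : (m : G) * h = h * (m : G) := (Subgroup.mem_centralizer_iff.mp hh.2) m m.2
  show h • ((m : G) • ω) = (1 : G) • ((m : G) • ω)
  rw [one_smul, smul_smul, ← h2, ← smul_smul, h1]

end Prim

theorem eq_bot_or_eq_of_le_of_complement_normalizes {G : Type*} [Group G] (M : Subgroup G)
    (hab : ∀ x ∈ M, ∀ y ∈ M, x * y = y * x)
    (hmin : ∀ K : Subgroup G, K.Normal → K ≤ M → K = ⊥ ∨ K = M) (H : Subgroup G)
    (hc : Subgroup.IsComplement' M H) (K : Subgroup G) (hK : K ≤ M)
    (hH : H ≤ Subgroup.normalizer (K : Set G)) : K = ⊥ ∨ K = M := by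
  apply hmin K _ hK
  have hMn : M ≤ Subgroup.normalizer (K : Set G) :=
    Subgroup.le_normalizer_iff.mpr (fun m hm k hk => by
      have : m * k * m⁻¹ = k := by rw [hab m hm k (hK hk)]; group
      rw [this]; exact hk)
  have htop : Subgroup.normalizer (K : Set G) = ⊤ := by
    rw [eq_top_iff, ← hc.sup_eq_top]
    exact sup_le hMn hH
  exact Subgroup.normalizer_eq_top_iff.mp htop

end Cfsg.Agent.Helper4
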