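import Mathlib
import Cfsg.Agent.Helper1.Kegel2
import Cfsg.Agent.S0041

set_option autoImplicit false

namespace Cfsg.Agent.Helper4

universe u
variable {G : Type u} [Group G]

/-- In a Camina pair, an element outside `N` commutes with no nontrivial element of `N` of
coprime order. -/
theorem cam_coprime [Finite G] (N : Subgroup G)
    (hcam : ∀ g : G, g ∉ N → ∀ n ∈ N, ∃ x : G, x * g * x⁻¹ = g * n)
    {a v : G} (ha : a ∉ N) (hv : v ∈ N) (hcomm : Commute a v)
    (hcop : (orderOf a).Coprime (orderOf v)) : v = 1 := by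
  obtain ⟨x, hx⟩ := hcam a ha v hv
  have hs : SemiconjBy x a (a * v) := by
    show x * a = a * v * x
    rw [← hx, inv_mul_cancel_right]
  have h1 : orderOf a = orderOf (a * v) := SemiconjBy.orderOf_eq x hs
  have h2 : orderOf (a * v) = orderOf a * orderOf v :=
    hcomm.orderOf_mul_eq_mul_orderOf_of_coprime hcop
  have h3 : 0 < orderOf a := orderOf_pos a
  have h4 : orderOf v = 1 := by
    have h5 : orderOf a * orderOf v = orderOf a * 1 := by rw [← h2, ← h1, mul_one]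
    exact Nat.eq_of_mul_eq_mul_left h3 h5
  exact orderOf_eq_one_iff.mp h4

theorem cam_frob [Finite G] (N : Subgroup G) [N.Normal]
    (hcam : ∀ g : G, g ∉ N → ∀ n ∈ N, ∃ x : G, x * g * x⁻¹ = g * n)
    (hcop : (Nat.card N).Coprime N.index) :
    ∀ x ∈ N, x ≠ 1 → Subgroup.centralizer ({x} : Set G) ≤ N := by
  intro x hx hx1 u hu
  by_contra huN
  apply hx1
  have hcomm : Commute u x := Subgroup.mem_centralizer_singleton_iff.mp hu
  have ha : u ^ Nat.card N ∉ N := by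
    intro hmem
    apply huN
    have hc : IsCoprime (Nat.card N : ℤ) (N.index : ℤ) := Nat.isCoprime_iff_coprime.mpr hcop
    obtain ⟨s, t, hst⟩ := hc
    have e : (Nat.card N : ℤ) * s + (N.index : ℤ) * t = 1 := by linear_combination hst
    have h1 : u = (u ^ Nat.card N) ^ s * (u ^ N.index) ^ t := by
      calc u = u ^ (1 : ℤ) := (zpow_one u).symm
        _ = u ^ ((Nat.card N : ℤ) * s + (N.index : ℤ) * t) := by rw [e]
        _ = (u ^ (Nat.card N : ℤ)) ^ s * (u ^ (N.index : ℤ)) ^ t := by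
            rw [zpow_add, zpow_mul, zpow_mul]
        _ = (u ^ Nat.card N) ^ s * (u ^ N.index) ^ t := by rw [zpow_natCast, zpow_natCast]
    rw [h1]
    exact N.mul_mem (N.zpow_mem hmem s) (N.zpow_mem (N.pow_index_mem u) t)
  have hda : orderOf (u ^ Nat.card N) ∣ N.index := by
    apply orderOf_dvd_of_pow_eq_one
    rw [← pow_mul, Subgroup.card_mul_index]
    exact pow_card_eq_one'
  have hdx : orderOf x ∣ Nat.card N := Subgroup.orderOf_dvd_natCard N hx
  exact cam_coprime N hcam ha hx (hcomm.pow_left _)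
    (Nat.Coprime.coprime_dvd_left hda (Nat.Coprime.coprime_dvd_right hdx hcop.symm))

theorem cam_fpfN (N : Subgroup G) [N.Normal] (y : G) (x : N) (k : ℕ) :
    ((Cfsg.Agent.Helper1.fpfN (MulAut.conjNormal y : MulAut N) k x : N) : G)
      = ((x : G) * y) ^ k * (y ^ k)⁻¹ := by
  induction k with
  | zero => simp [Cfsg.Agent.Helper1.fpfN_zero]
  | succ k ih =>
    rw [Cfsg.Agent.Helper1.fpfN_succ, Subgroup.coe_mul, ih, ← map_pow, MulAut.conjNormal_apply,
      pow_succ, pow_succ]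
    simp only [mul_inv_rev, mul_assoc, inv_mul_cancel_left, mul_inv_cancel_left]

theorem cam_nilp [Finite G] (N : Subgroup G) [N.Normal]
    (hcam : ∀ g : G, g ∉ N → ∀ n ∈ N, ∃ x : G, x * g * x⁻¹ = g * n)
    {y : G} (hy : y ∉ N) (hp : (orderOf y).Prime) : Group.IsNilpotent N := by
  have hyp : y ^ orderOf y = 1 := pow_orderOf_eq_one y
  have hxy : ∀ x : N, ((x : G) * y) ^ orderOf y = 1 := by
    intro x
    have hmem : y⁻¹ * (x : G) * y ∈ N := by
      have h := ‹N.Normal›.conj_mem (x : G) x.2 y⁻¹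
      rwa [inv_inv] at h
    obtain ⟨z, hz⟩ := hcam y hy _ hmem
    have e : (x : G) * y = z * y * z⁻¹ := by
      rw [hz]; simp only [mul_assoc, mul_inv_cancel_left]
    rw [e, conj_pow, hyp]; simp
  refine Cfsg.Agent.Helper1.split_nilpotent (orderOf y) hp (MulAut.conjNormal y : MulAut N) ?_ ?_
  · rw [← map_pow, hyp, map_one]
  · intro x
    apply Subtype.ext
    rw [cam_fpfN, hxy, hyp]
    simp

theorem cam_hsyl [Finite G] (N : Subgroup G) [N.Normal] (hnil : Group.IsNilpotent N)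
    (s : ℕ) (hs : s.Prime) :
    ∃ S : Subgroup G, S.Normal ∧ S ≤ N ∧ IsPGroup s S ∧
      ∀ n ∈ N, (∃ k : ℕ, n ^ s ^ k = 1) → n ∈ S := by
  haveI : Fact s.Prime := ⟨hs⟩
  obtain ⟨P⟩ : Nonempty (Sylow s N) := inferInstance
  have hPn : (P : Subgroup N).Normal :=
    Sylow.normal_of_normalizerCondition Group.normalizerCondition_of_isNilpotent P
  haveI hPc : (P : Subgroup N).Characteristic := Sylow.characteristic_of_normal P hPn
  refine ⟨(P : Subgroup N).map N.subtype, ConjAct.normal_of_characteristic_of_normal,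
    Subgroup.map_subtype_le _, P.isPGroup'.map N.subtype, ?_⟩
  rintro n hn ⟨k, hk⟩
  have hn'k : (⟨n, hn⟩ : N) ^ s ^ k = 1 := Subtype.ext (by simpa using hk)
  obtain ⟨m, -, hm⟩ := (Nat.dvd_prime_pow hs).mp (orderOf_dvd_of_pow_eq_one hn'k)
  have hz : IsPGroup s (Subgroup.zpowers (⟨n, hn⟩ : N)) :=
    IsPGroup.of_card (n := m) (by rw [Nat.card_zpowers, hm])
  obtain ⟨Q, hQ⟩ := hz.exists_le_sylow
  have hQP : Q = P := by
    haveI := Sylow.unique_of_normal P hPn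
    exact Subsingleton.elim Q P
  rw [hQP] at hQ
  exact Subgroup.mem_map.mpr ⟨⟨n, hn⟩, hQ (Subgroup.mem_zpowers _), rfl⟩

set_option maxHeartbeats 1600000 in
/-- Core of the argument: a normal `q`-subgroup `Q₀` of `N` containing all `q`-elements of `N`
and an abelian normal `q'`-subgroup `V ≠ 1` of `N` cannot coexist when `q` divides `|G : N|`. -/
theorem cam_key [Finite G] (N : Subgroup G) [N.Normal]
    (hcam : ∀ g : G, g ∉ N → ∀ n ∈ N, ∃ x : G, x * g * x⁻¹ = g * n)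
    (q : ℕ) (hq : q.Prime)
    (Q₀ : Subgroup G) (hQn : Q₀.Normal) (hQN : Q₀ ≤ N) (hQ1 : Q₀ ≠ ⊥) (hQp : IsPGroup q Q₀)
    (hQall : ∀ n ∈ N, (∃ k : ℕ, n ^ q ^ k = 1) → n ∈ Q₀)
    (V : Subgroup G) (hVn : V.Normal) (hVN : V ≤ N) (hV1 : V ≠ ⊥)
    (hVab : ∀ a ∈ V, ∀ b ∈ V, a * b = b * a)
    (hVq : ∀ v ∈ V, (orderOf v).Coprime q)
    (hqi : q ∣ N.index) : False := by
  classical
  haveI : Fact q.Prime := ⟨hq⟩
  haveI := hQn
  obtain ⟨π, hπ⟩ : ∃ π : G →* G ⧸ Q₀, π = QuotientGroup.mk' Q₀ := ⟨_, rfl⟩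
  have hsurj : Function.Surjective π := by rw [hπ]; exact QuotientGroup.mk'_surjective Q₀
  have hker : ∀ a : G, π a = 1 ↔ a ∈ Q₀ := by
    intro a; rw [hπ, ← MonoidHom.mem_ker, QuotientGroup.ker_mk']
  -- V ∩ Q₀ = 1
  have hVQ : ∀ v : G, v ∈ V → v ∈ Q₀ → v = 1 := by
    intro v hv hvQ
    obtain ⟨k, hk⟩ := hQp ⟨v, hvQ⟩
    have hk' : v ^ q ^ k = 1 := by simpa using congrArg Subtype.val hk
    have h1 : orderOf v ∣ q ^ k := orderOf_dvd_of_pow_eq_one hk'
    have h2 : (orderOf v).Coprime (q ^ k) := Nat.Coprime.pow_right k (hVq v hv)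
    exact orderOf_eq_one_iff.mp (Nat.Coprime.eq_one_of_dvd h2 h1)
  -- lifts of q-elements are q-elements
  have hLq : ∀ x : G, (∃ k : ℕ, (π x) ^ q ^ k = 1) → ∃ m : ℕ, x ^ q ^ m = 1 := by
    rintro x ⟨k, hk⟩
    have hx : x ^ q ^ k ∈ Q₀ := (hker _).mp (by rw [map_pow, hk])
    obtain ⟨j, hj⟩ := hQp ⟨_, hx⟩
    have hj' : (x ^ q ^ k) ^ q ^ j = 1 := by simpa using congrArg Subtype.val hj
    refine ⟨k + j, ?_⟩
    rw [pow_add, pow_mul]; exact hj'
  have hlift : ∀ x : G, (∃ k : ℕ, (π x) ^ q ^ k = 1) → π x ≠ 1 → x ∉ N := by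
    intro x hx hx1 hxN
    exact hx1 ((hker x).mpr (hQall x hxN (hLq x hx)))
  -- a q-element of maximal order in the quotient
  have hqcard : q ∣ Nat.card (G ⧸ Q₀) := dvd_trans hqi (Subgroup.index_dvd_of_le hQN)
  obtain ⟨x₀, hx₀⟩ := exists_prime_orderOf_dvd_card' q hqcard
  obtain ⟨gt, ⟨k₀, hgk⟩, hmax⟩ := Set.exists_max_image {x : G ⧸ Q₀ | ∃ k : ℕ, x ^ q ^ k = 1}
    orderOf (Set.toFinite _) ⟨1, 0, one_pow _⟩
  obtain ⟨n, -, hn⟩ := (Nat.dvd_prime_pow hq).mp (orderOf_dvd_of_pow_eq_one hgk)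
  have hqle : q ≤ orderOf gt := by
    have h1 : x₀ ^ q ^ 1 = 1 := by rw [pow_one, ← hx₀]; exact pow_orderOf_eq_one x₀
    have h2 := hmax x₀ ⟨1, h1⟩
    rwa [hx₀] at h2
  have hgt1 : gt ≠ 1 := by
    intro h
    rw [h, orderOf_one] at hqle
    exact absurd hqle (not_le.mpr hq.one_lt)
  obtain ⟨g, rfl⟩ := hsurj gt
  have hgN : g ∉ N := hlift g ⟨k₀, hgk⟩ hgt1
  obtain ⟨m₀, hgm⟩ := hLq g ⟨k₀, hgk⟩
  -- centralizers
  obtain ⟨C, hC⟩ : ∃ C : Subgroup G, C = Subgroup.centralizer ({g} : Set G) := ⟨_, rfl⟩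
  obtain ⟨Ct, hCt⟩ : ∃ Ct : Subgroup (G ⧸ Q₀),
      Ct = Subgroup.centralizer ({π g} : Set (G ⧸ Q₀)) := ⟨_, rfl⟩
  obtain ⟨D, hD⟩ : ∃ D : Subgroup G, D = Ct.comap π := ⟨_, rfl⟩
  have hCmem : ∀ h : G, h ∈ C ↔ h * g = g * h := by
    intro h; rw [hC]; exact Subgroup.mem_centralizer_singleton_iff
  have hCtmem : ∀ h : G ⧸ Q₀, h ∈ Ct ↔ h * π g = π g * h := by
    intro h; rw [hCt]; exact Subgroup.mem_centralizer_singleton_iff
  have hDmem : ∀ h : G, h ∈ D ↔ π h * π g = π g * π h := by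
    intro h; rw [hD, Subgroup.mem_comap, hCtmem]
  -- the Camina bijection Q₀ × C_G(g) → D
  have hσex : ∀ n' : Q₀, ∃ x : G, x * g * x⁻¹ = g * (n' : G) :=
    fun n' => hcam g hgN n' (hQN n'.2)
  choose σ hσ using hσex
  have hσ' : ∀ n' : Q₀, σ n' * g = g * (n' : G) * σ n' := by
    intro n'; rw [← hσ n', inv_mul_cancel_right]
  have hfmem : ∀ (n' : Q₀) (c : C), σ n' * (c : G) ∈ D := by
    intro n' c
    have hc : (c : G) * g = g * (c : G) := (hCmem _).mp c.2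
    have h1 : σ n' * (c : G) * g = g * (n' : G) * (σ n' * (c : G)) := by
      calc σ n' * (c : G) * g = σ n' * (g * (c : G)) := by rw [← hc, mul_assoc]
        _ = σ n' * g * (c : G) := by rw [mul_assoc]
        _ = g * (n' : G) * σ n' * (c : G) := by rw [hσ']
        _ = g * (n' : G) * (σ n' * (c : G)) := by rw [mul_assoc]
    have h2 := congrArg π h1
    simp only [map_mul] at h2
    rw [(hker _).mpr n'.2, mul_one] at h2
    rw [hDmem, map_mul]
    exact h2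
  have hconj : ∀ (n' : Q₀) (c : C),
      σ n' * (c : G) * g * (σ n' * (c : G))⁻¹ = g * (n' : G) := by
    intro n' c
    have hc : (c : G) * g = g * (c : G) := (hCmem _).mp c.2
    calc σ n' * (c : G) * g * (σ n' * (c : G))⁻¹
        = σ n' * ((c : G) * g * (c : G)⁻¹) * (σ n')⁻¹ := by simp only [mul_inv_rev, mul_assoc]
      _ = σ n' * g * (σ n')⁻¹ := by rw [hc, mul_inv_cancel_right]
      _ = g * (n' : G) := hσ n'
  have hbij : Function.Bijective
      (fun p : Q₀ × C => (⟨σ p.1 * (p.2 : G), hfmem p.1 p.2⟩ : D)) := by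
    constructor
    · rintro ⟨n₁, c₁⟩ ⟨n₂, c₂⟩ h
      have h' : σ n₁ * (c₁ : G) = σ n₂ * (c₂ : G) := congrArg Subtype.val h
      have e1 := hconj n₁ c₁
      rw [h', hconj n₂ c₂] at e1
      have hn : n₂ = n₁ := Subtype.ext (mul_left_cancel e1)
      subst hn
      have hc : c₁ = c₂ := Subtype.ext (mul_left_cancel h')
      rw [hc]
    · rintro ⟨h, hh⟩
      have hh' : π h * π g = π g * π h := (hDmem h).mp hh
      have hn' : g⁻¹ * (h * g * h⁻¹) ∈ Q₀ := by
        refine (hker _).mp ?_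
        simp only [map_mul, map_inv]
        rw [hh', mul_inv_cancel_right, inv_mul_cancel]
      obtain ⟨n', hn'e⟩ : ∃ n' : Q₀, (n' : G) = g⁻¹ * (h * g * h⁻¹) := ⟨⟨_, hn'⟩, rfl⟩
      have e1 : σ n' * g * (σ n')⁻¹ = h * g * h⁻¹ := by
        rw [hσ n', hn'e, mul_inv_cancel_left]
      have hc : (σ n')⁻¹ * h ∈ C := by
        rw [hCmem]
        have e2 : h * g = σ n' * g * (σ n')⁻¹ * h := by rw [e1, inv_mul_cancel_right]
        rw [mul_assoc, e2]
        simp only [mul_assoc, inv_mul_cancel_left]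
      refine ⟨(n', ⟨(σ n')⁻¹ * h, hc⟩), Subtype.ext ?_⟩
      show σ n' * ((σ n')⁻¹ * h) = h
      rw [mul_inv_cancel_left]
  have hcardD : Nat.card D = Nat.card Q₀ * Nat.card C := by
    rw [← Nat.card_prod]; exact (Nat.card_congr (Equiv.ofBijective _ hbij)).symm
  have hD1 : D.index = Ct.index := by
    rw [hD]; exact Subgroup.index_comap_of_surjective Ct hsurj
  have hCcard : Nat.card Ct = Nat.card C := by
    have hD2 : D.index * Nat.card D = Nat.card G := D.index_mul_card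
    have hC2 : Ct.index * Nat.card Ct = Nat.card (G ⧸ Q₀) := Ct.index_mul_card
    have hG : Nat.card G = Nat.card (G ⧸ Q₀) * Nat.card Q₀ :=
      Subgroup.card_eq_card_quotient_mul_card_subgroup Q₀
    have hpos : 0 < Ct.index := Nat.pos_of_ne_zero Subgroup.index_ne_zero_of_finite
    have hposQ : 0 < Nat.card Q₀ := Nat.card_pos
    have h3 : Ct.index * (Nat.card Q₀ * Nat.card Ct)
        = Ct.index * (Nat.card Q₀ * Nat.card C) := by
      rw [← hcardD, ← hD1, hD2, hG, ← hC2, hD1]; ring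
    exact Nat.eq_of_mul_eq_mul_left hposQ (Nat.eq_of_mul_eq_mul_left hpos h3)
  -- q^(n+1) divides |C_G(g)|
  obtain ⟨ψ, hψ⟩ : ∃ ψ : C →* G ⧸ Q₀, ψ = π.comp C.subtype := ⟨_, rfl⟩
  have hψapp : ∀ c : C, ψ c = π (c : G) := by intro c; rw [hψ]; rfl
  have hkereq : ψ.ker = Q₀.comap C.subtype := by
    ext c
    have h1 : c ∈ ψ.ker ↔ (c : G) ∈ Q₀ := by rw [MonoidHom.mem_ker, hψapp, hker]
    exact h1
  have hkerp : IsPGroup q ψ.ker := by rw [hkereq]; exact hQp.comap_subtype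
  have hzex : ∃ z : G, z ∈ Q₀ ∧ z ≠ 1 ∧ g * z * g⁻¹ = z := by
    have hZp : IsPGroup q (Subgroup.zpowers g) := by
      obtain ⟨j, -, hj⟩ := (Nat.dvd_prime_pow hq).mp (orderOf_dvd_of_pow_eq_one hgm)
      exact IsPGroup.of_card (n := j) (by rw [Nat.card_zpowers, hj])
    letI act : MulAction (Subgroup.zpowers g) Q₀ :=
      MulAction.compHom Q₀ ((MulAut.conjNormal (H := Q₀)).comp (Subgroup.zpowers g).subtype)
    have hdq : q ∣ Nat.card Q₀ := by
      rcases hQp.card_eq_or_dvd with h | h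
      · exact absurd (Subgroup.eq_bot_of_card_eq Q₀ h) hQ1
      · exact h
    have h1 : (1 : Q₀) ∈ MulAction.fixedPoints (Subgroup.zpowers g) Q₀ := by
      rw [MulAction.mem_fixedPoints]
      intro h
      show MulAut.conjNormal (h : G) (1 : Q₀) = 1
      exact map_one _
    obtain ⟨z, hz, hz1⟩ := hZp.exists_fixed_point_of_prime_dvd_card_of_fixed_point Q₀ hdq h1
    refine ⟨(z : G), z.2, ?_, ?_⟩
    · intro h
      have hz' : z = 1 := Subtype.ext h
      exact hz1 hz'.symm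
    · have h2 : MulAut.conjNormal g z = z :=
        (MulAction.mem_fixedPoints.mp hz) ⟨g, Subgroup.mem_zpowers g⟩
      have h3 := congrArg Subtype.val h2
      rwa [MulAut.conjNormal_apply] at h3
  obtain ⟨z, hzQ, hz1, hzg⟩ := hzex
  have hzC : z ∈ C := by
    rw [hCmem]
    calc z * g = g * z * g⁻¹ * g := by rw [hzg]
      _ = g * z := by rw [inv_mul_cancel_right]
  have hkerq : q ∣ Nat.card ψ.ker := by
    rcases hkerp.card_eq_or_dvd with h | h
    · exfalso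
      have hbot := Subgroup.eq_bot_of_card_eq ψ.ker h
      have hzk : (⟨z, hzC⟩ : C) ∈ ψ.ker := by
        rw [MonoidHom.mem_ker, hψapp]; exact (hker z).mpr hzQ
      rw [hbot, Subgroup.mem_bot] at hzk
      exact hz1 (congrArg Subtype.val hzk)
    · exact h
  have hgC : g ∈ C := (hCmem g).mpr rfl
  have hrange : q ^ n ∣ Nat.card ψ.range := by
    rw [← hn]
    exact Subgroup.orderOf_dvd_natCard ψ.range (MonoidHom.mem_range.mpr ⟨⟨g, hgC⟩, hψapp _⟩)
  have hdvd : q ^ (n + 1) ∣ Nat.card Ct := by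
    rw [hCcard, ← Subgroup.index_mul_card ψ.ker, Subgroup.index_ker, pow_succ]
    exact Nat.mul_dvd_mul hrange hkerq
  -- a q-subgroup of C(π g) strictly containing ⟨π g⟩
  have hgCt : π g ∈ Ct := (hCtmem _).mpr rfl
  obtain ⟨gC, hgCe⟩ : ∃ gC : Ct, (gC : G ⧸ Q₀) = π g := ⟨⟨π g, hgCt⟩, rfl⟩
  have hHcard : Nat.card (Subgroup.zpowers gC) = q ^ n := by
    rw [Nat.card_zpowers, ← Subgroup.orderOf_coe, hgCe, hn]
  obtain ⟨K, hKcard, hHK⟩ := Sylow.exists_subgroup_card_pow_succ hdvd hHcard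
  obtain ⟨t', ht'K, ht'H⟩ : ∃ t' : Ct, t' ∈ K ∧ t' ∉ Subgroup.zpowers gC := by
    by_contra hcon
    push Not at hcon
    have hle : K ≤ Subgroup.zpowers gC := fun x hx => hcon x hx
    have h1 := Subgroup.card_le_of_le hle
    rw [hKcard, hHcard] at h1
    exact absurd h1 (not_le.mpr (Nat.pow_lt_pow_right hq.one_lt (Nat.lt_succ_self n)))
  obtain ⟨A, hA⟩ : ∃ A : Subgroup (G ⧸ Q₀),
      A = Subgroup.closure {π g, (t' : G ⧸ Q₀)} := ⟨_, rfl⟩
  have ht'c : (t' : G ⧸ Q₀) * π g = π g * (t' : G ⧸ Q₀) := (hCtmem _).mp t'.2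
  have hAcomm : IsMulCommutative A := by
    rw [hA]
    apply Subgroup.isMulCommutative_closure
    intro x hx y hy
    rcases hx with rfl | rfl <;> rcases hy with rfl | rfl
    · rfl
    · exact ht'c.symm
    · exact ht'c
    · rfl
  have hKmp : IsPGroup q (K.map Ct.subtype) :=
    IsPGroup.of_card (n := n + 1)
      (by rw [Subgroup.card_map_of_injective (Subgroup.subtype_injective Ct), hKcard])
  have hAK : A ≤ K.map Ct.subtype := by
    rw [hA, Subgroup.closure_le]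
    intro x hx
    rcases hx with rfl | rfl
    · exact Subgroup.mem_map.mpr ⟨gC, hHK (Subgroup.mem_zpowers gC), hgCe⟩
    · exact Subgroup.mem_map.mpr ⟨t', ht'K, rfl⟩
  have hAq : ∀ a ∈ A, ∃ k : ℕ, a ^ q ^ k = 1 := by
    intro a ha
    obtain ⟨k, hk⟩ := hKmp ⟨a, hAK ha⟩
    exact ⟨k, by simpa using congrArg Subtype.val hk⟩
  have hzle : Subgroup.zpowers (π g) ≤ A := by
    rw [Subgroup.zpowers_le, hA]; exact Subgroup.subset_closure (Set.mem_insert _ _)
  have httA : (t' : G ⧸ Q₀) ∈ A := by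
    rw [hA]; exact Subgroup.subset_closure (Set.mem_insert_of_mem _ rfl)
  -- the image of V
  haveI hVc : IsMulCommutative V := IsMulCommutative.of_setLike_mul_comm hVab
  haveI hVtn : (V.map π).Normal := hVn.map π hsurj
  have hVt1 : V.map π ≠ ⊥ := by
    obtain ⟨v, hv1⟩ := Subgroup.ne_bot_iff_exists_ne_one.mp hV1
    intro hbot
    have h1 : π (v : G) ∈ V.map π := Subgroup.mem_map_of_mem π v.2
    rw [hbot, Subgroup.mem_bot] at h1
    exact hv1 (Subtype.ext (hVQ v v.2 ((hker _).mp h1)))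
  have hAV : A ≤ Subgroup.normalizer ((V.map π : Subgroup (G ⧸ Q₀)) : Set (G ⧸ Q₀)) := by
    rw [Subgroup.normalizer_eq_top]; exact le_top
  have hfpf : ∀ a ∈ A, a ≠ 1 →
      (V.map π) ⊓ Subgroup.centralizer ({a} : Set (G ⧸ Q₀)) = ⊥ := by
    intro a ha ha1
    rw [eq_bot_iff]
    intro w hw
    obtain ⟨hwV, hwC⟩ := Subgroup.mem_inf.mp hw
    obtain ⟨v, hv, rfl⟩ := Subgroup.mem_map.mp hwV
    obtain ⟨a₀, rfl⟩ := hsurj a
    have hcomm : π v * π a₀ = π a₀ * π v := Subgroup.mem_centralizer_singleton_iff.mp hwC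
    have ha₀N : a₀ ∉ N := hlift a₀ (hAq _ ha) ha1
    obtain ⟨m, hm⟩ := hLq a₀ (hAq _ ha)
    have hc1 : a₀ * v * a₀⁻¹ * v⁻¹ ∈ V := V.mul_mem (hVn.conj_mem v hv a₀) (V.inv_mem hv)
    have hc2 : a₀ * v * a₀⁻¹ * v⁻¹ ∈ Q₀ := by
      refine (hker _).mp ?_
      simp only [map_mul, map_inv]
      rw [← hcomm, mul_inv_cancel_right, mul_inv_cancel]
    have hc3 : a₀ * v * a₀⁻¹ * v⁻¹ = 1 := hVQ _ hc1 hc2
    have hcomm' : Commute a₀ v := by
      show a₀ * v = v * a₀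
      calc a₀ * v = (a₀ * v * a₀⁻¹ * v⁻¹) * (v * a₀) := by group
        _ = v * a₀ := by rw [hc3, one_mul]
    have hv1 : v = 1 := cam_coprime N hcam ha₀N (hVN hv) hcomm'
      (Nat.Coprime.coprime_dvd_left (orderOf_dvd_of_pow_eq_one hm)
        (Nat.Coprime.pow_left m (hVq v hv).symm))
    rw [Subgroup.mem_bot, hv1, map_one]
  -- apply the theorem on fixed-point-free abelian groups
  haveI hAc : IsCyclic A :=
    Cfsg.Agent.S0041.result A (V.map π) hVt1 hAV hfpf (Or.inl hAcomm)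
  obtain ⟨c, hc⟩ := IsCyclic.exists_ofOrder_eq_natCard (α := A)
  have hcle : Nat.card A ≤ q ^ n := by
    rw [← hc, ← hn, ← Subgroup.orderOf_coe]
    exact hmax (c : G ⧸ Q₀) (hAq _ c.2)
  have hzA : Subgroup.zpowers (π g) = A :=
    Subgroup.eq_of_le_of_card_ge hzle (by rw [Nat.card_zpowers, hn]; exact hcle)
  have htz : (t' : G ⧸ Q₀) ∈ Subgroup.zpowers (π g) := by rw [hzA]; exact httA
  obtain ⟨j, hj⟩ := Subgroup.mem_zpowers_iff.mp htz
  apply ht'H
  refine Subgroup.mem_zpowers_iff.mpr ⟨j, Subtype.ext ?_⟩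
  rw [Subgroup.coe_zpow, hgCe]
  exact hj

theorem cam_pgroup [Finite G] (N : Subgroup G) [N.Normal]
    (hcam : ∀ g : G, g ∉ N → ∀ n ∈ N, ∃ x : G, x * g * x⁻¹ = g * n)
    (hsyl : ∀ s : ℕ, s.Prime → ∃ S : Subgroup G, S.Normal ∧ S ≤ N ∧ IsPGroup s S ∧
      ∀ n ∈ N, (∃ k : ℕ, n ^ s ^ k = 1) → n ∈ S)
    (q : ℕ) (hq : q.Prime) (hqN : q ∣ Nat.card N) (hqi : q ∣ N.index) :
    ∀ s : ℕ, s.Prime → s ∣ Nat.card N → s = q := by
  intro s hs hsN
  by_contra hne
  obtain ⟨Q₀, hQn, hQN, hQp, hQall⟩ := hsyl q hq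
  obtain ⟨S, hSn, hSN, hSp, hSall⟩ := hsyl s hs
  have hnb : ∀ (r : ℕ), r.Prime → r ∣ Nat.card N → ∀ R : Subgroup G,
      (∀ n ∈ N, (∃ k : ℕ, n ^ r ^ k = 1) → n ∈ R) → R ≠ ⊥ := by
    intro r hr hrN R hRall h
    haveI : Fact r.Prime := ⟨hr⟩
    obtain ⟨x, hx⟩ := exists_prime_orderOf_dvd_card' (G := N) r hrN
    have hxr : (x : G) ^ r ^ 1 = 1 := by
      rw [pow_one, ← hx, ← Subgroup.orderOf_coe]; exact pow_orderOf_eq_one _
    have hxR : (x : G) ∈ R := hRall x x.2 ⟨1, hxr⟩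
    rw [h, Subgroup.mem_bot] at hxR
    have h1 : orderOf x = 1 := by rw [← Subgroup.orderOf_coe, hxR, orderOf_one]
    rw [hx] at h1
    exact hr.one_lt.ne' h1
  have hQ1 : Q₀ ≠ ⊥ := hnb q hq hqN Q₀ hQall
  have hS1 : S ≠ ⊥ := hnb s hs hsN S hSall
  have hVn : (S ⊓ Subgroup.centralizer (S : Set G)).Normal := by
    constructor
    intro v hv x
    obtain ⟨hvS, hvC⟩ := Subgroup.mem_inf.mp hv
    refine Subgroup.mem_inf.mpr ⟨hSn.conj_mem v hvS x, ?_⟩
    refine Subgroup.mem_centralizer_iff.mpr ?_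
    intro h hh
    have h1 : x⁻¹ * h * x ∈ S := by
      have h0 := hSn.conj_mem h hh x⁻¹
      rwa [inv_inv] at h0
    have h2 : x⁻¹ * h * x * v = v * (x⁻¹ * h * x) := Subgroup.mem_centralizer_iff.mp hvC _ h1
    calc h * (x * v * x⁻¹) = x * (x⁻¹ * h * x * v) * x⁻¹ := by group
      _ = x * (v * (x⁻¹ * h * x)) * x⁻¹ := by rw [h2]
      _ = x * v * x⁻¹ * h := by group
  have hV1 : S ⊓ Subgroup.centralizer (S : Set G) ≠ ⊥ := by
    haveI : Fact s.Prime := ⟨hs⟩
    haveI : Nontrivial S := (Subgroup.nontrivial_iff_ne_bot S).mpr hS1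
    haveI := hSp.center_nontrivial
    obtain ⟨z, hz⟩ := exists_ne (1 : Subgroup.center S)
    intro hbot
    have hzV : ((z : S) : G) ∈ S ⊓ Subgroup.centralizer (S : Set G) := by
      refine Subgroup.mem_inf.mpr ⟨(z : S).2, ?_⟩
      refine Subgroup.mem_centralizer_iff.mpr ?_
      intro h hh
      have h0 := Subgroup.mem_center_iff.mp z.2 ⟨h, hh⟩
      exact congrArg Subtype.val h0
    rw [hbot, Subgroup.mem_bot] at hzV
    exact hz (Subtype.ext (Subtype.ext hzV))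
  have hVab : ∀ a ∈ S ⊓ Subgroup.centralizer (S : Set G),
      ∀ b ∈ S ⊓ Subgroup.centralizer (S : Set G), a * b = b * a := by
    intro a ha b hb
    exact Subgroup.mem_centralizer_iff.mp (Subgroup.mem_inf.mp hb).2 a (Subgroup.mem_inf.mp ha).1
  have hVq : ∀ v ∈ S ⊓ Subgroup.centralizer (S : Set G), (orderOf v).Coprime q := by
    intro v hv
    obtain ⟨k, hk⟩ := hSp ⟨v, (Subgroup.mem_inf.mp hv).1⟩
    have hk' : v ^ s ^ k = 1 := by simpa using congrArg Subtype.val hk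
    exact Nat.Coprime.coprime_dvd_left (orderOf_dvd_of_pow_eq_one hk')
      (Nat.Coprime.pow_left k ((Nat.coprime_primes hs hq).mpr hne))
  exact cam_key N hcam q hq Q₀ hQn hQN hQ1 hQp hQall (S ⊓ Subgroup.centralizer (S : Set G)) hVn
    (inf_le_left.trans hSN) hV1 hVab hVq hqi

/-- If `M` supplements `N` in a Camina pair and `u ∈ M ∖ N`, then every element conjugating
`u` into `M` lies in `M`. -/
theorem cam_supp [Finite G] (N : Subgroup G) [N.Normal]
    (hcam : ∀ g : G, g ∉ N → ∀ n ∈ N, ∃ x : G, x * g * x⁻¹ = g * n)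
    (M : Subgroup G) (hMN : M ⊔ N = ⊤) {u g : G} (hu : u ∈ M) (huN : u ∉ N)
    (hg : g⁻¹ * u * g ∈ M) : g ∈ M := by
  classical
  haveI := Fintype.ofFinite N
  haveI := Fintype.ofFinite G
  have hdec : ∀ w : G, ∃ m₁ ∈ M, ∃ n₁ ∈ N, m₁ * n₁ = w := by
    intro w
    have hw : w ∈ ((M ⊔ N : Subgroup G) : Set G) := by rw [hMN]; exact Subgroup.mem_top w
    rw [Subgroup.mul_normal] at hw
    exact Set.mem_mul.mp hw
  have hrow : ∀ k : N, Nat.card {h : G // h⁻¹ * (u * (k : G)) * h ∈ M}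
      = Nat.card {h : G // h⁻¹ * u * h ∈ M} := by
    intro k
    obtain ⟨x, hx⟩ := hcam u huN k k.2
    refine Nat.card_congr (Equiv.subtypeEquiv (Equiv.mulLeft x⁻¹) (fun h => ?_))
    have e : (x⁻¹ * h)⁻¹ * u * (x⁻¹ * h) = h⁻¹ * (u * (k : G)) * h := by
      rw [← hx]; group
    show _ ↔ (x⁻¹ * h)⁻¹ * u * (x⁻¹ * h) ∈ M
    rw [e]
  have hcol : ∀ h : G, Nat.card {k : N // h⁻¹ * (u * (k : G)) * h ∈ M}
      = Nat.card {k : N // (k : G) ∈ M} := by
    intro h
    obtain ⟨m₁, hm₁, n₁, hn₁, hw⟩ := hdec (h⁻¹ * u * h)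
    refine Nat.card_congr (Equiv.subtypeEquiv
      ((MulEquiv.toEquiv (MulAut.conjNormal h⁻¹ : MulAut N)).trans
        (Equiv.mulLeft (⟨n₁, hn₁⟩ : N))) (fun k => ?_))
    have e : h⁻¹ * (u * (k : G)) * h = m₁ * (n₁ * (h⁻¹ * (k : G) * h⁻¹⁻¹)) := by
      rw [← mul_assoc m₁ n₁, hw]; group
    show _ ↔ n₁ * (h⁻¹ * (k : G) * h⁻¹⁻¹) ∈ M
    rw [e]
    exact mul_mem_cancel_left hm₁
  have hdc : Nat.card (Σ k : N, {h : G // h⁻¹ * (u * (k : G)) * h ∈ M})
      = Nat.card (Σ h : G, {k : N // h⁻¹ * (u * (k : G)) * h ∈ M}) :=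
    Nat.card_congr ⟨fun x => ⟨x.2.1, ⟨x.1, x.2.2⟩⟩, fun x => ⟨x.2.1, ⟨x.1, x.2.2⟩⟩,
      fun _ => rfl, fun _ => rfl⟩
  have h1 : Nat.card (Σ k : N, {h : G // h⁻¹ * (u * (k : G)) * h ∈ M})
      = Nat.card N * Nat.card {h : G // h⁻¹ * u * h ∈ M} := by
    rw [Nat.card_sigma]
    simp only [hrow, Finset.sum_const, Finset.card_univ, smul_eq_mul]
    rw [Nat.card_eq_fintype_card (α := N)]
  have h2 : Nat.card (Σ h : G, {k : N // h⁻¹ * (u * (k : G)) * h ∈ M})
      = Nat.card G * Nat.card {k : N // (k : G) ∈ M} := by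
    rw [Nat.card_sigma]
    simp only [hcol, Finset.sum_const, Finset.card_univ, smul_eq_mul]
    rw [Nat.card_eq_fintype_card (α := G)]
  rw [h1, h2] at hdc
  have hc₀ : Nat.card {k : N // (k : G) ∈ M} = Nat.card (N.subgroupOf M) :=
    Nat.card_congr ⟨fun x => ⟨⟨x.1.1, x.2⟩, x.1.2⟩, fun y => ⟨⟨y.1.1, y.2⟩, y.1.2⟩,
      fun _ => rfl, fun _ => rfl⟩
  have hidx : (N.subgroupOf M).index = N.index := by
    have h := Subgroup.relIndex_sup_right (K := N) (H := M)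
    rw [hMN, Subgroup.relIndex_top_right] at h
    exact h.symm
  have hM1 : (N.subgroupOf M).index * Nat.card (N.subgroupOf M) = Nat.card M :=
    Subgroup.index_mul_card _
  have hG1 : N.index * Nat.card N = Nat.card G := Subgroup.index_mul_card N
  have hF : Nat.card {h : G // h⁻¹ * u * h ∈ M} = Nat.card M := by
    have hposN : 0 < Nat.card N := Nat.card_pos
    have h3 : Nat.card N * Nat.card {h : G // h⁻¹ * u * h ∈ M} = Nat.card N * Nat.card M := by
      rw [hdc, hc₀, ← hG1, ← hM1, hidx]; ring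
    exact Nat.eq_of_mul_eq_mul_left hposN h3
  have hsub : (M : Set G) ⊆ {h : G | h⁻¹ * u * h ∈ M} :=
    fun m hm => M.mul_mem (M.mul_mem (M.inv_mem hm) hu) hm
  have hle : ({h : G | h⁻¹ * u * h ∈ M} : Set G).ncard ≤ (M : Set G).ncard := le_of_eq hF
  have heq := Set.eq_of_subset_of_ncard_le hsub hle
  have hgm : g ∈ (M : Set G) := by rw [heq]; exact hg
  exact hgm

theorem cam_minsupp [Finite G] (N : Subgroup G) [N.Normal]
    (hcam : ∀ g : G, g ∉ N → ∀ n ∈ N, ∃ x : G, x * g * x⁻¹ = g * n) :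
    ∃ M : Subgroup G, M ⊔ N = ⊤ ∧
      (∀ a ∈ M, a ∉ N → ∀ b ∈ M, b ∈ N → ∃ x ∈ M, x * a * x⁻¹ = a * b) ∧
      Group.IsNilpotent (N.subgroupOf M) := by
  obtain ⟨M, hM, hmin⟩ := Set.exists_min_image {M : Subgroup G | M ⊔ N = ⊤}
    (fun M => Nat.card M) (Set.toFinite _) ⟨⊤, top_sup_eq _⟩
  have hM' : M ⊔ N = ⊤ := hM
  refine ⟨M, hM', ?_, ?_⟩
  · intro a ha haN b hb hbN
    obtain ⟨x, hx⟩ := hcam a haN b hbN
    refine ⟨x, ?_, hx⟩
    have h1 : (x⁻¹)⁻¹ * a * x⁻¹ ∈ M := by rw [inv_inv, hx]; exact M.mul_mem ha hb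
    have h2 := cam_supp N hcam M hM' ha haN h1
    have h3 := M.inv_mem h2
    rwa [inv_inv] at h3
  · have hfr : N.subgroupOf M ≤ frattini M := by
      unfold frattini Order.radical
      refine le_iInf₂ (fun K hK => ?_)
      by_contra hnot
      have hsup : K ⊔ N.subgroupOf M = ⊤ := hK.2 _ (left_lt_sup.mpr hnot)
      have h1 : (K.map M.subtype) ⊔ (N.subgroupOf M).map M.subtype = M := by
        rw [← Subgroup.map_sup, hsup, ← MonoidHom.range_eq_map, Subgroup.range_subtype]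
      have h2 : (N.subgroupOf M).map M.subtype ≤ N := by
        rw [Subgroup.subgroupOf_map_subtype]; exact inf_le_left
      have h4 : M ≤ K.map M.subtype ⊔ N := le_of_eq_of_le h1.symm (sup_le_sup_left h2 _)
      have h3 : K.map M.subtype ⊔ N = ⊤ := by
        apply top_unique
        rw [← hM']
        exact sup_le h4 le_sup_right
      have h5 : Nat.card M ≤ Nat.card (K.map M.subtype) := hmin (K.map M.subtype) h3
      rw [Subgroup.card_map_of_injective (Subgroup.subtype_injective M)] at h5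
      have h6 : K = ⊤ :=
        (Subgroup.card_eq_iff_eq_top K).mp (le_antisymm (Subgroup.card_le_card_group K) h5)
      exact hK.1 h6
    haveI hfn : Group.IsNilpotent (frattini M) := frattini_nilpotent
    exact Group.nilpotent_of_mulEquiv (Subgroup.subgroupOfEquivOfLe hfr)

theorem cam_isPrimePow {n q : ℕ} (hn : n ≠ 0) (hq : q.Prime) (hqn : q ∣ n)
    (h : ∀ d : ℕ, d.Prime → d ∣ n → d = q) : IsPrimePow n := by
  have hpow := Nat.eq_prime_pow_of_unique_prime_dvd hn (fun {d} hd hdn => h d hd hdn)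
  rw [isPrimePow_nat_iff]
  refine ⟨q, n.primeFactorsList.length, hq, ?_, hpow.symm⟩
  rcases Nat.eq_zero_or_pos n.primeFactorsList.length with h0 | h0
  · exfalso
    rw [h0, pow_zero] at hpow
    rw [hpow] at hqn
    exact hq.one_lt.ne' (Nat.dvd_one.mp hqn)
  · exact h0

theorem cam_main [Finite G] (N : Subgroup G) [N.Normal] (hN1 : N ≠ ⊥) (hN2 : N ≠ ⊤)
    (hcam : ∀ g : G, g ∉ N → ∀ n ∈ N, ∃ x : G, x * g * x⁻¹ = g * n) :
    (∀ x ∈ N, x ≠ 1 → Subgroup.centralizer ({x} : Set G) ≤ N) ∨ IsPrimePow (Nat.card N) ∨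
      IsPrimePow N.index := by
  by_cases hex : ∃ y : G, y ∉ N ∧ (orderOf y).Prime
  · obtain ⟨y, hyN, hyp⟩ := hex
    have hnil : Group.IsNilpotent N := cam_nilp N hcam hyN hyp
    by_cases hcop : (Nat.card N).Coprime N.index
    · exact Or.inl (cam_frob N hcam hcop)
    · right; left
      obtain ⟨q, hq, hqN, hqi⟩ := Nat.Prime.not_coprime_iff_dvd.mp hcop
      have hall := cam_pgroup N hcam (fun s hs => cam_hsyl N hnil s hs) q hq hqN hqi
      exact cam_isPrimePow Nat.card_pos.ne' hq hqN hall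
  · push Not at hex
    obtain ⟨M, hMN, hMcam, hMnil⟩ := cam_minsupp N hcam
    right; right
    have hidx : (N.subgroupOf M).index = N.index := by
      have h := Subgroup.relIndex_sup_right (K := N) (H := M)
      rw [hMN, Subgroup.relIndex_top_right] at h
      exact h.symm
    have hcam' : ∀ a : M, a ∉ N.subgroupOf M → ∀ b ∈ N.subgroupOf M,
        ∃ x : M, x * a * x⁻¹ = a * b := by
      intro a ha b hb
      obtain ⟨x, hxM, hx⟩ := hMcam a a.2 ha b b.2 hb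
      exact ⟨⟨x, hxM⟩, Subtype.ext hx⟩
    have hdiv : ∀ r : ℕ, r.Prime → r ∣ N.index → r ∣ Nat.card (N.subgroupOf M) := by
      intro r hr hri
      haveI : Fact r.Prime := ⟨hr⟩
      have h1 : r ∣ Nat.card M := by
        rw [← hidx] at hri
        exact dvd_trans hri (Subgroup.index_dvd_card _)
      obtain ⟨x, hx⟩ := exists_prime_orderOf_dvd_card' r h1
      have hxN : (x : G) ∈ N := by
        by_contra hxN
        apply hex (x : G) hxN
        rw [Subgroup.orderOf_coe, hx]; exact hr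
      have hxN' : x ∈ N.subgroupOf M := hxN
      rw [← hx]
      exact Subgroup.orderOf_dvd_natCard _ hxN'
    obtain ⟨p, hp, hpi⟩ := Nat.exists_prime_and_dvd (fun h => hN2 (Subgroup.index_eq_one.mp h))
    have hall := cam_pgroup (N.subgroupOf M) hcam'
      (fun s hs => cam_hsyl (N.subgroupOf M) hMnil s hs) p hp (hdiv p hp hpi)
      (by rw [hidx]; exact hpi)
    exact cam_isPrimePow Subgroup.index_ne_zero_of_finite hp hpi
      (fun d hd hdi => hall d hd (hdiv d hd hdi))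

end Cfsg.Agent.Helper4
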