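import Mathlib
import Cfsg.Prelude.Def_CaseTheorems
import Cfsg.Agent.Helper9.PConstr
import Cfsg.Agent.Helper17.AxB

set_option autoImplicit false

namespace Cfsg.Agent.Helper4

open Cfsg Cfsg.Agent.Helper17 Cfsg.Agent.Helper9

/-- the layer of a solvable group is trivial -/
theorem layer_eq_bot_of_solvable {X : Type*} [Group X] (hs : Group.IsSolvable X) :
    Cfsg.layer X = ⊥ := by
  rw [eq_bot_iff]
  apply sSup_le
  intro K hK
  exfalso
  exact quasi_not_solvable hK.2 inferInstance

/-- a solvable subgroup with trivial `p'`-core has characteristic `p` -/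
theorem charPA_of_solvable_of_pPrimeCore_eq_bot {G : Type*} [Group G] [Finite G] (p : ℕ)
    [Fact p.Prime] (X : Subgroup G) (hs : Group.IsSolvable X)
    (hc : Cfsg.pPrimeCore p X = ⊥) : CharPA p X := by
  rw [charPA_iff]
  exact (layer_eq_bot_iff_centralizer_pCore_le p hc).mp (layer_eq_bot_of_solvable hs)

theorem char_two_type_of_solvable_corefree {G : Type*} [Group G] [Finite G]
    (h2 : Even (Nat.card G))
    (hs : ∀ t : G, orderOf t = 2 → Group.IsSolvable (Subgroup.centralizer ({t} : Set G)))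
    (hc : ∀ t : G, orderOf t = 2 → Cfsg.oddCore (Subgroup.centralizer ({t} : Set G)) = ⊥) :
    Cfsg.IsCharacteristicTwoType G := by
  haveI : Fact (Nat.Prime 2) := ⟨Nat.prime_two⟩
  refine ⟨h2, fun T hT hT1 => ?_⟩
  unfold Cfsg.IsOfCharacteristicTwo
  rw [← charPA_iff]
  have hTQ : T ≤ pc 2 (Subgroup.normalizer (T : Set G)) :=
    le_pc Subgroup.le_normalizer hT le_rfl
  have hQ1 : pc 2 (Subgroup.normalizer (T : Set G)) ≠ ⊥ := by
    intro h
    apply hT1
    rw [eq_bot_iff, ← h]
    exact hTQ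
  obtain ⟨z, hzQ, hz2, hzc⟩ := exists_central_mem_of_normal (p := 2)
    (pc 2 (Subgroup.normalizer (T : Set G))) (pc 2 (Subgroup.normalizer (T : Set G)))
    (pc_isPGroup _) le_rfl Subgroup.le_normalizer hQ1
  have hX : CharPA 2 (Subgroup.centralizer ({z} : Set G)) :=
    charPA_of_solvable_of_pPrimeCore_eq_bot 2 _ (hs z hz2) (hc z hz2)
  have hTX : T ≤ Subgroup.centralizer ({z} : Set G) := by
    intro t ht
    rw [Subgroup.mem_centralizer_iff]
    intro h hh
    rw [Set.mem_singleton_iff] at hh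
    rw [hh]
    exact (hzc t (hTQ ht)).symm
  have h0 : CharPA 2 (Subgroup.centralizer ({z} : Set G) ⊓ Subgroup.normalizer (T : Set G)) :=
    charPA_local hX hTX hT
  apply charPA_of_centralizer_le h0 inf_le_right
  intro x hx
  obtain ⟨hxN, hxC⟩ := Subgroup.mem_inf.mp hx
  refine Subgroup.mem_inf.mpr ⟨?_, hxN⟩
  rw [Subgroup.mem_centralizer_iff]
  intro h hh
  rw [Set.mem_singleton_iff] at hh
  rw [hh]
  exact Subgroup.mem_centralizer_iff.mp hxC z hzQ

end Cfsg.Agent.Helper4
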