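import Mathlib
import Cfsg.Prelude.Def_Local
import Cfsg.Agent.Helper4.HallHigman
import Cfsg.Agent.Helper4.CardMul
import Cfsg.Agent.Helper9.Factor
import Cfsg.Agent.Helper1.Coprime2

set_option autoImplicit false

namespace Cfsg.Agent.Helper4

open scoped Pointwise

universe u

/-- Lift an element of prime power order along a surjection to an element of prime power order. -/
theorem exists_lift_prime_pow_order {G H : Type*} [Group G] [Finite G] [Group H] (f : G →* H)
    (hf : Function.Surjective f) (q : ℕ) [Fact q.Prime] (yb : H) (k : ℕ)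
    (hy : orderOf yb = q ^ k) : ∃ y : G, f y = yb ∧ ∃ j : ℕ, orderOf y = q ^ j := by
  have hqp : q.Prime := Fact.out
  obtain ⟨x, rfl⟩ := hf yb
  obtain ⟨a, m, hm, hxm⟩ := Nat.exists_eq_pow_mul_and_not_dvd (orderOf_pos x).ne' q hqp.ne_one
  have hcop : Nat.Coprime m (q ^ k) :=
    (((Nat.Prime.coprime_iff_not_dvd hqp).mpr hm).symm).pow_right k
  have hb := Nat.gcd_eq_gcd_ab m (q ^ k)
  rw [Nat.Coprime.gcd_eq_one hcop] at hb
  set A := Nat.gcdA m (q ^ k) with hA
  set B := Nat.gcdB m (q ^ k) with hB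
  have hb' : (m : ℤ) * A = 1 - ((q ^ k : ℕ) : ℤ) * B := by
    push_cast at hb ⊢
    linarith
  have hfx : (f x) ^ (q ^ k) = 1 := by rw [← hy]; exact pow_orderOf_eq_one _
  have hxo : x ^ (q ^ a * m) = 1 := by rw [← hxm]; exact pow_orderOf_eq_one _
  refine ⟨x ^ ((m : ℤ) * A), ?_, ?_⟩
  · rw [map_zpow, hb', zpow_sub, zpow_one, zpow_mul, zpow_natCast, hfx, one_zpow, inv_one,
      mul_one]
  · have h1 : (x ^ ((m : ℤ) * A)) ^ (q ^ a) = 1 := by
      calc (x ^ ((m : ℤ) * A)) ^ (q ^ a) = x ^ ((m : ℤ) * A * ((q ^ a : ℕ) : ℤ)) := by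
            rw [← zpow_natCast, ← zpow_mul]
        _ = x ^ (((q ^ a * m : ℕ) : ℤ) * A) := by
            congr 1; push_cast; ring
        _ = (x ^ (q ^ a * m)) ^ A := by rw [zpow_mul, zpow_natCast]
        _ = 1 := by rw [hxo, one_zpow]
    obtain ⟨j, -, hj⟩ := (Nat.dvd_prime_pow hqp).mp (orderOf_dvd_of_pow_eq_one h1)
    exact ⟨j, hj⟩

/-- A subgroup of index prime to `p` contains a Sylow `p`-subgroup. -/
theorem exists_sylow_le_of_not_dvd_index {G : Type*} [Group G] [Finite G] (p : ℕ) [Fact p.Prime]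
    (C : Subgroup G) (h : ¬ p ∣ C.index) : ∃ P : Sylow p G, (P : Subgroup G) ≤ C := by
  obtain ⟨S⟩ : Nonempty (Sylow p C) := inferInstance
  have hc : Nat.card ((S : Subgroup C).map C.subtype) = p ^ (Nat.card G).factorization p := by
    rw [Subgroup.card_map_of_injective C.subtype_injective, S.card_eq_multiplicity]
    congr 1
    have h1 : Nat.card G = C.index * Nat.card C := (Subgroup.index_mul_card C).symm
    rw [h1, Nat.factorization_mul (Subgroup.index_ne_zero_of_finite) (Nat.card_pos.ne')]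
    simp [Nat.factorization_eq_zero_of_not_dvd h]
  exact ⟨Sylow.ofCard _ hc, by rw [Sylow.coe_ofCard]; exact Subgroup.map_subtype_le _⟩

theorem fact_card_eq {G : Type*} [Group G] [Finite G] (p : ℕ) (H : Subgroup G) :
    (Nat.card G).factorization p = (H.index).factorization p + (Nat.card H).factorization p := by
  rw [← Subgroup.index_mul_card H,
    Nat.factorization_mul (Subgroup.index_ne_zero_of_finite) Nat.card_pos.ne']
  rfl

theorem fact_le_of_le {G : Type*} [Group G] [Finite G] (p : ℕ) {H K : Subgroup G} (h : H ≤ K) :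
    (Nat.card H).factorization p ≤ (Nat.card K).factorization p :=
  (Nat.factorization_le_iff_dvd Nat.card_pos.ne' Nat.card_pos.ne').mpr
    (Subgroup.card_dvd_of_le h) p

theorem fact_sup_inf {G : Type*} [Group G] [Finite G] (p : ℕ) (H K : Subgroup G)
    (hHK : H ≤ Subgroup.normalizer (K : Set G)) :
    (Nat.card ↥(H ⊔ K)).factorization p + (Nat.card ↥(H ⊓ K)).factorization p =
      (Nat.card H).factorization p + (Nat.card K).factorization p := by
  have h1 := congrArg (fun n => n.factorization p) (card_sup_mul_card_inf H K hHK)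
  simp only [Nat.factorization_mul Nat.card_pos.ne' Nat.card_pos.ne', Finsupp.add_apply] at h1
  exact h1

theorem not_dvd_index_iff {G : Type*} [Group G] [Finite G] (p : ℕ) [Fact p.Prime]
    (H : Subgroup G) : ¬ p ∣ H.index ↔ (H.index).factorization p = 0 := by
  have hpp : p.Prime := Fact.out
  constructor
  · intro h
    exact Nat.factorization_eq_zero_of_not_dvd h
  · intro h
    rcases (Nat.factorization_eq_zero_iff _ _).mp h with h1 | h1 | h1
    · exact absurd hpp h1
    · exact h1
    · exact absurd h1 Subgroup.index_ne_zero_of_finite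

theorem exists_orderOf_eq_pow_of_mem_sylow {G : Type*} [Group G] {q : ℕ} [Fact q.Prime]
    (Q : Sylow q G) {y : G} (hy : y ∈ (Q : Subgroup G)) : ∃ k : ℕ, orderOf y = q ^ k := by
  obtain ⟨k, hk⟩ := Q.isPGroup' ⟨y, hy⟩
  have h1 : y ^ q ^ k = 1 := congrArg Subtype.val hk
  obtain ⟨j, -, hj⟩ := (Nat.dvd_prime_pow Fact.out).mp (orderOf_dvd_of_pow_eq_one h1)
  exact ⟨j, hj⟩

/-- The `p`-solvable case. -/
theorem sylow_normalizes_of_class_psolv {G : Type u} [Group G] [Finite G] (p q : ℕ)
    [Fact p.Prime] [Fact q.Prime] (hpq : p ≠ q) (hsolv : Cfsg.IsPSolvable p G)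
    (h : ∀ y : G, (∃ k : ℕ, orderOf y = q ^ k) →
      ¬ p ∣ (Subgroup.centralizer ({y} : Set G)).index) :
    ∃ (P : Sylow p G) (Q : Sylow q G),
      (P : Subgroup G) ≤ Subgroup.normalizer ((Q : Subgroup G) : Set G) := by
  have hpp : p.Prime := Fact.out
  have hqp : q.Prime := Fact.out
  rw [sylow_normalizes_sylow_iff p q hpq hsolv]
  set N := Cfsg.pPrimeCore p G with hN
  haveI hNn : N.Normal := inferInstance
  set π := QuotientGroup.mk' N with hπ
  have hπs : Function.Surjective π := QuotientGroup.mk'_surjective N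
  set U := Cfsg.pCore p (G ⧸ N) with hU
  haveI hUn : U.Normal := Cfsg.pCore_normal p (G ⧸ N)
  have hUp : IsPGroup p U := Cfsg.Agent.Helper9.pCore_isPGroup p
  have hHH : Subgroup.centralizer (U : Set (G ⧸ N)) ≤ U :=
    centralizer_pCore_le_of_psolvable p (Cfsg.Agent.Helper20.isPSolvable_quotient p hsolv N)
      (Cfsg.Agent.Helper9.pPrimeCore_quotient_eq_bot p)
  have hqN : ∀ y : G, (∃ k, orderOf y = q ^ k) → y ∈ N := by
    intro y hy
    obtain ⟨P, hP⟩ := exists_sylow_le_of_not_dvd_index p _ (h y hy)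
    have hUP : U ≤ ((P.mapSurjective hπs : Sylow p (G ⧸ N)) : Subgroup (G ⧸ N)) :=
      hUp.le_sylow_of_normal _
    have hyC : π y ∈ Subgroup.centralizer (U : Set (G ⧸ N)) := by
      rw [Subgroup.mem_centralizer_iff]
      intro u hu
      have hu' := hUP hu
      rw [Sylow.coe_mapSurjective] at hu'
      obtain ⟨x, hx, rfl⟩ := Subgroup.mem_map.mp hu'
      have hxy := Subgroup.mem_centralizer_iff.mp (hP hx) y (Set.mem_singleton y)
      rw [← map_mul, ← map_mul, hxy]
    have hyU := hHH hyC
    obtain ⟨k, hk⟩ := hy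
    obtain ⟨j, hj⟩ := hUp ⟨π y, hyU⟩
    have hj' : (π y) ^ p ^ j = 1 := congrArg Subtype.val hj
    have h1 : orderOf (π y) ∣ p ^ j := orderOf_dvd_of_pow_eq_one hj'
    have h2 : orderOf (π y) ∣ q ^ k := by rw [← hk]; exact orderOf_map_dvd π y
    have hcop : Nat.Coprime (p ^ j) (q ^ k) :=
      Nat.Coprime.pow j k ((Nat.coprime_primes hpp hqp).mpr hpq)
    have h3 : orderOf (π y) = 1 := (Nat.Coprime.coprime_dvd_left h1 hcop).eq_one_of_dvd h2
    exact (QuotientGroup.eq_one_iff y).mp (orderOf_eq_one_iff.mp h3)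
  obtain ⟨Q⟩ : Nonempty (Sylow q G) := inferInstance
  have hQN : (Q : Subgroup G) ≤ N := fun y hy => hqN y (exists_orderOf_eq_pow_of_mem_sylow Q hy)
  intro hdvd
  have h1 := Subgroup.relIndex_mul_index hQN
  exact Q.not_dvd_index (h1 ▸ Dvd.dvd.mul_left hdvd _)

/-- The `q`-solvable case: the normalizer of a Sylow `q`-subgroup has index prime to `p`. -/
theorem not_dvd_index_normalizer_sylow (p q : ℕ) [Fact p.Prime] [Fact q.Prime] (hpq : p ≠ q) :
    ∀ (n : ℕ) (G : Type u) [Group G] [Finite G], Cfsg.IsPSolvable q G → Nat.card G = n →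
    (∀ y : G, (∃ k : ℕ, orderOf y = q ^ k) →
      ¬ p ∣ (Subgroup.centralizer ({y} : Set G)).index) →
    ∀ Q : Sylow q G, ¬ p ∣ (Subgroup.normalizer ((Q : Subgroup G) : Set G)).index := by
  intro n
  induction n using Nat.strong_induction_on with
  | _ n ih =>
  intro G _ _ hG hcard h Q
  have hpp : p.Prime := Fact.out
  have hqp : q.Prime := Fact.out
  by_cases htriv : Subsingleton G
  · have h1 : Subgroup.normalizer ((Q : Subgroup G) : Set G) = ⊤ := Subsingleton.elim _ _
    rw [h1, Subgroup.index_top]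
    exact Nat.Prime.not_dvd_one hpp
  rw [not_subsingleton_iff_nontrivial] at htriv
  obtain ⟨M, hMn, hMne, hM⟩ := Cfsg.Agent.Helper20.psolvable_setup q hG
  haveI := hMn
  set π := QuotientGroup.mk' M with hπ
  have hπs : Function.Surjective π := QuotientGroup.mk'_surjective M
  have hker : π.ker = M := QuotientGroup.ker_mk' M
  have hlt : Nat.card (G ⧸ M) < n := by
    rw [← hcard, ← Subgroup.index_eq_card, ← Subgroup.index_mul_card M]
    have h1 : 1 < Nat.card M := (Subgroup.one_lt_card_iff_ne_bot M).mpr hMne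
    have h2 : 0 < M.index := Nat.pos_of_ne_zero (Subgroup.index_ne_zero_of_finite)
    nlinarith
  have hquot : ∀ yb : G ⧸ M, (∃ k : ℕ, orderOf yb = q ^ k) →
      ¬ p ∣ (Subgroup.centralizer ({yb} : Set (G ⧸ M))).index := by
    rintro yb ⟨k, hk⟩
    obtain ⟨y, rfl, hy⟩ := exists_lift_prime_pow_order π hπs q yb k hk
    have h1 := h y hy
    have h2 : (Subgroup.centralizer ({y} : Set G)).map π ≤
        Subgroup.centralizer ({π y} : Set (G ⧸ M)) := by
      rintro _ ⟨x, hx, rfl⟩
      rw [Subgroup.mem_centralizer_iff]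
      intro z hz
      rw [Set.mem_singleton_iff] at hz
      have h3 := Subgroup.mem_centralizer_iff.mp hx y (Set.mem_singleton y)
      rw [hz, ← map_mul, ← map_mul, h3]
    intro hdvd
    exact h1 (hdvd.trans ((Subgroup.index_dvd_of_le h2).trans (Subgroup.index_map_dvd _ hπs)))
  have hIH := ih _ hlt (G ⧸ M) (Cfsg.Agent.Helper20.isPSolvable_quotient q hG M) rfl hquot
    (Q.mapSurjective hπs)
  rw [Sylow.coe_mapSurjective] at hIH
  have hY : (Subgroup.normalizer (((Q : Subgroup G) ⊔ M : Subgroup G) : Set G)).index =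
      (Subgroup.normalizer (((Q : Subgroup G).map π : Subgroup (G ⧸ M)) : Set (G ⧸ M))).index := by
    rw [← Subgroup.index_comap_of_surjective _ hπs,
      Subgroup.comap_normalizer_eq_of_surjective _ hπs, Subgroup.comap_map_eq, hker]
  rcases hM with hMq | hMc
  · have hMQ : M ≤ (Q : Subgroup G) := hMq.le_sylow_of_normal Q
    rw [sup_eq_left.mpr hMQ] at hY
    rw [hY]; exact hIH
  · set N := Subgroup.normalizer ((Q : Subgroup G) : Set G) with hN
    set T := (Q : Subgroup G) ⊔ M with hT
    have hcopQM : (Nat.card (Q : Subgroup G)).Coprime (Nat.card M) := by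
      obtain ⟨k, hk⟩ := (IsPGroup.iff_card).mp Q.isPGroup'
      rw [hk]; exact (hMc.pow_right k).symm
    have hQsolv : Group.IsSolvable (Q : Subgroup G) := by
      haveI : Group.IsNilpotent (Q : Subgroup G) := Q.isPGroup'.isNilpotent
      infer_instance
    have hQM : (Q : Subgroup G) ≤ Subgroup.normalizer (M : Set G) := by
      rw [Subgroup.normalizer_eq_top]; exact le_top
    have hstep1 : Subgroup.normalizer (T : Set G) ≤ N ⊔ M := by
      intro x hx
      have hB : MulAut.conj x • (Q : Subgroup G) ≤ M ⊔ (Q : Subgroup G) := by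
        intro z hz
        rw [Cfsg.Agent.Helper1.mem_conj_smul] at hz
        have h1 : x⁻¹ * z * x ∈ T := le_sup_left (a := (Q : Subgroup G)) hz
        have h2 := (Subgroup.mem_normalizer_iff.mp hx (x⁻¹ * z * x)).mp h1
        have e : x * (x⁻¹ * z * x) * x⁻¹ = z := by group
        rw [e] at h2
        rw [sup_comm]; exact h2
      obtain ⟨d, hd, hdQ⟩ := Cfsg.Agent.Helper1.sz2 M (Q : Subgroup G)
        (MulAut.conj x • (Q : Subgroup G)) hQM hB (Cfsg.Agent.Helper1.card_conj_smul _ x)
        hcopQM (Or.inl hQsolv)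
      have hdx : d⁻¹ * x ∈ N := by
        rw [hN, Cfsg.Agent.Helper1.mem_normalizer_iff_conj_smul, map_mul, mul_smul, ← hdQ,
          ← mul_smul, ← map_mul, inv_mul_cancel, map_one, one_smul]
      have e : x = d * (d⁻¹ * x) := by group
      rw [e]
      exact Subgroup.mul_mem _ (le_sup_right (a := N) hd) (le_sup_left (b := M) hdx)
    have hNM : ¬ p ∣ (N ⊔ M).index := by
      intro hd
      apply hIH
      rw [← hY]
      exact hd.trans (Subgroup.index_dvd_of_le hstep1)
    obtain ⟨R, hRM, hRcard, hQR⟩ := Cfsg.Agent.Helper1.inv_sylow_exists (Q : Subgroup G) M hQM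
      hcopQM (Or.inl hQsolv) p
    have hRfact : (Nat.card R).factorization p = (Nat.card M).factorization p := by
      rw [hRcard, Nat.Prime.factorization_pow hpp]
      simp
    have hRcent : R ≤ Subgroup.centralizer ((Q : Subgroup G) : Set G) := by
      intro r hr
      rw [Subgroup.mem_centralizer_iff]
      intro y hy
      have hyo := exists_orderOf_eq_pow_of_mem_sylow Q hy
      have hidx := h y hyo
      set Cy := Subgroup.centralizer ({y} : Set G) with hCy
      have hCB : Subgroup.centralizer ((Subgroup.zpowers y : Subgroup G) : Set G) = Cy := by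
        rw [Subgroup.zpowers_eq_closure, Subgroup.centralizer_closure]
      have hBQ : Subgroup.zpowers y ≤ (Q : Subgroup G) := Subgroup.zpowers_le.mpr hy
      have hval : (Nat.card M).factorization p ≤ (Nat.card ↥(M ⊓ Cy)).factorization p := by
        have e1 := fact_sup_inf p Cy M (by rw [Subgroup.normalizer_eq_top]; exact le_top)
        have e2 := fact_card_eq p Cy
        have e3 := (not_dvd_index_iff p Cy).mp hidx
        have e4 := fact_card_eq p (Cy ⊔ M)
        rw [inf_comm]
        omega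
      have hsolvB : Group.IsSolvable (Subgroup.zpowers y) := by
        haveI : Group.IsNilpotent (Subgroup.zpowers y) := (Q.isPGroup'.to_le hBQ).isNilpotent
        infer_instance
      have hcard := Cfsg.Agent.Helper9.card_inf_centralizer_of_inv_sylow p (Subgroup.zpowers y) M R
        (by rw [Subgroup.normalizer_eq_top]; exact le_top)
        (Nat.Coprime.coprime_dvd_left (Subgroup.card_dvd_of_le hBQ) hcopQM)
        (Or.inl hsolvB) hRM hRcard (hBQ.trans hQR)
      rw [hCB] at hcard
      have h1 : Nat.card R ≤ Nat.card ↥(R ⊓ Cy) := by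
        rw [hcard, hRcard]
        exact Nat.pow_le_pow_right hpp.pos hval
      have h2 : R ⊓ Cy = R := Subgroup.eq_of_le_of_card_ge inf_le_left h1
      have h3 : r ∈ Cy := by
        have : r ∈ R ⊓ Cy := by rw [h2]; exact hr
        exact (Subgroup.mem_inf.mp this).2
      exact Subgroup.mem_centralizer_iff.mp h3 y (Set.mem_singleton y)
    have hRNM : R ≤ N ⊓ M :=
      le_inf (hRcent.trans (Subgroup.centralizer_le_normalizer _)) hRM
    rw [not_dvd_index_iff]
    have e1 := fact_sup_inf p N M (by rw [Subgroup.normalizer_eq_top]; exact le_top)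
    have e2 := fact_card_eq p N
    have e3 := (not_dvd_index_iff p (N ⊔ M)).mp hNM
    have e4 := fact_card_eq p (N ⊔ M)
    have e5 := fact_le_of_le p hRNM
    have e6 := fact_le_of_le p (inf_le_right : N ⊓ M ≤ M)
    omega

/-- S4601. -/
theorem sylow_normalizes_of_class {G : Type u} [Group G] [Finite G] (p q : ℕ) [Fact p.Prime]
    [Fact q.Prime] (hsolv : Cfsg.IsPSolvable p G ∨ Cfsg.IsPSolvable q G)
    (h : ∀ y : G, (∃ k : ℕ, orderOf y = q ^ k) →
      ¬ p ∣ (Subgroup.centralizer ({y} : Set G)).index) :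
    ∃ (P : Sylow p G) (Q : Sylow q G),
      (P : Subgroup G) ≤ Subgroup.normalizer ((Q : Subgroup G) : Set G) := by
  by_cases hpq : p = q
  · subst hpq
    obtain ⟨P⟩ : Nonempty (Sylow p G) := inferInstance
    exact ⟨P, P, Subgroup.le_normalizer⟩
  rcases hsolv with hs | hs
  · exact sylow_normalizes_of_class_psolv p q hpq hs h
  · obtain ⟨Q⟩ : Nonempty (Sylow q G) := inferInstance
    have h1 := not_dvd_index_normalizer_sylow p q hpq _ G hs rfl h Q
    obtain ⟨P, hP⟩ := exists_sylow_le_of_not_dvd_index p _ h1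
    exact ⟨P, Q, hP⟩

end Cfsg.Agent.Helper4
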