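import Mathlib
import Cfsg.Agent.Helper1.Subn
import Cfsg.Agent.Helper4.Wielandt

set_option autoImplicit false

namespace Cfsg.Agent.Helper4

open scoped Pointwise

universe u

section FlavellA

variable {G : Type u} [Group G] [Finite G]

/-- The conclusion of Flavell's theorem for the subgroup `A`. -/
def flaConcl (A : Subgroup G) : Prop :=
  sSup {H : Subgroup G | A ≤ H ∧ H ≠ ⊤ ∧
    Subgroup.normalClosure ((A.subgroupOf H : Subgroup ↥H) : Set ↥H) = ⊤} = ⊤ ∨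
      ∃! M : Subgroup G, IsCoatom M ∧ A ≤ M

/-- `H` is the normal closure of `A` in `H`, stated inside `G`. -/
def flaFull (A H : Subgroup G) : Prop :=
  ∀ N : Subgroup G, A ≤ N → (∀ h ∈ H, ∀ n ∈ N, h * n * h⁻¹ ∈ N) → H ≤ N

theorem fla_full_iff {A H : Subgroup G} (hAH : A ≤ H) :
    Subgroup.normalClosure ((A.subgroupOf H : Subgroup ↥H) : Set ↥H) = ⊤ ↔ flaFull A H := by
  constructor
  · intro hfull N hAN hnorm
    have hn : (N.subgroupOf H).Normal := by
      refine ⟨fun n hn g => ?_⟩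
      rw [Subgroup.mem_subgroupOf] at hn ⊢
      exact hnorm g g.2 n hn
    have hle : Subgroup.normalClosure ((A.subgroupOf H : Subgroup ↥H) : Set ↥H) ≤
        N.subgroupOf H :=
      Subgroup.normalClosure_le_normal (fun x hx => by
        rw [SetLike.mem_coe, Subgroup.mem_subgroupOf] at hx ⊢
        exact hAN hx)
    rw [hfull] at hle
    intro h hh
    have := hle (Subgroup.mem_top (⟨h, hh⟩ : H))
    rwa [Subgroup.mem_subgroupOf] at this
  · intro hI
    have hle := hI ((Subgroup.normalClosure ((A.subgroupOf H : Subgroup ↥H) : Set ↥H)).map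
        H.subtype) (by
        intro a ha
        exact ⟨⟨a, hAH ha⟩, Subgroup.subset_normalClosure (by
          rw [SetLike.mem_coe, Subgroup.mem_subgroupOf]; exact ha), rfl⟩)
      (by
        rintro h hh _ ⟨y, hy, rfl⟩
        exact ⟨⟨h, hh⟩ * y * ⟨h, hh⟩⁻¹,
          (Subgroup.normalClosure_normal).conj_mem y hy ⟨h, hh⟩, rfl⟩)
    rw [eq_top_iff]
    intro x _
    obtain ⟨y, hy, hyx⟩ := hle x.2
    have : y = x := Subtype.ext hyx
    rwa [← this]

theorem fla_sn_mono {A H K : Subgroup G} (hHK : H ≤ K)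
    (h : (A.subgroupOf K).IsSubnormal) : (A.subgroupOf H).IsSubnormal := by
  have h2 := h.comap (Subgroup.inclusion hHK)
  have e : Subgroup.comap (Subgroup.inclusion hHK) (A.subgroupOf K) = A.subgroupOf H :=
    Subgroup.ext fun z => Iff.rfl
  rwa [e] at h2

theorem fla_sn_trans {A B C : Subgroup G} (hAB : A ≤ B) (hBC : B ≤ C)
    (h1 : (A.subgroupOf B).IsSubnormal) (h2 : (B.subgroupOf C).IsSubnormal) :
    (A.subgroupOf C).IsSubnormal :=
  Subgroup.IsSubnormal.trans (fun x hx => hAB hx)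
    (Cfsg.Agent.Helper1.subnormal_subgroupOf_subgroupOf hBC h1) h2

theorem fla_sn_sSup (𝒮 : Set (Subgroup G)) (H : Subgroup G)
    (h : ∀ B ∈ 𝒮, B ≤ H ∧ (B.subgroupOf H).IsSubnormal) :
    ((sSup 𝒮).subgroupOf H).IsSubnormal := by
  have key : (sSup 𝒮).subgroupOf H = sSup {Y : Subgroup H | ∃ B ∈ 𝒮, Y = B.subgroupOf H} := by
    apply le_antisymm
    · have h1 : sSup 𝒮 ≤
          (sSup {Y : Subgroup H | ∃ B ∈ 𝒮, Y = B.subgroupOf H}).map H.subtype := by
        apply sSup_le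
        intro B hB
        calc B = (B.subgroupOf H).map H.subtype :=
              (Subgroup.map_subgroupOf_eq_of_le (h B hB).1).symm
          _ ≤ _ := Subgroup.map_mono (le_sSup (show B.subgroupOf H ∈
              {Y : Subgroup H | ∃ B ∈ 𝒮, Y = B.subgroupOf H} from ⟨B, hB, rfl⟩))
      intro y hy
      rw [Subgroup.mem_subgroupOf] at hy
      obtain ⟨x, hx, hxy⟩ := h1 hy
      have : x = y := Subtype.ext hxy
      rwa [← this]
    · apply sSup_le
      rintro Y ⟨B, hB, rfl⟩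
      intro y hy
      rw [Subgroup.mem_subgroupOf] at hy ⊢
      exact le_sSup hB hy
  rw [key]
  exact isSubnormal_sSup _ (by rintro Y ⟨B, hB, rfl⟩; exact (h B hB).2)

theorem fla_sn_sup {B B' H : Subgroup G} (hB : B ≤ H) (hB' : B' ≤ H)
    (h : (B.subgroupOf H).IsSubnormal) (h' : (B'.subgroupOf H).IsSubnormal) :
    ((B ⊔ B').subgroupOf H).IsSubnormal := by
  have := fla_sn_sSup {B, B'} H (by
    intro X hX
    rcases hX with rfl | rfl
    · exact ⟨hB, h⟩
    · exact ⟨hB', h'⟩)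
  rwa [sSup_pair] at this

theorem fla_sn_full_le {T H : Subgroup G} (hTH : T ≤ H) (hsn : (T.subgroupOf H).IsSubnormal)
    (hfull : flaFull T H) : H ≤ T := by
  by_cases htop : T.subgroupOf H = ⊤
  · intro h hh
    have : (⟨h, hh⟩ : H) ∈ T.subgroupOf H := by rw [htop]; exact Subgroup.mem_top _
    rwa [Subgroup.mem_subgroupOf] at this
  · obtain ⟨K, hKn, hTK, hKlt⟩ := hsn.exists_normal_and_le_and_lt_top_of_ne htop
    exfalso
    have hle := hfull (K.map H.subtype) (by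
        intro t ht
        exact ⟨⟨t, hTH ht⟩, hTK (by rw [Subgroup.mem_subgroupOf]; exact ht), rfl⟩)
      (by
        rintro h hh _ ⟨y, hy, rfl⟩
        exact ⟨⟨h, hh⟩ * y * ⟨h, hh⟩⁻¹, hKn.conj_mem y hy ⟨h, hh⟩, rfl⟩)
    apply hKlt.ne
    rw [eq_top_iff]
    intro x _
    obtain ⟨y, hy, hyx⟩ := hle x.2
    have : y = x := Subtype.ext hyx
    rwa [← this]

theorem fla_exists_full {A H : Subgroup G} (hAH : A ≤ H)
    (hns : ¬ (A.subgroupOf H).IsSubnormal) :
    ∃ F : Subgroup G, A ≤ F ∧ F ≤ H ∧ A ≠ F ∧ flaFull A F := by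
  obtain ⟨F, hFmin⟩ := exists_minimal_of_wellFoundedLT
    (fun F : Subgroup G => A ≤ F ∧ F ≤ H ∧ ¬ (A.subgroupOf F).IsSubnormal) ⟨H, hAH, le_rfl, hns⟩
  obtain ⟨hAF, hFH, hFns⟩ := hFmin.prop
  refine ⟨F, hAF, hFH, ?_, ?_⟩
  · rintro rfl
    apply hFns
    rw [Subgroup.subgroupOf_self]
    exact Subgroup.IsSubnormal.top
  · intro N hAN hnorm
    by_contra hFN
    have hlt : N ⊓ F < F := lt_of_le_of_ne inf_le_right (fun h => hFN (by rw [← h]; exact inf_le_left))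
    have hsn : (A.subgroupOf (N ⊓ F)).IsSubnormal := by
      by_contra hc
      have := hFmin.le_of_le ⟨le_inf hAN hAF, inf_le_right.trans hFH, hc⟩ inf_le_right
      exact absurd this (not_le_of_gt hlt)
    apply hFns
    refine fla_sn_trans (le_inf hAN hAF) inf_le_right hsn ?_
    apply Subgroup.Normal.isSubnormal
    refine ⟨fun n hn g => ?_⟩
    rw [Subgroup.mem_subgroupOf] at hn ⊢
    have hn' := Subgroup.mem_inf.mp hn
    exact Subgroup.mem_inf.mpr ⟨hnorm g g.2 n hn'.1,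
      F.mul_mem (F.mul_mem g.2 hn'.2) (F.inv_mem g.2)⟩

theorem fla_exists_coatom {H : Subgroup G} (hH : H ≠ ⊤) : ∃ K, IsCoatom K ∧ H ≤ K :=
  (eq_top_or_exists_le_coatom H).resolve_left hH

theorem fla_cj_inv_cj (g : G) (H : Subgroup G) :
    MulAut.conj g⁻¹ • MulAut.conj g • H = H := by
  rw [← mul_smul, ← map_mul, inv_mul_cancel, map_one, one_smul]

theorem fla_cj_cj_inv (g : G) (H : Subgroup G) :
    MulAut.conj g • MulAut.conj g⁻¹ • H = H := by
  rw [← mul_smul, ← map_mul, mul_inv_cancel, map_one, one_smul]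

theorem fla_cj_le_iff (g : G) (H K : Subgroup G) :
    MulAut.conj g • H ≤ K ↔ H ≤ MulAut.conj g⁻¹ • K := by
  constructor
  · intro h
    have := (Subgroup.pointwise_smul_le_pointwise_smul_iff (a := MulAut.conj g⁻¹)).mpr h
    rwa [fla_cj_inv_cj] at this
  · intro h
    have := (Subgroup.pointwise_smul_le_pointwise_smul_iff (a := MulAut.conj g)).mpr h
    rwa [fla_cj_cj_inv] at this

theorem fla_cj_top (g : G) : MulAut.conj g • (⊤ : Subgroup G) = ⊤ := by
  rw [eq_top_iff]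
  intro x _
  rw [Cfsg.Agent.Helper1.mem_conj_smul]
  exact Subgroup.mem_top _

theorem fla_cj_self {H : Subgroup G} {g : G} (hg : g ∈ H) : MulAut.conj g • H = H :=
  Cfsg.Agent.Helper1.mem_normalizer_iff_conj_smul.mp (Subgroup.le_normalizer hg)

theorem fla_cj_coatom (g : G) {M : Subgroup G} (hM : IsCoatom M) :
    IsCoatom (MulAut.conj g • M) := by
  constructor
  · intro h
    apply hM.1
    have : MulAut.conj g⁻¹ • MulAut.conj g • M = MulAut.conj g⁻¹ • (⊤ : Subgroup G) := by rw [h]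
    rwa [fla_cj_inv_cj, fla_cj_top] at this
  · intro b hb
    have h1 : M < MulAut.conj g⁻¹ • b := by
      apply lt_of_le_of_ne ((fla_cj_le_iff g M b).mp hb.le)
      intro h
      apply hb.ne
      rw [h, fla_cj_cj_inv]
    have h2 := hM.2 _ h1
    have : MulAut.conj g • MulAut.conj g⁻¹ • b = MulAut.conj g • (⊤ : Subgroup G) := by rw [h2]
    rwa [fla_cj_cj_inv, fla_cj_top] at this

theorem fla_nc_top {A : Subgroup G} (hnc : Subgroup.normalClosure (A : Set G) = ⊤) {g : G}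
    {T : Subgroup G} (h : MulAut.conj g • A ≤ T) : Subgroup.normalClosure (T : Set G) = ⊤ := by
  rw [eq_top_iff, ← hnc]
  apply Subgroup.normalClosure_le_normal
  intro a ha
  have h0 : g * a * g⁻¹ ∈ MulAut.conj g • A := by
    rw [Cfsg.Agent.Helper1.mem_conj_smul]
    have e : g⁻¹ * (g * a * g⁻¹) * g = a := by group
    rw [e]; exact ha
  have h1 : g * a * g⁻¹ ∈ Subgroup.normalClosure (T : Set G) :=
    Subgroup.subset_normalClosure (h h0)
  have h2 := (Subgroup.normalClosure_normal (s := (T : Set G))).conj_mem _ h1 g⁻¹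
  have e : g⁻¹ * (g * a * g⁻¹) * g⁻¹⁻¹ = a := by group
  rw [e] at h2
  exact h2

/-- `M` is the unique maximal subgroup in which `B` fails to be subnormal. -/
def flaSpecial (B M : Subgroup G) : Prop :=
  IsCoatom M ∧ B ≤ M ∧ ¬ (B.subgroupOf M).IsSubnormal ∧
    ∀ H : Subgroup G, B ≤ H → H ≠ ⊤ → H ≤ M ∨ (B.subgroupOf H).IsSubnormal

/-- A conjugate `B` of `A` together with its special maximal subgroup. -/
def flaPt (A B M : Subgroup G) : Prop := flaSpecial B M ∧ ∃ g : G, B = MulAut.conj g • A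

theorem fla_special_conj (g : G) {B M : Subgroup G} (h : flaSpecial B M) :
    flaSpecial (MulAut.conj g • B) (MulAut.conj g • M) := by
  obtain ⟨hM, hBM, hns, hall⟩ := h
  refine ⟨fla_cj_coatom g hM, (Subgroup.pointwise_smul_le_pointwise_smul_iff).mpr hBM, ?_, ?_⟩
  · intro hsn
    apply hns
    have := Cfsg.Agent.Helper1.subnormal_conj g⁻¹ hsn
    rwa [fla_cj_inv_cj, fla_cj_inv_cj] at this
  · intro H hBH hH
    have h1 : B ≤ MulAut.conj g⁻¹ • H := (fla_cj_le_iff g B H).mp hBH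
    have h2 : MulAut.conj g⁻¹ • H ≠ ⊤ := by
      intro h
      apply hH
      have : MulAut.conj g • MulAut.conj g⁻¹ • H = MulAut.conj g • (⊤ : Subgroup G) := by rw [h]
      rwa [fla_cj_cj_inv, fla_cj_top] at this
    rcases hall _ h1 h2 with h3 | h3
    · left
      have := (Subgroup.pointwise_smul_le_pointwise_smul_iff (a := MulAut.conj g)).mpr h3
      rwa [fla_cj_cj_inv] at this
    · right
      have := Cfsg.Agent.Helper1.subnormal_conj g h3
      rwa [fla_cj_cj_inv] at this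

theorem fla_pt_conj {A : Subgroup G} (x : G) {B M : Subgroup G} (h : flaPt A B M) :
    flaPt A (MulAut.conj x • B) (MulAut.conj x • M) := by
  obtain ⟨g, hg⟩ := h.2
  exact ⟨fla_special_conj x h.1, x * g, by rw [hg, map_mul, mul_smul]⟩

theorem fla_special_unique {B M M' : Subgroup G} (h : flaSpecial B M) (h' : flaSpecial B M') :
    M = M' := by
  rcases h.2.2.2 M' h'.2.1 h'.1.1 with h1 | h1
  · rcases h'.1.le_iff.mp h1 with h2 | h2
    · exact absurd h2 h.1.1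
    · exact h2
  · exact absurd h1 h'.2.2.1

theorem fla_normalizer_le {A B M : Subgroup G} (hnc : Subgroup.normalClosure (A : Set G) = ⊤)
    (h : flaPt A B M) : Subgroup.normalizer (B : Set G) ≤ M := by
  intro n hn
  have hn' : MulAut.conj n • B = B := Cfsg.Agent.Helper1.mem_normalizer_iff_conj_smul.mp hn
  have h1 := fla_special_conj n h.1
  rw [hn'] at h1
  have h2 : M = MulAut.conj n • M := fla_special_unique h.1 h1
  have h3 : n ∈ Subgroup.normalizer (M : Set G) :=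
    Cfsg.Agent.Helper1.mem_normalizer_iff_conj_smul.mpr h2.symm
  have h4 : Subgroup.normalizer (M : Set G) = M := by
    rcases h.1.1.le_iff.mp Subgroup.le_normalizer with h5 | h5
    · exfalso
      have hMn : M.Normal := Subgroup.normalizer_eq_top_iff.mp h5
      obtain ⟨g, hg⟩ := h.2
      have hAM : A ≤ M := by
        have h6 : MulAut.conj g • A ≤ M := hg ▸ h.1.2.1
        have h7 := (fla_cj_le_iff g A M).mp h6
        rwa [Cfsg.Agent.Helper1.conj_smul_eq_of_normal M g⁻¹] at h7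
      have h8 : Subgroup.normalClosure (A : Set G) ≤ M := Subgroup.normalClosure_le_normal hAM
      rw [hnc] at h8
      exact h.1.1.1 (top_le_iff.mp h8)
    · exact h5
  rw [h4] at h3
  exact h3

theorem fla_P {A : Subgroup G} (hnc : Subgroup.normalClosure (A : Set G) = ⊤)
    (hMAX : ∀ T : Subgroup G, Nat.card A < Nat.card T → T ≠ ⊤ →
      Subgroup.normalClosure (T : Set G) = ⊤ → flaConcl T)
    {B M B' M' K₁ K₂ : Subgroup G} (h : flaPt A B M) (h' : flaPt A B' M') (hne : B ≠ B')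
    (hK₁ : IsCoatom K₁) (hK₂ : IsCoatom K₂) (hK : K₁ ≠ K₂)
    (h1 : B ⊔ B' ≤ K₁) (h2 : B ⊔ B' ≤ K₂) : B' ≤ M ∧ B ≤ M' ∧ M ≠ M' := by
  obtain ⟨g, hg⟩ := h.2
  obtain ⟨g', hg'⟩ := h'.2
  have hcB : Nat.card B = Nat.card A := by
    rw [hg]; exact Cfsg.Agent.Helper1.card_conj_smul A g
  have hcB' : Nat.card B' = Nat.card A := by
    rw [hg']; exact Cfsg.Agent.Helper1.card_conj_smul A g'
  have hTtop : B ⊔ B' ≠ ⊤ := fun h => hK₁.1 (top_le_iff.mp (h ▸ h1))
  have hcard : Nat.card A < Nat.card (B ⊔ B' : Subgroup G) := by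
    rw [← hcB]
    apply lt_of_le_of_ne (Subgroup.card_le_of_le le_sup_left)
    intro hc
    have e1 : B = B ⊔ B' := Subgroup.eq_of_le_of_card_ge le_sup_left hc.ge
    have hB'B : B' ≤ B := by rw [e1]; exact le_sup_right
    exact hne (Subgroup.eq_of_le_of_card_ge hB'B (by rw [hcB, hcB'])).symm
  have hncT : Subgroup.normalClosure ((B ⊔ B' : Subgroup G) : Set G) = ⊤ :=
    fla_nc_top hnc (g := g) (by rw [← hg]; exact le_sup_left)
  have hY : sSup {H : Subgroup G | B ⊔ B' ≤ H ∧ H ≠ ⊤ ∧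
      Subgroup.normalClosure (((B ⊔ B').subgroupOf H : Subgroup ↥H) : Set ↥H) = ⊤} = ⊤ := by
    rcases hMAX (B ⊔ B') hcard hTtop hncT with h3 | h3
    · exact h3
    · exfalso
      exact hK (h3.unique ⟨hK₁, h1⟩ ⟨hK₂, h2⟩)
  have key : ∀ H ∈ {H : Subgroup G | B ⊔ B' ≤ H ∧ H ≠ ⊤ ∧
      Subgroup.normalClosure (((B ⊔ B').subgroupOf H : Subgroup ↥H) : Set ↥H) = ⊤},
      H ≤ M ∨ H ≤ M' ∨ H ≤ B ⊔ B' := by
    rintro H ⟨hTH, hHtop, hfull⟩
    rcases h.1.2.2.2 H (le_sup_left.trans hTH) hHtop with h3 | h3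
    · exact Or.inl h3
    rcases h'.1.2.2.2 H (le_sup_right.trans hTH) hHtop with h4 | h4
    · exact Or.inr (Or.inl h4)
    right; right
    exact fla_sn_full_le hTH (fla_sn_sup (le_sup_left.trans hTH) (le_sup_right.trans hTH) h3 h4)
      ((fla_full_iff hTH).mp hfull)
  have hTM : B ⊔ B' ≤ M := by
    by_contra hc
    by_cases hc' : B ⊔ B' ≤ M'
    · have : (⊤ : Subgroup G) ≤ M' := by
        refine hY.ge.trans (sSup_le ?_)
        intro H hH
        rcases key H hH with h3 | h3 | h3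
        · exact absurd (hH.1.trans h3) hc
        · exact h3
        · exact h3.trans hc'
      exact h'.1.1.1 (top_le_iff.mp this)
    · have : (⊤ : Subgroup G) ≤ B ⊔ B' := by
        refine hY.ge.trans (sSup_le ?_)
        intro H hH
        rcases key H hH with h3 | h3 | h3
        · exact absurd (hH.1.trans h3) hc
        · exact absurd (hH.1.trans h3) hc'
        · exact h3
      exact hTtop (top_le_iff.mp this)
  have hTM' : B ⊔ B' ≤ M' := by
    by_contra hc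
    have : (⊤ : Subgroup G) ≤ M := by
      refine hY.ge.trans (sSup_le ?_)
      intro H hH
      rcases key H hH with h3 | h3 | h3
      · exact h3
      · exact absurd (hH.1.trans h3) hc
      · exact h3.trans hTM
    exact h.1.1.1 (top_le_iff.mp this)
  refine ⟨le_sup_right.trans hTM, le_sup_left.trans hTM', ?_⟩
  intro hMM
  have : (⊤ : Subgroup G) ≤ M := by
    refine hY.ge.trans (sSup_le ?_)
    intro H hH
    rcases key H hH with h3 | h3 | h3
    · exact h3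
    · rw [hMM]; exact h3
    · exact h3.trans hTM
  exact h.1.1.1 (top_le_iff.mp this)

theorem fla_inter_fix {A : Subgroup G} (hnc : Subgroup.normalClosure (A : Set G) = ⊤)
    (hMAX : ∀ T : Subgroup G, Nat.card A < Nat.card T → T ≠ ⊤ →
      Subgroup.normalClosure (T : Set G) = ⊤ → flaConcl T)
    {B M K : Subgroup G} (h : flaPt A B M) (hK : IsCoatom K) (hKM : K ≠ M) (hBK : B ≤ K)
    {m : G} (hmK : m ∈ K) (hmM : m ∈ M) : MulAut.conj m • B = B := by
  by_contra hne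
  have hpt : flaPt A (MulAut.conj m • B) M := by
    have := fla_pt_conj m h
    rwa [fla_cj_self hmM] at this
  have hle1 : B ⊔ MulAut.conj m • B ≤ K := sup_le hBK (by
    rw [← fla_cj_self hmK]; exact (Subgroup.pointwise_smul_le_pointwise_smul_iff).mpr hBK)
  have hle2 : B ⊔ MulAut.conj m • B ≤ M := sup_le h.1.2.1 hpt.1.2.1
  exact (fla_P hnc hMAX h hpt (Ne.symm hne) hK h.1.1 hKM hle1 hle2).2.2 rfl

theorem fla_P' {A : Subgroup G} (hnc : Subgroup.normalClosure (A : Set G) = ⊤)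
    (hMAX : ∀ T : Subgroup G, Nat.card A < Nat.card T → T ≠ ⊤ →
      Subgroup.normalClosure (T : Set G) = ⊤ → flaConcl T)
    {B M B'' M'' K₁ K₂ : Subgroup G} (h : flaPt A B M) (h'' : flaPt A B'' M'')
    (hK₁ : IsCoatom K₁) (hK₂ : IsCoatom K₂) (hK : K₁ ≠ K₂)
    (hB1 : B ≤ K₁) (hB2 : B ≤ K₂) (hB''1 : B'' ≤ K₁) (hB''2 : B'' ≤ K₂) : B'' ≤ M := by
  by_cases he : B = B''
  · rw [← he]; exact h.1.2.1
  · exact (fla_P hnc hMAX h h'' he hK₁ hK₂ hK (sup_le hB1 hB''1) (sup_le hB2 hB''2)).1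

/-- The set of conjugates of `A` (with a special maximal subgroup) inside `K₁ ⊓ K₂`. -/
def flaLine (A K₁ K₂ : Subgroup G) : Set (Subgroup G) :=
  {B | (∃ M, flaPt A B M) ∧ B ≤ K₁ ∧ B ≤ K₂}

theorem fla_line_sub {A : Subgroup G} (hnc : Subgroup.normalClosure (A : Set G) = ⊤)
    (hMAX : ∀ T : Subgroup G, Nat.card A < Nat.card T → T ≠ ⊤ →
      Subgroup.normalClosure (T : Set G) = ⊤ → flaConcl T)
    {K₁ K₂ B₁ M₁ B₂ M₂ : Subgroup G} (hK₁ : IsCoatom K₁) (hK₂ : IsCoatom K₂) (hK : K₁ ≠ K₂)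
    (h₁ : flaPt A B₁ M₁) (h₂ : flaPt A B₂ M₂)
    (hB₁ : B₁ ∈ flaLine A K₁ K₂) (hB₂ : B₂ ∈ flaLine A K₁ K₂) :
    flaLine A K₁ K₂ ⊆ flaLine A M₁ M₂ := by
  rintro X ⟨⟨MX, hX⟩, hX1, hX2⟩
  exact ⟨⟨MX, hX⟩, fla_P' hnc hMAX h₁ hX hK₁ hK₂ hK hB₁.2.1 hB₁.2.2 hX1 hX2,
    fla_P' hnc hMAX h₂ hX hK₁ hK₂ hK hB₂.2.1 hB₂.2.2 hX1 hX2⟩

theorem fla_line_eq {A : Subgroup G} (hnc : Subgroup.normalClosure (A : Set G) = ⊤)
    (hMAX : ∀ T : Subgroup G, Nat.card A < Nat.card T → T ≠ ⊤ →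
      Subgroup.normalClosure (T : Set G) = ⊤ → flaConcl T)
    {K₁ K₂ B B' : Subgroup G} (hB : flaPt A B K₁) (hB' : flaPt A B' K₂) (hK : K₁ ≠ K₂)
    (hBK₂ : B ≤ K₂) (hB'K₁ : B' ≤ K₁)
    {P₁ N₁ P₂ N₂ : Subgroup G} (h₁ : flaPt A P₁ N₁) (h₂ : flaPt A P₂ N₂) (hne : P₁ ≠ P₂)
    (hP₁ : P₁ ∈ flaLine A K₁ K₂) (hP₂ : P₂ ∈ flaLine A K₁ K₂) :
    flaLine A K₁ K₂ = flaLine A N₁ N₂ := by
  have hsub := fla_line_sub hnc hMAX hB.1.1 hB'.1.1 hK h₁ h₂ hP₁ hP₂
  have hN := (fla_P hnc hMAX h₁ h₂ hne hB.1.1 hB'.1.1 hK (sup_le hP₁.2.1 hP₂.2.1)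
    (sup_le hP₁.2.2 hP₂.2.2)).2.2
  have hBl : B ∈ flaLine A K₁ K₂ := ⟨⟨K₁, hB⟩, hB.1.2.1, hBK₂⟩
  have hB'l : B' ∈ flaLine A K₁ K₂ := ⟨⟨K₂, hB'⟩, hB'K₁, hB'.1.2.1⟩
  exact Set.Subset.antisymm hsub
    (fla_line_sub hnc hMAX h₁.1.1 h₂.1.1 hN hB hB' (hsub hBl) (hsub hB'l))

theorem fla_stab {A : Subgroup G} (hnc : Subgroup.normalClosure (A : Set G) = ⊤)
    (hMAX : ∀ T : Subgroup G, Nat.card A < Nat.card T → T ≠ ⊤ →
      Subgroup.normalClosure (T : Set G) = ⊤ → flaConcl T)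
    {K₁ K₂ B B' : Subgroup G} (hB : flaPt A B K₁) (hB' : flaPt A B' K₂) (hK : K₁ ≠ K₂)
    (hBK₂ : B ≤ K₂) (hB'K₁ : B' ≤ K₁)
    {P₁ N₁ P₂ N₂ : Subgroup G} (h₁ : flaPt A P₁ N₁) (h₂ : flaPt A P₂ N₂) (hne : P₁ ≠ P₂)
    (hP₁ : P₁ ∈ flaLine A K₁ K₂) (hP₂ : P₂ ∈ flaLine A K₁ K₂) (g : G)
    (hg₁ : MulAut.conj g • P₁ ∈ flaLine A K₁ K₂) (hg₂ : MulAut.conj g • P₂ ∈ flaLine A K₁ K₂) :
    ∀ X ∈ flaLine A K₁ K₂, MulAut.conj g • X ∈ flaLine A K₁ K₂ := by
  intro X hX
  have e1 := fla_line_eq hnc hMAX hB hB' hK hBK₂ hB'K₁ h₁ h₂ hne hP₁ hP₂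
  have e2 := fla_line_eq hnc hMAX hB hB' hK hBK₂ hB'K₁ (fla_pt_conj g h₁) (fla_pt_conj g h₂)
    (fun h => hne (smul_left_cancel _ h)) hg₁ hg₂
  rw [e2]
  rw [e1] at hX
  obtain ⟨⟨MX, hMX⟩, hX1, hX2⟩ := hX
  exact ⟨⟨_, fla_pt_conj g hMX⟩, (Subgroup.pointwise_smul_le_pointwise_smul_iff).mpr hX1,
    (Subgroup.pointwise_smul_le_pointwise_smul_iff).mpr hX2⟩

theorem fla_U {A : Subgroup G} (hnc : Subgroup.normalClosure (A : Set G) = ⊤)
    (hMAX : ∀ T : Subgroup G, Nat.card A < Nat.card T → T ≠ ⊤ →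
      Subgroup.normalClosure (T : Set G) = ⊤ → flaConcl T)
    {M : Subgroup G} (hA : flaPt A A M) (X : Set G) (T : Subgroup G)
    (hT : T = sSup {B : Subgroup G | ∃ x ∈ X, B = MulAut.conj x • A})
    (hnorm : ∀ x ∈ X, ∀ t ∈ T, x * t * x⁻¹ ∈ T) (hAT : A ≤ T) (hTtop : T ≠ ⊤)
    (hTM : ¬ T ≤ M) (hTA : T ≠ A) {K₁ K₂ : Subgroup G} (hK₁ : IsCoatom K₁) (hK₂ : IsCoatom K₂)
    (h1 : T ≤ K₁) (h2 : T ≤ K₂) : K₁ = K₂ := by
  have hcard : Nat.card A < Nat.card T := by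
    apply lt_of_le_of_ne (Subgroup.card_le_of_le hAT)
    intro hc
    exact hTA (Subgroup.eq_of_le_of_card_ge hAT hc.ge).symm
  have hncT : Subgroup.normalClosure (T : Set G) = ⊤ :=
    fla_nc_top hnc (g := 1) (by rw [map_one, one_smul]; exact hAT)
  rcases hMAX T hcard hTtop hncT with h3 | h3
  · exfalso
    apply hTtop
    rw [eq_top_iff]
    refine h3.ge.trans (sSup_le ?_)
    rintro H ⟨hTH, hHtop, hfull⟩
    refine fla_sn_full_le hTH ?_ ((fla_full_iff hTH).mp hfull)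
    have hsn : ((sSup {B : Subgroup G | ∃ x ∈ X, B = MulAut.conj x • A}).subgroupOf H).IsSubnormal := by
      apply fla_sn_sSup
      rintro B ⟨x, hx, rfl⟩
      have hBT : MulAut.conj x • A ≤ T := by rw [hT]; exact le_sSup ⟨x, hx, rfl⟩
      refine ⟨hBT.trans hTH, ?_⟩
      have hsp := fla_special_conj x hA.1
      rcases hsp.2.2.2 H (hBT.trans hTH) hHtop with h4 | h4
      · exfalso
        apply hTM
        intro t ht
        have h5 : x * t * x⁻¹ ∈ MulAut.conj x • M := h4 (hTH (hnorm x hx t ht))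
        rw [Cfsg.Agent.Helper1.mem_conj_smul] at h5
        have e : x⁻¹ * (x * t * x⁻¹) * x = t := by group
        rwa [e] at h5
      · exact h4
    rw [← hT] at hsn
    exact hsn
  · exact h3.unique ⟨hK₁, h1⟩ ⟨hK₂, h2⟩

/-- Iterated normal closures of `A`, starting from `K`. -/
noncomputable def flaSeq (A K : Subgroup G) : ℕ → Subgroup G
  | 0 => K
  | (i + 1) => sSup {B : Subgroup G | ∃ x ∈ flaSeq A K i, B = MulAut.conj x • A}

theorem fla_seq_succ (A K : Subgroup G) (i : ℕ) :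
    flaSeq A K (i + 1) = sSup {B : Subgroup G | ∃ x ∈ flaSeq A K i, B = MulAut.conj x • A} := rfl

theorem fla_seq_le (A K : Subgroup G) (hAK : A ≤ K) (i : ℕ) :
    A ≤ flaSeq A K i ∧ flaSeq A K (i + 1) ≤ flaSeq A K i := by
  have hA : ∀ i, A ≤ flaSeq A K i := by
    intro i
    cases i with
    | zero => exact hAK
    | succ j =>
      rw [fla_seq_succ]
      exact le_sSup ⟨1, Subgroup.one_mem _, by rw [map_one, one_smul]⟩
  refine ⟨hA i, ?_⟩
  rw [fla_seq_succ]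
  apply sSup_le
  rintro B ⟨x, hx, rfl⟩ b hb
  rw [Cfsg.Agent.Helper1.mem_conj_smul] at hb
  have h1 := (flaSeq A K i).mul_mem ((flaSeq A K i).mul_mem hx (hA i hb)) ((flaSeq A K i).inv_mem hx)
  have e : x * (x⁻¹ * b * x) * x⁻¹ = b := by group
  rwa [e] at h1

theorem fla_seq_norm (A K : Subgroup G) (i : ℕ) :
    ∀ x ∈ flaSeq A K i, ∀ t ∈ flaSeq A K (i + 1), x * t * x⁻¹ ∈ flaSeq A K (i + 1) := by
  intro x hx t ht
  have hle : flaSeq A K (i + 1) ≤ (flaSeq A K (i + 1)).comap (MulAut.conj x).toMonoidHom := by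
    conv_lhs => rw [fla_seq_succ]
    apply sSup_le
    rintro B ⟨y, hy, rfl⟩ b hb
    rw [Subgroup.mem_comap]
    show x * b * x⁻¹ ∈ flaSeq A K (i + 1)
    have h1 : x * b * x⁻¹ ∈ MulAut.conj (x * y) • A := by
      rw [Cfsg.Agent.Helper1.mem_conj_smul] at hb ⊢
      have e : (x * y)⁻¹ * (x * b * x⁻¹) * (x * y) = y⁻¹ * b * y := by group
      rw [e]; exact hb
    rw [fla_seq_succ]
    exact (le_sSup (show MulAut.conj (x * y) • A ∈
      {B : Subgroup G | ∃ z ∈ flaSeq A K i, B = MulAut.conj z • A} from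
      ⟨x * y, (flaSeq A K i).mul_mem hx hy, rfl⟩)) h1
  exact hle ht

theorem fla_E1 {A : Subgroup G} (hnc : Subgroup.normalClosure (A : Set G) = ⊤)
    (hMAX : ∀ T : Subgroup G, Nat.card A < Nat.card T → T ≠ ⊤ →
      Subgroup.normalClosure (T : Set G) = ⊤ → flaConcl T)
    {M K : Subgroup G} (hA : flaPt A A M) (hK : IsCoatom K) (hKM : K ≠ M) (hAK : A ≤ K) :
    ∃ U : Subgroup G, U ≤ K ∧
      (∀ u ∈ U, MulAut.conj u • A ≤ Subgroup.normalizer (A : Set G)) ∧
      (∀ K' : Subgroup G, IsCoatom K' → U ≤ K' → K' = K) ∧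
      ∃ u ∈ U, MulAut.conj u • A ≠ A := by
  have hsnK : (A.subgroupOf K).IsSubnormal := by
    rcases hA.1.2.2.2 K hAK hK.1 with h | h
    · exfalso
      rcases hK.le_iff.mp h with h1 | h1
      · exact hA.1.1.1 h1
      · exact hKM h1.symm
    · exact h
  have hAN : ∀ i, A ≤ flaSeq A K i := fun i => (fla_seq_le A K hAK i).1
  have hanti : ∀ i, flaSeq A K (i + 1) ≤ flaSeq A K i := fun i => (fla_seq_le A K hAK i).2
  have hNK : ∀ i, flaSeq A K i ≤ K := by
    intro i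
    induction i with
    | zero => exact le_rfl
    | succ j ih => exact (hanti j).trans ih
  have hex : ∃ i, flaSeq A K (i + 1) ≤ Subgroup.normalizer (A : Set G) := by
    obtain ⟨i, hi⟩ : ∃ i, ¬ flaSeq A K (i + 1) < flaSeq A K i :=
      WellFounded.not_rel_apply_succ (r := (· < ·)) (flaSeq A K)
    have heq : flaSeq A K (i + 1) = flaSeq A K i := by
      by_contra hne
      exact hi (lt_of_le_of_ne (hanti i) hne)
    refine ⟨i, ?_⟩
    have hfull : flaFull A (flaSeq A K i) := by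
      intro N' hAN' hnorm
      rw [← heq, fla_seq_succ]
      apply sSup_le
      rintro B ⟨x, hx, rfl⟩ b hb
      rw [Cfsg.Agent.Helper1.mem_conj_smul] at hb
      have h1 := hnorm x hx _ (hAN' hb)
      have e : x * (x⁻¹ * b * x) * x⁻¹ = b := by group
      rwa [e] at h1
    have hle : flaSeq A K i ≤ A :=
      fla_sn_full_le (hAN i) (fla_sn_mono (hNK i) hsnK) hfull
    rw [heq]
    exact hle.trans Subgroup.le_normalizer
  classical
  obtain ⟨i₀, hi₀, hmin⟩ : ∃ i₀, flaSeq A K (i₀ + 1) ≤ Subgroup.normalizer (A : Set G) ∧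
      ∀ j, j < i₀ → ¬ flaSeq A K (j + 1) ≤ Subgroup.normalizer (A : Set G) :=
    ⟨Nat.find hex, Nat.find_spec hex, fun j hj => Nat.find_min hex hj⟩
  have h2 : ∀ K' : Subgroup G, IsCoatom K' → flaSeq A K i₀ ≤ K' → K' = K := by
    intro K' hK' hle
    cases i₀ with
    | zero =>
      rcases hK.le_iff.mp (show K ≤ K' from hle) with h1 | h1
      · exact absurd h1 hK'.1
      · exact h1
    | succ j =>
      have hj := hmin j (Nat.lt_succ_self j)
      refine fla_U hnc hMAX hA (flaSeq A K j : Set G) (flaSeq A K (j + 1)) rfl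
        (fla_seq_norm A K j) (hAN (j + 1)) (fun h => hK.1 (top_le_iff.mp (h ▸ hNK (j + 1))))
        ?_ ?_ hK' hK hle (hNK (j + 1))
      · intro hle'
        apply hj
        intro m hm
        rw [Cfsg.Agent.Helper1.mem_normalizer_iff_conj_smul]
        exact fla_inter_fix hnc hMAX hA hK hKM hAK (hNK _ hm) (hle' hm)
      · intro h
        apply hj
        rw [h]
        exact Subgroup.le_normalizer
  refine ⟨flaSeq A K i₀, hNK i₀, ?_, h2, ?_⟩
  · intro u hu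
    refine le_trans ?_ hi₀
    rw [fla_seq_succ]
    exact le_sSup ⟨u, hu, rfl⟩
  · by_contra hall
    have hle : flaSeq A K i₀ ≤ Subgroup.normalizer (A : Set G) := by
      intro u hu
      rw [Cfsg.Agent.Helper1.mem_normalizer_iff_conj_smul]
      by_contra hne
      exact hall ⟨u, hu, hne⟩
    exact hKM (h2 M hA.1.1 (hle.trans (fla_normalizer_le hnc hA))).symm

theorem fla_exists_special {A : Subgroup G} (hnc : Subgroup.normalClosure (A : Set G) = ⊤)
    (hAtop : A ≠ ⊤)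
    (hMAX : ∀ T : Subgroup G, Nat.card A < Nat.card T → T ≠ ⊤ →
      Subgroup.normalClosure (T : Set G) = ⊤ → flaConcl T)
    (hY : ¬ sSup {H : Subgroup G | A ≤ H ∧ H ≠ ⊤ ∧
      Subgroup.normalClosure ((A.subgroupOf H : Subgroup ↥H) : Set ↥H) = ⊤} = ⊤)
    (hnu : ¬ ∃! M : Subgroup G, IsCoatom M ∧ A ≤ M) : ∃ M₀ : Subgroup G, flaSpecial A M₀ := by
  have hF : ∀ F : Subgroup G, A ≤ F → A ≠ F → F ≠ ⊤ → flaFull A F →
      ∃! M : Subgroup G, IsCoatom M ∧ F ≤ M := by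
    intro F hAF hne hFtop hfull
    have hcard : Nat.card A < Nat.card F :=
      lt_of_le_of_ne (Subgroup.card_le_of_le hAF)
        (fun hc => hne (Subgroup.eq_of_le_of_card_ge hAF hc.ge))
    rcases hMAX F hcard hFtop
      (fla_nc_top hnc (g := 1) (by rw [map_one, one_smul]; exact hAF)) with h | h
    · exfalso
      apply hY
      rw [eq_top_iff]
      refine h.ge.trans (sSup_le ?_)
      rintro H ⟨hFH, hHtop, hfullH⟩
      apply le_sSup
      refine ⟨hAF.trans hFH, hHtop, (fla_full_iff (hAF.trans hFH)).mpr ?_⟩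
      intro N hAN hnorm
      have hFN : F ≤ N := hfull N hAN (fun h hh n hn => hnorm h (hFH hh) n hn)
      exact (fla_full_iff hFH).mp hfullH N hFN hnorm
    · exact h
  by_cases hall : ∀ H : Subgroup G, A ≤ H → H ≠ ⊤ → (A.subgroupOf H).IsSubnormal
  · exfalso
    have hns : ¬ A.IsSubnormal := by
      intro hsn
      obtain ⟨K, hKn, hAK, hKlt⟩ := hsn.exists_normal_and_le_and_lt_top_of_ne hAtop
      have h1 : Subgroup.normalClosure (A : Set G) ≤ K := Subgroup.normalClosure_le_normal hAK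
      rw [hnc] at h1
      exact hKlt.ne (top_le_iff.mp h1)
    obtain ⟨M, hM, hAM, huniq⟩ := Cfsg.Agent.Helper1.zipper A hall hns
    exact hnu ⟨M, ⟨hM, hAM⟩, fun M' hM' => huniq M' hM'.1 hM'.2⟩
  · push Not at hall
    obtain ⟨H₁, hAH₁, hH₁top, hns₁⟩ := hall
    obtain ⟨F, hAF, hFH₁, hAneF, hFfull⟩ := fla_exists_full hAH₁ hns₁
    have hFtop : F ≠ ⊤ := fun h => hH₁top (top_le_iff.mp (h ▸ hFH₁))
    obtain ⟨M₀, ⟨hM₀, hFM₀⟩, hM₀u⟩ := hF F hAF hAneF hFtop hFfull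
    refine ⟨M₀, hM₀, hAF.trans hFM₀, ?_, ?_⟩
    · intro hsn
      exact hAneF (le_antisymm hAF (fla_sn_full_le hAF (fla_sn_mono hFM₀ hsn) hFfull))
    · intro H hAH hHtop
      by_cases hsn : (A.subgroupOf H).IsSubnormal
      · exact Or.inr hsn
      · left
        obtain ⟨F', hAF', hF'H, hAneF', hF'full⟩ := fla_exists_full hAH hsn
        have hF'top : F' ≠ ⊤ := fun h => hHtop (top_le_iff.mp (h ▸ hF'H))
        obtain ⟨M', ⟨hM', hF'M'⟩, hM'u⟩ := hF F' hAF' hAneF' hF'top hF'full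
        have hjfull : flaFull A (F ⊔ F') := by
          intro N hAN hnorm
          exact sup_le
            (hFfull N hAN (fun h hh n hn => hnorm h ((le_sup_left : F ≤ F ⊔ F') hh) n hn))
            (hF'full N hAN (fun h hh n hn => hnorm h ((le_sup_right : F' ≤ F ⊔ F') hh) n hn))
        have hjtop : F ⊔ F' ≠ ⊤ := by
          intro h
          apply hY
          rw [eq_top_iff]
          refine h.ge.trans (sup_le ?_ ?_)
          · exact le_sSup ⟨hAF, hFtop, (fla_full_iff hAF).mpr hFfull⟩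
          · exact le_sSup ⟨hAF', hF'top, (fla_full_iff hAF').mpr hF'full⟩
        have hAj : A ≠ F ⊔ F' := by
          intro h
          apply hAneF
          apply le_antisymm hAF
          rw [h]; exact le_sup_left
        obtain ⟨M'', ⟨hM'', hjM''⟩, -⟩ :=
          hF (F ⊔ F') (hAF.trans le_sup_left) hAj hjtop hjfull
        have e1 : M'' = M₀ := hM₀u M'' ⟨hM'', le_sup_left.trans hjM''⟩
        have e2 : M'' = M' := hM'u M'' ⟨hM'', le_sup_right.trans hjM''⟩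
        obtain ⟨K, hK, hHK⟩ := fla_exists_coatom hHtop
        have e3 : K = M' := hM'u K ⟨hK, hF'H.trans hHK⟩
        rw [← e1, e2, ← e3]; exact hHK

theorem fla_main_aux (A : Subgroup G) (hnc : Subgroup.normalClosure (A : Set G) = ⊤)
    (hAtop : A ≠ ⊤)
    (hMAX : ∀ T : Subgroup G, Nat.card A < Nat.card T → T ≠ ⊤ →
      Subgroup.normalClosure (T : Set G) = ⊤ → flaConcl T) : flaConcl A := by
  by_contra hcon
  obtain ⟨hY, hnu⟩ := not_or.mp hcon
  obtain ⟨M₀, hM₀⟩ := fla_exists_special hnc hAtop hMAX hY hnu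
  have hA : flaPt A A M₀ := ⟨hM₀, 1, by rw [map_one, one_smul]⟩
  obtain ⟨K, hK, hAK, hKM⟩ : ∃ K : Subgroup G, IsCoatom K ∧ A ≤ K ∧ K ≠ M₀ := by
    by_contra hc
    push Not at hc
    exact hnu ⟨M₀, ⟨hM₀.1, hM₀.2.1⟩, fun K' hK' => hc K' hK'.1 hK'.2⟩
  obtain ⟨U, hUK, hU1, hU2, u₀, hu₀, hu₀A⟩ := fla_E1 hnc hMAX hA hK hKM hAK
  have hCpt : flaPt A (MulAut.conj u₀ • A) (MulAut.conj u₀ • M₀) := fla_pt_conj u₀ hA
  have hNA := fla_normalizer_le hnc hA
  have hUM₀ : ∀ u ∈ U, MulAut.conj u • A ≤ M₀ := fun u hu => (hU1 u hu).trans hNA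
  have hUK' : ∀ u ∈ U, MulAut.conj u • A ≤ K := by
    intro u hu
    rw [← fla_cj_self (hUK hu)]
    exact (Subgroup.pointwise_smul_le_pointwise_smul_iff).mpr hAK
  have hCM₀ := hUM₀ u₀ hu₀
  have hCK := hUK' u₀ hu₀
  obtain ⟨-, hAMC, hMne⟩ := fla_P hnc hMAX hA hCpt (Ne.symm hu₀A) hM₀.1 hK (Ne.symm hKM)
    (sup_le hM₀.2.1 hCM₀) (sup_le hAK hCK)
  have hAQ : A ∈ flaLine A M₀ (MulAut.conj u₀ • M₀) := ⟨⟨M₀, hA⟩, hM₀.2.1, hAMC⟩
  have hCQ : MulAut.conj u₀ • A ∈ flaLine A M₀ (MulAut.conj u₀ • M₀) :=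
    ⟨⟨_, hCpt⟩, hCM₀, hCpt.1.2.1⟩
  have hUQ : ∀ u ∈ U, MulAut.conj u • A ∈ flaLine A M₀ (MulAut.conj u₀ • M₀) := by
    intro u hu
    have hpt : flaPt A (MulAut.conj u • A) (MulAut.conj u • M₀) := fla_pt_conj u hA
    exact ⟨⟨_, hpt⟩, hUM₀ u hu,
      fla_P' hnc hMAX hCpt hpt hM₀.1 hK (Ne.symm hKM) hCM₀ hCK (hUM₀ u hu) (hUK' u hu)⟩
  have hstabU : ∀ u ∈ U, ∀ X ∈ flaLine A M₀ (MulAut.conj u₀ • M₀),
      MulAut.conj u • X ∈ flaLine A M₀ (MulAut.conj u₀ • M₀) := by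
    intro u hu
    apply fla_stab hnc hMAX hA hCpt hMne hAMC hCM₀ hA hCpt (Ne.symm hu₀A) hAQ hCQ u (hUQ u hu)
    have e : MulAut.conj u • MulAut.conj u₀ • A = MulAut.conj (u * u₀) • A := by
      rw [map_mul, mul_smul]
    rw [e]; exact hUQ _ (U.mul_mem hu hu₀)
  -- the second subgroup
  have hncC : Subgroup.normalClosure ((MulAut.conj u₀ • A : Subgroup G) : Set G) = ⊤ :=
    fla_nc_top hnc (g := u₀) le_rfl
  have hMAXC : ∀ T : Subgroup G, Nat.card (MulAut.conj u₀ • A : Subgroup G) < Nat.card T →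
      T ≠ ⊤ → Subgroup.normalClosure (T : Set G) = ⊤ → flaConcl T := by
    intro T hT
    rw [Cfsg.Agent.Helper1.card_conj_smul] at hT
    exact hMAX T hT
  have hCptC : flaPt (MulAut.conj u₀ • A) (MulAut.conj u₀ • A) (MulAut.conj u₀ • M₀) :=
    ⟨hCpt.1, 1, by rw [map_one, one_smul]⟩
  obtain ⟨U', hU'M, hU'1, hU'2, z₀, hz₀, hz₀C⟩ :=
    fla_E1 hncC hMAXC hCptC hM₀.1 hMne hCM₀
  have hNC := fla_normalizer_le hnc hCpt
  have hU'Q : ∀ z ∈ U', MulAut.conj z • MulAut.conj u₀ • A ∈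
      flaLine A M₀ (MulAut.conj u₀ • M₀) := by
    intro z hz
    refine ⟨⟨_, fla_pt_conj z hCpt⟩, ?_, (hU'1 z hz).trans hNC⟩
    rw [← fla_cj_self (hU'M hz)]
    exact (Subgroup.pointwise_smul_le_pointwise_smul_iff).mpr hCM₀
  have hstabU' : ∀ z ∈ U', ∀ X ∈ flaLine A M₀ (MulAut.conj u₀ • M₀),
      MulAut.conj z • X ∈ flaLine A M₀ (MulAut.conj u₀ • M₀) := by
    intro z hz
    apply fla_stab hnc hMAX hA hCpt hMne hAMC hCM₀ hCpt (fla_pt_conj z₀ hCpt) (Ne.symm hz₀C)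
      hCQ (hU'Q z₀ hz₀) z (hU'Q z hz)
    have e : MulAut.conj z • MulAut.conj z₀ • MulAut.conj u₀ • A =
        MulAut.conj (z * z₀) • MulAut.conj u₀ • A := by
      rw [map_mul, mul_smul]
    rw [e]; exact hU'Q _ (U'.mul_mem hz hz₀)
  have hsup : U ⊔ U' = ⊤ := by
    by_contra hne
    obtain ⟨K', hK', hle⟩ := fla_exists_coatom hne
    have e1 := hU2 K' hK' (le_sup_left.trans hle)
    have e2 := hU'2 K' hK' (le_sup_right.trans hle)
    exact hKM (e1.symm.trans e2)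
  have hall : ∀ g : G, (∀ X ∈ flaLine A M₀ (MulAut.conj u₀ • M₀),
      MulAut.conj g • X ∈ flaLine A M₀ (MulAut.conj u₀ • M₀)) ∧
      (∀ X ∈ flaLine A M₀ (MulAut.conj u₀ • M₀),
        MulAut.conj g⁻¹ • X ∈ flaLine A M₀ (MulAut.conj u₀ • M₀)) := by
    intro g
    have hg : g ∈ U ⊔ U' := by rw [hsup]; exact Subgroup.mem_top g
    rw [Subgroup.sup_eq_closure] at hg
    refine Subgroup.closure_induction (p := fun g _ =>
      (∀ X ∈ flaLine A M₀ (MulAut.conj u₀ • M₀),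
        MulAut.conj g • X ∈ flaLine A M₀ (MulAut.conj u₀ • M₀)) ∧
      (∀ X ∈ flaLine A M₀ (MulAut.conj u₀ • M₀),
        MulAut.conj g⁻¹ • X ∈ flaLine A M₀ (MulAut.conj u₀ • M₀))) ?_ ?_ ?_ ?_ hg
    · intro x hx
      rcases hx with hx | hx
      · exact ⟨hstabU x hx, hstabU x⁻¹ (U.inv_mem hx)⟩
      · exact ⟨hstabU' x hx, hstabU' x⁻¹ (U'.inv_mem hx)⟩
    · constructor
      · intro X hX; rw [map_one, one_smul]; exact hX
      · intro X hX; rw [inv_one, map_one, one_smul]; exact hX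
    · intro x y _ _ hx hy
      constructor
      · intro X hX; rw [map_mul, mul_smul]; exact hx.1 _ (hy.1 X hX)
      · intro X hX; rw [mul_inv_rev, map_mul, mul_smul]; exact hy.2 _ (hx.2 X hX)
    · intro x _ hx
      exact ⟨hx.2, by rw [inv_inv]; exact hx.1⟩
  have hle : Subgroup.normalClosure (A : Set G) ≤ M₀ := by
    rw [Subgroup.normalClosure, Subgroup.closure_le]
    intro x hx
    rw [Group.mem_conjugatesOfSet_iff] at hx
    obtain ⟨a, ha, hax⟩ := hx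
    obtain ⟨c, hc⟩ := isConj_iff.mp hax
    have h1 : MulAut.conj c • A ∈ flaLine A M₀ (MulAut.conj u₀ • M₀) := (hall c).1 A hAQ
    have h2 : x ∈ MulAut.conj c • A := by
      rw [Cfsg.Agent.Helper1.mem_conj_smul, ← hc]
      have e : c⁻¹ * (c * a * c⁻¹) * c = a := by group
      rw [e]; exact ha
    exact h1.2.1 h2
  rw [hnc] at hle
  exact hM₀.1.1 (top_le_iff.mp hle)

theorem fla_main : ∀ (n : ℕ) (A : Subgroup G), Nat.card G - Nat.card A = n →
    Subgroup.normalClosure (A : Set G) = ⊤ → A ≠ ⊤ → flaConcl A := by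
  intro n
  induction n using Nat.strong_induction_on with
  | _ n ih =>
    intro A hn hnc hAtop
    apply fla_main_aux A hnc hAtop
    intro T hcard hTtop hncT
    have hle : Nat.card T ≤ Nat.card G := Subgroup.card_le_card_group T
    exact ih (Nat.card G - Nat.card T) (by omega) T rfl hncT hTtop

end FlavellA

end Cfsg.Agent.Helper4
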