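import Mathlib
import Cfsg.Agent.Helper4.Flavell

set_option autoImplicit false

namespace Cfsg.Agent.Helper4

open scoped Pointwise

universe u

/-- If the conjugates of `a` generate the finite group `Γ`, then so do the `k`-fold iterated
conjugates `g ↦ g a g⁻¹` (a Baer-type argument on top of Flavell's theorem). -/
theorem conjIter_generates_aux : ∀ (n : ℕ) (Γ : Type u) [Group Γ] [Finite Γ], Nat.card Γ = n →
    ∀ a : Γ, Subgroup.normalClosure ({a} : Set Γ) = ⊤ →
    ∀ k : ℕ, Subgroup.closure (Set.range ((fun g : Γ => g * a * g⁻¹)^[k])) = ⊤ := by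
  intro n
  induction n using Nat.strong_induction_on with
  | _ n ih =>
  intro Γ _ _ hn a hnc k
  by_contra hL
  have hρa : ∀ j : ℕ, ((fun g : Γ => g * a * g⁻¹)^[j]) a = a := by
    intro j
    induction j with
    | zero => rfl
    | succ j ihj =>
      rw [Function.iterate_succ_apply', ihj]
      show a * a * a⁻¹ = a
      group
  have haL : a ∈ Subgroup.closure (Set.range ((fun g : Γ => g * a * g⁻¹)^[k])) :=
    Subgroup.subset_closure ⟨a, hρa k⟩
  have hAL : Subgroup.zpowers a ≤ Subgroup.closure (Set.range ((fun g : Γ => g * a * g⁻¹)^[k])) :=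
    (Subgroup.zpowers_le).mpr haL
  have hAtop : Subgroup.zpowers a ≠ ⊤ := fun h => hL (top_le_iff.mp (h ▸ hAL))
  have hncA : Subgroup.normalClosure ((Subgroup.zpowers a : Subgroup Γ) : Set Γ) = ⊤ := by
    rw [eq_top_iff, ← hnc]
    exact Subgroup.normalClosure_mono (by
      intro x hx
      rw [Set.mem_singleton_iff] at hx
      rw [hx]; exact Subgroup.mem_zpowers a)
  have hsub : ∀ Δ : Subgroup Γ, Subgroup.zpowers a ≤ Δ → Δ ≠ ⊤ →
      Subgroup.normalClosure (((Subgroup.zpowers a).subgroupOf Δ : Subgroup ↥Δ) : Set ↥Δ) = ⊤ →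
      Δ ≤ Subgroup.closure (Set.range ((fun g : Γ => g * a * g⁻¹)^[k])) := by
    intro Δ hAΔ hΔtop hfull
    have haΔ : a ∈ Δ := hAΔ (Subgroup.mem_zpowers a)
    have hcard : Nat.card Δ < n := by
      rw [← hn]
      apply lt_of_le_of_ne (Subgroup.card_le_card_group Δ)
      intro hc
      exact hΔtop (Subgroup.card_eq_iff_eq_top Δ |>.mp hc)
    have hnc' : Subgroup.normalClosure ({(⟨a, haΔ⟩ : Δ)} : Set Δ) = ⊤ := by
      rw [eq_top_iff, ← hfull]
      apply Subgroup.normalClosure_le_normal
      intro x hx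
      rw [SetLike.mem_coe, Subgroup.mem_subgroupOf, Subgroup.mem_zpowers_iff] at hx
      obtain ⟨j, hj⟩ := hx
      have : x = (⟨a, haΔ⟩ : Δ) ^ j := Subtype.ext (by rw [Subgroup.coe_zpow]; exact hj.symm)
      rw [this]
      exact Subgroup.zpow_mem _ (Subgroup.subset_normalClosure (Set.mem_singleton _)) j
    have hIH := ih (Nat.card Δ) hcard Δ rfl ⟨a, haΔ⟩ hnc' k
    intro x hx
    have hx' : (⟨x, hx⟩ : Δ) ∈
        Subgroup.closure (Set.range ((fun g : Δ => g * ⟨a, haΔ⟩ * g⁻¹)^[k])) := by
      rw [hIH]; exact Subgroup.mem_top _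
    have hmap : (Subgroup.closure (Set.range ((fun g : Δ => g * ⟨a, haΔ⟩ * g⁻¹)^[k]))).map
        Δ.subtype ≤ Subgroup.closure (Set.range ((fun g : Γ => g * a * g⁻¹)^[k])) := by
      rw [MonoidHom.map_closure, Subgroup.closure_le]
      rintro _ ⟨_, ⟨y, rfl⟩, rfl⟩
      apply Subgroup.subset_closure
      refine ⟨(y : Γ), ?_⟩
      have hsemi : Function.Semiconj (Δ.subtype : Δ → Γ)
          (fun g : Δ => g * ⟨a, haΔ⟩ * g⁻¹) (fun g : Γ => g * a * g⁻¹) := by
        intro g; simp
      exact ((hsemi.iterate_right k) y).symm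
    exact hmap ⟨⟨x, hx⟩, hx', rfl⟩
  rcases fla_main _ (Subgroup.zpowers a) rfl hncA hAtop with hY | hU
  · apply hL
    rw [eq_top_iff]
    refine hY.ge.trans (sSup_le ?_)
    rintro Δ ⟨h1, h2, h3⟩
    exact hsub Δ h1 h2 h3
  · obtain ⟨M₀, ⟨hM₀, hAM₀⟩, huniq⟩ := hU
    have hLM₀ : Subgroup.closure (Set.range ((fun g : Γ => g * a * g⁻¹)^[k])) ≤ M₀ := by
      obtain ⟨K, hK, hLK⟩ := fla_exists_coatom hL
      have := huniq K ⟨hK, hAL.trans hLK⟩
      rw [← this]; exact hLK
    have hnorm : Subgroup.normalizer (M₀ : Set Γ) = M₀ := by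
      rcases hM₀.le_iff.mp Subgroup.le_normalizer with h5 | h5
      · exfalso
        have hMn : M₀.Normal := Subgroup.normalizer_eq_top_iff.mp h5
        have h8 : Subgroup.normalClosure ((Subgroup.zpowers a : Subgroup Γ) : Set Γ) ≤ M₀ :=
          Subgroup.normalClosure_le_normal hAM₀
        rw [hncA] at h8
        exact hM₀.1 (top_le_iff.mp h8)
      · exact h5
    have hstep : ∀ e : Γ, e ∉ M₀ → e * a * e⁻¹ ∉ M₀ := by
      intro e he hc
      apply he
      have h1 : a ∈ MulAut.conj e⁻¹ • M₀ := by
        rw [Cfsg.Agent.Helper1.mem_conj_smul, inv_inv]; exact hc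
      have h2 : Subgroup.zpowers a ≤ MulAut.conj e⁻¹ • M₀ := (Subgroup.zpowers_le).mpr h1
      have h3 := huniq _ ⟨fla_cj_coatom e⁻¹ hM₀, h2⟩
      have h4 : e⁻¹ ∈ Subgroup.normalizer (M₀ : Set Γ) :=
        Cfsg.Agent.Helper1.mem_normalizer_iff_conj_smul.mpr h3
      rw [hnorm] at h4
      simpa using M₀.inv_mem h4
    obtain ⟨e, he⟩ : ∃ e : Γ, e ∉ M₀ := by
      by_contra hc
      push Not at hc
      exact hM₀.1 (eq_top_iff.mpr (fun x _ => hc x))
    have hiter : ∀ j : ℕ, ((fun g : Γ => g * a * g⁻¹)^[j]) e ∉ M₀ := by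
      intro j
      induction j with
      | zero => exact he
      | succ j ihj => rw [Function.iterate_succ_apply']; exact hstep _ ihj
    exact hiter k (hLM₀ (Subgroup.subset_closure ⟨e, rfl⟩))

theorem iterComm_generates {G : Type u} [Group G] [Finite G] (α : MulAut G)
    (hG : Subgroup.closure (Set.range (fun c : G => c * (α c)⁻¹)) = ⊤) (k : ℕ) :
    Subgroup.closure (Set.range ((fun c : G => c * (α c)⁻¹)^[k])) = ⊤ := by
  obtain ⟨φ, hφ⟩ : ∃ φ : G → G, φ = fun c : G => c * (α c)⁻¹ := ⟨_, rfl⟩
  rw [← hφ] at hG ⊢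
  have hφa : ∀ c, φ c = c * (α c)⁻¹ := fun c => by rw [hφ]
  haveI : Finite (SemidirectProduct G (Subgroup.zpowers α) (Subgroup.zpowers α).subtype) :=
    Finite.of_equiv (G × (Subgroup.zpowers α)) SemidirectProduct.equivProd.symm
  obtain ⟨α', hα'⟩ : ∃ α' : Subgroup.zpowers α, (α' : MulAut G) = α :=
    ⟨⟨α, Subgroup.mem_zpowers α⟩, rfl⟩
  obtain ⟨a, ha⟩ : ∃ a : SemidirectProduct G (Subgroup.zpowers α) (Subgroup.zpowers α).subtype,
      a = SemidirectProduct.inr α' := ⟨_, rfl⟩
  have hcomm : ∀ (h : Subgroup.zpowers α) (x : G),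
      (h : MulAut G) (α x) = α ((h : MulAut G) x) := by
    intro h x
    obtain ⟨j, hj⟩ := Subgroup.mem_zpowers_iff.mp h.2
    have hc : Commute (h : MulAut G) α := by
      rw [← hj]; exact (Commute.refl α).zpow_left j
    have := congrArg (fun f : MulAut G => f x) hc.eq
    simpa [MulAut.mul_apply] using this
  have hleft : ∀ p : SemidirectProduct G (Subgroup.zpowers α) (Subgroup.zpowers α).subtype,
      (p * a * p⁻¹).left = φ p.left := by
    intro p
    have e1 : (p * a * p⁻¹).left =
        p.left * ((p.right : MulAut G) (α (((p.right : MulAut G))⁻¹ (p.left⁻¹)))) := by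
      rw [ha]
      simp [SemidirectProduct.mul_left, SemidirectProduct.mul_right, SemidirectProduct.inv_left,
        MulAut.mul_apply, hα']
    rw [e1, hcomm, hφa]
    simp
  have hiter_left : ∀ (j : ℕ)
      (p : SemidirectProduct G (Subgroup.zpowers α) (Subgroup.zpowers α).subtype),
      (((fun g : SemidirectProduct G (Subgroup.zpowers α) (Subgroup.zpowers α).subtype =>
        g * a * g⁻¹)^[j]) p).left = φ^[j] p.left := by
    intro j
    induction j with
    | zero => intro p; rfl
    | succ j ihj =>
      intro p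
      rw [Function.iterate_succ_apply', Function.iterate_succ_apply', hleft, ihj]
  have hαφ : ∀ x, α (φ x) = φ (α x) := by
    intro x; rw [hφa, hφa]; simp
  have hαiter : ∀ (j : ℕ) (x : G), α (φ^[j] x) = φ^[j] (α x) := by
    intro j
    induction j with
    | zero => intro x; rfl
    | succ j ihj =>
      intro x
      rw [Function.iterate_succ_apply', Function.iterate_succ_apply', hαφ, ihj]
  have hαmem : ∀ x ∈ Subgroup.closure (Set.range (φ^[k])),
      α x ∈ Subgroup.closure (Set.range (φ^[k])) := by
    intro x hx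
    induction hx using Subgroup.closure_induction with
    | mem x hx =>
      obtain ⟨y, rfl⟩ := hx
      rw [hαiter]
      exact Subgroup.subset_closure ⟨_, rfl⟩
    | one => rw [map_one]; exact Subgroup.one_mem _
    | mul x y _ _ hx hy => rw [map_mul]; exact Subgroup.mul_mem _ hx hy
    | inv x _ hx => rw [map_inv]; exact Subgroup.inv_mem _ hx
  have hαsmem : ∀ x ∈ Subgroup.closure (Set.range (φ^[k])),
      α⁻¹ x ∈ Subgroup.closure (Set.range (φ^[k])) := by
    intro x hx
    induction hx using Subgroup.closure_induction with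
    | mem x hx =>
      obtain ⟨y, rfl⟩ := hx
      have e : α⁻¹ (φ^[k] y) = φ^[k] (α⁻¹ y) := by
        apply α.injective
        rw [hαiter, MulAut.apply_inv_self, MulAut.apply_inv_self]
      rw [e]
      exact Subgroup.subset_closure ⟨_, rfl⟩
    | one => rw [map_one]; exact Subgroup.one_mem _
    | mul x y _ _ hx hy => rw [map_mul]; exact Subgroup.mul_mem _ hx hy
    | inv x _ hx => rw [map_inv]; exact Subgroup.inv_mem _ hx
  have hinvα : α • Subgroup.closure (Set.range (φ^[k])) = Subgroup.closure (Set.range (φ^[k])) := by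
    ext x
    rw [Subgroup.mem_pointwise_smul_iff_inv_smul_mem]
    constructor
    · intro h
      have h2 := hαmem _ h
      rw [MulAut.smul_def, MulAut.apply_inv_self] at h2
      exact h2
    · intro h
      exact hαsmem x h
  have hinvH : ∀ h : Subgroup.zpowers α, ∀ x ∈ Subgroup.closure (Set.range (φ^[k])),
      (h : MulAut G) x ∈ Subgroup.closure (Set.range (φ^[k])) := by
    intro h x hx
    have hstab : Subgroup.zpowers α ≤
        MulAction.stabilizer (MulAut G) (Subgroup.closure (Set.range (φ^[k]))) :=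
      (Subgroup.zpowers_le).mpr (MulAction.mem_stabilizer_iff.mpr hinvα)
    have h1 : (h : MulAut G) • Subgroup.closure (Set.range (φ^[k])) =
        Subgroup.closure (Set.range (φ^[k])) := MulAction.mem_stabilizer_iff.mp (hstab h.2)
    have h2 : (h : MulAut G) • x ∈ (h : MulAut G) • Subgroup.closure (Set.range (φ^[k])) :=
      Subgroup.smul_mem_pointwise_smul x _ _ hx
    rw [h1] at h2
    exact h2
  have hnc : Subgroup.normalClosure ({a} : Set (SemidirectProduct G (Subgroup.zpowers α)
      (Subgroup.zpowers α).subtype)) = ⊤ := by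
    rw [eq_top_iff]
    intro p _
    have haN : a ∈ Subgroup.normalClosure ({a} : Set (SemidirectProduct G (Subgroup.zpowers α)
        (Subgroup.zpowers α).subtype)) := Subgroup.subset_normalClosure (Set.mem_singleton a)
    have hinl : ∀ g : G, (SemidirectProduct.inl g : SemidirectProduct G (Subgroup.zpowers α)
        (Subgroup.zpowers α).subtype) ∈ Subgroup.normalClosure ({a} : Set _) := by
      intro g
      have hg : g ∈ Subgroup.closure (Set.range φ) := by rw [hG]; exact Subgroup.mem_top g
      have hle : Subgroup.closure (Set.range φ) ≤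
          (Subgroup.normalClosure ({a} : Set (SemidirectProduct G (Subgroup.zpowers α)
            (Subgroup.zpowers α).subtype))).comap SemidirectProduct.inl := by
        rw [Subgroup.closure_le]
        rintro _ ⟨c, rfl⟩
        rw [SetLike.mem_coe, Subgroup.mem_comap]
        have h1 : (SemidirectProduct.inl c : SemidirectProduct G (Subgroup.zpowers α)
            (Subgroup.zpowers α).subtype) * a * (SemidirectProduct.inl c)⁻¹ * a⁻¹ ∈
            Subgroup.normalClosure ({a} : Set _) :=
          Subgroup.mul_mem _ ((Subgroup.normalClosure_normal).conj_mem a haN _)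
            (Subgroup.inv_mem _ haN)
        have e : (SemidirectProduct.inl c : SemidirectProduct G (Subgroup.zpowers α)
            (Subgroup.zpowers α).subtype) * a * (SemidirectProduct.inl c)⁻¹ * a⁻¹ =
            SemidirectProduct.inl (φ c) := by
          rw [ha, hφa]
          ext
          · simp [SemidirectProduct.mul_left, SemidirectProduct.mul_right,
              SemidirectProduct.inv_left, MulAut.mul_apply, hα']
          · simp [SemidirectProduct.mul_right]
        rw [← e]; exact h1
      exact hle hg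
    have hinr : ∀ h : Subgroup.zpowers α, (SemidirectProduct.inr h :
        SemidirectProduct G (Subgroup.zpowers α) (Subgroup.zpowers α).subtype) ∈
        Subgroup.normalClosure ({a} : Set _) := by
      intro h
      obtain ⟨j, hj⟩ := Subgroup.mem_zpowers_iff.mp h.2
      have : h = α' ^ j := Subtype.ext (by rw [Subgroup.coe_zpow, hα']; exact hj.symm)
      rw [this, map_zpow, ← ha]
      exact Subgroup.zpow_mem _ haN j
    rw [← SemidirectProduct.inl_left_mul_inr_right p]
    exact Subgroup.mul_mem _ (hinl _) (hinr _)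
  have hC := conjIter_generates_aux _ (SemidirectProduct G (Subgroup.zpowers α)
      (Subgroup.zpowers α).subtype) rfl a hnc k
  rw [eq_top_iff]
  intro g _
  have hmem : ∀ p ∈ Subgroup.closure (Set.range
      ((fun g : SemidirectProduct G (Subgroup.zpowers α) (Subgroup.zpowers α).subtype =>
        g * a * g⁻¹)^[k])), p.left ∈ Subgroup.closure (Set.range (φ^[k])) := by
    intro p hp
    induction hp using Subgroup.closure_induction with
    | mem x hx =>
      obtain ⟨q, rfl⟩ := hx
      rw [hiter_left]
      exact Subgroup.subset_closure ⟨_, rfl⟩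
    | one => exact Subgroup.one_mem _
    | mul x y _ _ hx hy =>
      rw [SemidirectProduct.mul_left]
      exact Subgroup.mul_mem _ hx (hinvH x.right _ hy)
    | inv x _ hx =>
      rw [SemidirectProduct.inv_left]
      exact hinvH x.right⁻¹ _ (Subgroup.inv_mem _ hx)
  have h3 := hmem (SemidirectProduct.inl g) (by rw [hC]; exact Subgroup.mem_top _)
  simpa using h3

end Cfsg.Agent.Helper4
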