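import Mathlib
import Cfsg.Prelude.Def_Classical
import Cfsg.Prelude.Def_JordanBlocks
import Cfsg.Agent.S2582
import Cfsg.Agent.S2585

open Matrix

namespace Cfsg.Agent.Helper4

theorem s2584_bwd {F : Type*} [Field F] [Fintype F] [CharP F 2] {m t : ℕ} (d : Fin t → ℕ)
    (hd : ∀ k, 1 ≤ d k) (hsum : ∑ k, d k = 2 * m)
    (hpar : ∀ j : ℕ, Odd j → Even (Finset.univ.filter (fun k : Fin t => d k = j)).card) :
    ∃ Q : QuadraticForm F (Fin (2 * m) → F), (QuadraticMap.polarBilin Q).Nondegenerate ∧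
      ∃ e : ((k : Fin t) × Fin (d k)) ≃ Fin (2 * m), ∃ A : ↥(Cfsg.isometryGroup F ⇑Q),
        IsConj (Matrix.reindex e e (Cfsg.jordanTypeMatrix d F))
          ((A : Matrix.GeneralLinearGroup (Fin (2 * m)) F) :
            Matrix (Fin (2 * m)) (Fin (2 * m)) F) := by
  classical
  obtain ⟨e₀, B, hconj⟩ := (Cfsg.Agent.S2582.result (F := F) d hd hsum).mpr hpar
  obtain ⟨Q₀, hQ₀pol, hQ₀inv⟩ := Cfsg.Agent.S2585.result B
  obtain ⟨Bm, hBm⟩ : ∃ Bm : Matrix (Fin m ⊕ Fin m) (Fin m ⊕ Fin m) F,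
      Bm = (B : Matrix (Fin m ⊕ Fin m) (Fin m ⊕ Fin m) F) := ⟨_, rfl⟩
  rw [← hBm] at hconj hQ₀inv
  have hBdet : IsUnit Bm.det := by rw [hBm]; exact SymplecticGroup.symplectic_det B.2
  obtain ⟨σ⟩ : Nonempty ((Fin m ⊕ Fin m) ≃ Fin (2 * m)) :=
    ⟨Fintype.equivFinOfCardEq (by rw [Fintype.card_sum, Fintype.card_fin]; omega)⟩
  obtain ⟨Q, hQapp⟩ : ∃ Q : QuadraticForm F (Fin (2 * m) → F), ∀ u, Q u = Q₀ (u ∘ σ) :=
    ⟨Q₀.comp (LinearMap.funLeft F F σ), fun u => rfl⟩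
  have hpol : ∀ x y : Fin (2 * m) → F, QuadraticMap.polarBilin Q x y
      = (x ∘ σ) ⬝ᵥ (Matrix.J (Fin m) F) *ᵥ (y ∘ σ) := by
    intro x y
    have h := hQ₀pol (x ∘ σ) (y ∘ σ)
    unfold Cfsg.sympForm at h
    rw [← h]
    show Q (x + y) - Q x - Q y = Q₀ (x ∘ σ + y ∘ σ) - Q₀ (x ∘ σ) - Q₀ (y ∘ σ)
    have e1 : (x + y) ∘ σ = x ∘ σ + y ∘ σ := rfl
    rw [hQapp, hQapp, hQapp, e1]
  have hsingle : ∀ j : Fin m ⊕ Fin m, (Pi.single j (1 : F) ∘ σ.symm) ∘ σ = Pi.single j 1 := by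
    intro j
    funext i
    simp [Function.comp]
  have hnd : (QuadraticMap.polarBilin Q).Nondegenerate := by
    refine ⟨fun x hx => ?_, fun y hy => ?_⟩
    · have h0 : x ∘ σ = 0 := by
        apply Matrix.eq_zero_of_vecMul_eq_zero (Matrix.isUnit_det_J (Fin m) F).ne_zero
        funext j
        have h := hx (Pi.single j 1 ∘ σ.symm)
        rw [hpol, Matrix.dotProduct_mulVec, hsingle] at h
        simpa using h
      funext i
      have := congrFun h0 (σ.symm i)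
      simpa using this
    · have h0 : y ∘ σ = 0 := by
        apply Matrix.eq_zero_of_mulVec_eq_zero (Matrix.isUnit_det_J (Fin m) F).ne_zero
        funext j
        have h := hy (Pi.single j 1 ∘ σ.symm)
        rw [hpol, hsingle] at h
        simpa using h
      funext i
      have := congrFun h0 (σ.symm i)
      simpa using this
  have hre2 : ∀ Z, Matrix.reindex σ σ Z = Matrix.reindexAlgEquiv F F σ Z :=
    fun Z => (Matrix.reindexAlgEquiv_apply F F σ Z).symm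
  obtain ⟨A', hA'⟩ : ∃ A' : Matrix (Fin (2 * m)) (Fin (2 * m)) F,
      A' = Matrix.reindex σ σ Bm := ⟨_, rfl⟩
  have hA'det : IsUnit A'.det := by
    rw [hA', Matrix.det_reindex_self]; exact hBdet
  have h1 : A' * A'⁻¹ = 1 := Matrix.mul_nonsing_inv A' hA'det
  have h1' : A'⁻¹ * A' = 1 := Matrix.nonsing_inv_mul A' hA'det
  have hkey : ∀ u : Fin (2 * m) → F, (A' *ᵥ u) ∘ σ = Bm *ᵥ (u ∘ σ) := by
    intro u
    rw [hA', Matrix.reindex_apply, Matrix.submatrix_mulVec_equiv]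
    funext i
    simp
  have hmem : (⟨A', A'⁻¹, h1, h1'⟩ : Matrix.GeneralLinearGroup (Fin (2 * m)) F)
      ∈ Cfsg.isometryGroup F ⇑Q := by
    intro u v
    show Q (A' *ᵥ u) = Q u
    rw [hQapp, hQapp, hkey, hQ₀inv]
  refine ⟨Q, hnd, e₀.trans σ, ⟨_, hmem⟩, ?_⟩
  obtain ⟨c, hc⟩ := hconj
  have hc' : (c : Matrix (Fin m ⊕ Fin m) (Fin m ⊕ Fin m) F)
      * Matrix.reindex e₀ e₀ (Cfsg.jordanTypeMatrix d F)
      = Bm * (c : Matrix (Fin m ⊕ Fin m) (Fin m ⊕ Fin m) F) := hc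
  refine ⟨⟨Matrix.reindex σ σ (c : Matrix (Fin m ⊕ Fin m) (Fin m ⊕ Fin m) F),
    Matrix.reindex σ σ ((c⁻¹ : (Matrix (Fin m ⊕ Fin m) (Fin m ⊕ Fin m) F)ˣ) :
      Matrix (Fin m ⊕ Fin m) (Fin m ⊕ Fin m) F), ?_, ?_⟩, ?_⟩
  · rw [hre2, hre2, ← map_mul, Units.mul_inv, map_one]
  · rw [hre2, hre2, ← map_mul, Units.inv_mul, map_one]
  · show Matrix.reindex σ σ (c : Matrix (Fin m ⊕ Fin m) (Fin m ⊕ Fin m) F)
        * Matrix.reindex (e₀.trans σ) (e₀.trans σ) (Cfsg.jordanTypeMatrix d F)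
        = A' * Matrix.reindex σ σ (c : Matrix (Fin m ⊕ Fin m) (Fin m ⊕ Fin m) F)
    have hX : Matrix.reindex (e₀.trans σ) (e₀.trans σ) (Cfsg.jordanTypeMatrix d F)
        = Matrix.reindex σ σ (Matrix.reindex e₀ e₀ (Cfsg.jordanTypeMatrix d F)) := by
      ext i j
      rfl
    rw [hX, hA', hre2, hre2, hre2, ← map_mul, ← map_mul, hc']

end Cfsg.Agent.Helper4
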