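import Mathlib
import Cfsg.Prelude.Def_SolvableStructure
import Cfsg.Agent.Lead.Frobenius
import Cfsg.Agent.Helper1.Coprime2
import Cfsg.Agent.Helper4.Schmidt2
import Cfsg.Agent.Helper4.CardMul
import Cfsg.Agent.Helper4.PSolvSylow

set_option autoImplicit false

namespace Cfsg.Agent.Helper4

universe u

/-- An element whose order is prime to the index of a normal subgroup lies in it. -/
theorem mem_of_coprime_order_index {X : Type*} [Group X] [Finite X] (N : Subgroup X) [N.Normal]
    (x : X) (h : (orderOf x).Coprime N.index) : x ∈ N := by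
  rw [← QuotientGroup.eq_one_iff]
  have h1 : orderOf (x : X ⧸ N) ∣ orderOf x := orderOf_map_dvd (QuotientGroup.mk' N) x
  have h2 : orderOf (x : X ⧸ N) ∣ N.index := by
    rw [Subgroup.index_eq_card]; exact orderOf_dvd_natCard _
  exact orderOf_eq_one_iff.mp ((Nat.Coprime.coprime_dvd_left h1 h).eq_one_of_dvd h2)

theorem nilpotent_of_le_nilpotent {G : Type*} [Group G] {H M : Subgroup G} (h : H ≤ M)
    (hM : Group.IsNilpotent M) : Group.IsNilpotent H := by
  haveI := hM
  exact Group.nilpotent_of_mulEquiv (Subgroup.subgroupOfEquivOfLe h)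

theorem nilpotent_of_proper_of_dvd {G : Type*} [Group G] [Finite G] (p : ℕ)
    (hmax : ∀ M : Subgroup G, IsCoatom M → p ∣ Nat.card M → Group.IsNilpotent M)
    (H : Subgroup G) (hH : H ≠ ⊤) (hp : p ∣ Nat.card H) : Group.IsNilpotent H := by
  obtain ⟨M, hM, hHM⟩ := (eq_top_or_exists_le_coatom H).resolve_left hH
  exact nilpotent_of_le_nilpotent hHM (hmax M hM (hp.trans (Subgroup.card_dvd_of_le hHM)))

theorem max_nilp_forward {G : Type u} [Group G] [Finite G] (p : ℕ) [Fact p.Prime]
    (hpG : p ∣ Nat.card G)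
    (hmax : ∀ M : Subgroup G, IsCoatom M → p ∣ Nat.card M → Group.IsNilpotent M)
    (hnil : ¬ Group.IsNilpotent G) (hmin : ¬ Cfsg.IsMinimalNonNilpotent G) :
    ∃ Z K : Subgroup G, Z.Normal ∧ K.Normal ∧ Z ⊓ K = ⊥ ∧ Z ⊔ K = ⊤ ∧ Nat.card Z = p ∧
          Cfsg.IsMinimalNonNilpotent K ∧ ¬ p ∣ Nat.card K := by
  classical
  have hpp : p.Prime := Fact.out
  have hex : ∃ M₀ : Subgroup G, IsCoatom M₀ ∧ ¬ Group.IsNilpotent M₀ := by
    unfold Cfsg.IsMinimalNonNilpotent at hmin
    push Not at hmin
    obtain ⟨H, hH, hHn⟩ := hmin hnil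
    obtain ⟨M, hM, hHM⟩ := (eq_top_or_exists_le_coatom H).resolve_left hH
    exact ⟨M, hM, fun h => hHn (nilpotent_of_le_nilpotent hHM h)⟩
  obtain ⟨M₀, hM₀, hM₀n⟩ := hex
  have hpM₀ : ¬ p ∣ Nat.card M₀ := fun h => hM₀n (hmax M₀ hM₀ h)
  have hM₀cop : (Nat.card M₀).Coprime p := ((Nat.Prime.coprime_iff_not_dvd hpp).mpr hpM₀).symm
  have L0 := nilpotent_of_proper_of_dvd p hmax
  have hcomm : ∀ H : Subgroup G, H ≠ ⊤ → p ∣ Nat.card H → ∀ u ∈ H, ∀ v ∈ H,
      (orderOf u).Coprime (orderOf v) → u * v = v * u := by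
    intro H hH hp u hu v hv h
    haveI := L0 H hH hp
    exact commute_of_mem_nilpotent H hu hv h
  -- a nontrivial normal `p`-subgroup exists
  have hU : ∃ U : Subgroup G, U.Normal ∧ IsPGroup p U ∧ U ≠ ⊥ := by
    by_contra hno
    push Not at hno
    have hF : Cfsg.Agent.Lead.FrobHyp p G := by
      intro X hX g hg hcop
      by_cases hXb : X = ⊥
      · rw [hXb, Subgroup.mem_centralizer_iff]
        intro x hx
        have hx1 : x = 1 := Subgroup.mem_bot.mp hx
        rw [hx1, one_mul, mul_one]
      · have hNtop : Subgroup.normalizer (X : Set G) ≠ ⊤ := by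
          intro h
          exact hXb (hno X (Subgroup.normalizer_eq_top_iff.mp h) hX)
        have hpN : p ∣ Nat.card (Subgroup.normalizer (X : Set G)) := by
          have h1 : p ∣ Nat.card X := by
            obtain ⟨k, hk⟩ := (IsPGroup.iff_card).mp hX
            have hk0 : k ≠ 0 := by
              rintro rfl
              rw [pow_zero] at hk
              exact hXb ((Subgroup.card_eq_one).mp hk)
            rw [hk]; exact dvd_pow_self p hk0
          exact h1.trans (Subgroup.card_dvd_of_le Subgroup.le_normalizer)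
        rw [Subgroup.mem_centralizer_iff]
        intro x hx
        have hxo : ∃ k, orderOf x = p ^ k := by
          obtain ⟨k, hk⟩ := hX ⟨x, hx⟩
          have h1 : x ^ p ^ k = 1 := by simpa using congrArg Subtype.val hk
          obtain ⟨j, -, hj⟩ := (Nat.dvd_prime_pow hpp).mp (orderOf_dvd_of_pow_eq_one h1)
          exact ⟨j, hj⟩
        obtain ⟨k, hk⟩ := hxo
        exact hcomm _ hNtop hpN x (Subgroup.le_normalizer hx) g hg
          (by rw [hk]; exact (hcop.pow_right k).symm)
    obtain ⟨P⟩ : Nonempty (Sylow p G) := inferInstance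
    obtain ⟨L, hLn, hLc⟩ := Cfsg.Agent.Lead.frobenius_npc hF P
    haveI := hLn
    obtain ⟨k, hk⟩ := (IsPGroup.iff_card).mp P.isPGroup'
    have hLidx : L.index = p ^ k := by rw [hLc.symm.index_eq_card]; exact hk
    have hM₀L : M₀ ≤ L := by
      intro m hm
      apply mem_of_coprime_order_of_index_pow p L k hLidx
      exact Nat.Coprime.coprime_dvd_left (Subgroup.orderOf_dvd_natCard M₀ hm) hM₀cop
    have hPne : (P : Subgroup G) ≠ ⊥ := P.ne_bot_of_dvd_card hpG
    have hLtop : L ≠ ⊤ := by
      intro h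
      rw [h, Subgroup.index_top] at hLidx
      apply hPne
      rw [← Subgroup.card_eq_one, hk, ← hLidx]
    have hLM : M₀ = L := by
      by_contra hne
      exact hLtop (hM₀.2 L (lt_of_le_of_ne hM₀L hne))
    have hcopPL : (Nat.card (P : Subgroup G)).Coprime (Nat.card L) := by
      rw [hk, ← hLM]; exact (hM₀cop.pow_right k).symm
    have hPsolv : Group.IsSolvable (P : Subgroup G) := by
      haveI : Group.IsNilpotent (P : Subgroup G) := P.isPGroup'.isNilpotent
      infer_instance
    have hcardG : Nat.card L * Nat.card (P : Subgroup G) = Nat.card G := hLc.card_mul_card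
    have hcent : L ≤ Subgroup.centralizer ((P : Subgroup G) : Set G) := by
      set C := L ⊓ Subgroup.centralizer ((P : Subgroup G) : Set G) with hC
      have hdvd : Nat.card L ∣ Nat.card C := by
        rw [← Nat.factorization_prime_le_iff_dvd Nat.card_pos.ne' Nat.card_pos.ne']
        intro q hq
        haveI : Fact q.Prime := ⟨hq⟩
        obtain ⟨Q, hQL, hQcard, hPQ⟩ := Cfsg.Agent.Helper1.inv_sylow_exists (P : Subgroup G) L
          (by rw [Subgroup.normalizer_eq_top]; exact le_top) hcopPL (Or.inl hPsolv) q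
        have hQC : Q ≤ C := by
          refine le_inf hQL ?_
          have hcopPQ : (Nat.card (P : Subgroup G)).Coprime (Nat.card Q) :=
            Nat.Coprime.coprime_dvd_right (Subgroup.card_dvd_of_le hQL) hcopPL
          have htop : (P : Subgroup G) ⊔ Q ≠ ⊤ := by
            intro h
            have h1 := card_sup_mul_card_inf (P : Subgroup G) Q hPQ
            have h2 : (P : Subgroup G) ⊓ Q = ⊥ :=
              disjoint_iff.mp (Subgroup.disjoint_of_coprime_natCard hcopPQ)
            rw [h, h2, Subgroup.card_bot, mul_one, Subgroup.card_top, ← hcardG, mul_comm] at h1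
            have h3 : Nat.card L = Nat.card Q :=
              Nat.eq_of_mul_eq_mul_left Nat.card_pos h1
            have h4 : Q = L := Subgroup.eq_of_le_of_card_ge hQL h3.le
            apply hM₀n
            rw [hLM, ← h4]
            exact (IsPGroup.of_card hQcard).isNilpotent
          have hp' : p ∣ Nat.card ↥((P : Subgroup G) ⊔ Q) := by
            have h1 : p ∣ Nat.card (P : Subgroup G) := by
              have hk0 : k ≠ 0 := by
                rintro rfl
                rw [pow_zero] at hk
                exact hPne ((Subgroup.card_eq_one).mp hk)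
              rw [hk]; exact dvd_pow_self p hk0
            exact h1.trans (Subgroup.card_dvd_of_le le_sup_left)
          intro x hx
          rw [Subgroup.mem_centralizer_iff]
          intro y hy
          apply hcomm _ htop hp' y (le_sup_left (a := (P : Subgroup G)) hy) x
            (le_sup_right (b := Q) hx)
          exact Nat.Coprime.coprime_dvd_left (Subgroup.orderOf_dvd_natCard _ hy)
            (Nat.Coprime.coprime_dvd_right (Subgroup.orderOf_dvd_natCard _ hx) hcopPQ)
        have h1 : q ^ (Nat.card L).factorization q ∣ Nat.card C := by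
          rw [← hQcard]; exact Subgroup.card_dvd_of_le hQC
        exact (hq.pow_dvd_iff_le_factorization Nat.card_pos.ne').mp h1
      have hCL : C = L := Subgroup.eq_of_le_of_card_ge inf_le_left (Nat.le_of_dvd Nat.card_pos hdvd)
      rw [← hCL]; exact inf_le_right
    have hPn : (P : Subgroup G).Normal := by
      rw [← Subgroup.normalizer_eq_top_iff, eq_top_iff, ← hLc.sup_eq_top]
      refine sup_le ?_ Subgroup.le_normalizer
      exact hcent.trans (Subgroup.centralizer_le_normalizer _)
    exact hPne (hno _ hPn P.isPGroup')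
  obtain ⟨U, hUn, hUp, hUne⟩ := hU
  haveI := hUn
  obtain ⟨j, hj⟩ := (IsPGroup.iff_card).mp hUp
  have hj0 : j ≠ 0 := by
    rintro rfl
    rw [pow_zero] at hj
    exact hUne ((Subgroup.card_eq_one).mp hj)
  have hpU : p ∣ Nat.card U := by rw [hj]; exact dvd_pow_self p hj0
  have hcopUM : (Nat.card U).Coprime (Nat.card M₀) := by
    rw [hj]; exact (hM₀cop.pow_right j).symm
  have hUM : U ⊓ M₀ = ⊥ := disjoint_iff.mp (Subgroup.disjoint_of_coprime_natCard hcopUM)
  have hUM_top : U ⊔ M₀ = ⊤ := by
    apply hM₀.2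
    refine lt_of_le_of_ne le_sup_right ?_
    intro h
    have h1 : U ≤ M₀ := by rw [h]; exact le_sup_left
    exact hUne (by rw [← hUM]; exact (inf_eq_left.mpr h1).symm)
  have hcardG : Nat.card G = Nat.card U * Nat.card M₀ := by
    have h := card_sup_mul_card_inf M₀ U (by rw [Subgroup.normalizer_eq_top]; exact le_top)
    rw [sup_comm, hUM_top, inf_comm, hUM, Subgroup.card_bot, mul_one, Subgroup.card_top] at h
    rw [h, mul_comm]
  have key : ∀ M₂ : Subgroup G, M₂ ≤ M₀ → M₂ ≠ M₀ →
      Group.IsNilpotent M₂ ∧ ∀ u ∈ U, ∀ m ∈ M₂, u * m = m * u := by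
    intro M₂ hle hne
    have hlt : Nat.card M₂ < Nat.card M₀ := by
      by_contra h
      push Not at h
      exact hne (Subgroup.eq_of_le_of_card_ge hle h)
    have htop : U ⊔ M₂ ≠ ⊤ := by
      intro h
      have h1 := card_sup_mul_card_inf M₂ U (by rw [Subgroup.normalizer_eq_top]; exact le_top)
      rw [sup_comm, h, Subgroup.card_top, hcardG] at h1
      have h2 : 0 < Nat.card ↥(M₂ ⊓ U) := Nat.card_pos
      have h3 : 0 < Nat.card U := Nat.card_pos
      have h4 : Nat.card U * Nat.card M₂ < Nat.card U * Nat.card M₀ :=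
        Nat.mul_lt_mul_of_pos_left hlt h3
      have h5 : Nat.card U * Nat.card M₀ ≤ Nat.card U * Nat.card M₀ * Nat.card ↥(M₂ ⊓ U) :=
        Nat.le_mul_of_pos_right _ h2
      rw [h1] at h5
      have h6 : Nat.card M₂ * Nat.card U = Nat.card U * Nat.card M₂ := mul_comm _ _
      omega
    have hp' : p ∣ Nat.card ↥(U ⊔ M₂) := hpU.trans (Subgroup.card_dvd_of_le le_sup_left)
    refine ⟨nilpotent_of_le_nilpotent le_sup_right (L0 _ htop hp'), ?_⟩
    intro u hu m hm
    apply hcomm _ htop hp' u (le_sup_left (a := U) hu) m (le_sup_right (b := M₂) hm)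
    exact Nat.Coprime.coprime_dvd_left (Subgroup.orderOf_dvd_natCard _ hu)
      (Nat.Coprime.coprime_dvd_right (Subgroup.orderOf_dvd_natCard _ (hle hm)) hcopUM)
  have hMmin : Cfsg.IsMinimalNonNilpotent M₀ := by
    refine ⟨hM₀n, ?_⟩
    intro H hH
    have h1 : H.map M₀.subtype ≤ M₀ := Subgroup.map_subtype_le H
    have h2 : H.map M₀.subtype ≠ M₀ := by
      intro h
      apply hH
      rw [eq_top_iff]
      intro x _
      have h3 : (x : G) ∈ H.map M₀.subtype := by rw [h]; exact x.2
      obtain ⟨y, hy, hyx⟩ := Subgroup.mem_map.mp h3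
      have h4 : y = x := Subtype.ext hyx
      rwa [← h4]
    haveI := (key _ h1 h2).1
    exact Group.nilpotent_of_mulEquiv (H.equivMapOfInjective M₀.subtype M₀.subtype_injective).symm
  have hcentU : ∀ u ∈ U, ∀ m ∈ M₀, u * m = m * u := by
    intro u hu m hm
    have hz : Subgroup.zpowers m ≠ M₀ := by
      intro h
      apply hM₀n
      have h1 : Group.IsNilpotent (Subgroup.zpowers m) := by
        letI := IsCyclic.commGroup (α := Subgroup.zpowers m)
        infer_instance
      rw [← h]; exact h1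
    exact (key _ (Subgroup.zpowers_le.mpr hm) hz).2 u hu m (Subgroup.mem_zpowers m)
  have hUcent : U ≤ Subgroup.centralizer (M₀ : Set G) := by
    intro u hu
    rw [Subgroup.mem_centralizer_iff]
    intro m hm
    exact (hcentU u hu m hm).symm
  have hUnorm : U ≤ Subgroup.normalizer (M₀ : Set G) :=
    hUcent.trans (Subgroup.centralizer_le_normalizer _)
  have hcardU : Nat.card U = p := by
    obtain ⟨x, hx⟩ := exists_prime_orderOf_dvd_card' (G := U) p hpU
    set U₁ := Subgroup.zpowers (x : G) with hU₁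
    have hU₁U : U₁ ≤ U := Subgroup.zpowers_le.mpr x.2
    have hU₁card : Nat.card U₁ = p := by rw [hU₁, Nat.card_zpowers, Subgroup.orderOf_coe, hx]
    have hU₁M : U₁ ⊓ M₀ = ⊥ := by
      rw [eq_bot_iff, ← hUM]
      exact inf_le_inf_right _ hU₁U
    have hU₁ne : U₁ ≠ ⊥ := by
      intro h
      rw [h, Subgroup.card_bot] at hU₁card
      exact hpp.one_lt.ne hU₁card
    have hU₁top : U₁ ⊔ M₀ = ⊤ := by
      apply hM₀.2
      refine lt_of_le_of_ne le_sup_right ?_
      intro h
      have h1 : U₁ ≤ M₀ := by rw [h]; exact le_sup_left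
      exact hU₁ne (by rw [← hU₁M]; exact (inf_eq_left.mpr h1).symm)
    have h1 := card_sup_mul_card_inf U₁ M₀ (hU₁U.trans hUnorm)
    rw [hU₁top, hU₁M, Subgroup.card_bot, mul_one, Subgroup.card_top, hcardG, hU₁card] at h1
    exact Nat.eq_of_mul_eq_mul_right Nat.card_pos h1
  have hM₀normal : M₀.Normal := by
    rw [← Subgroup.normalizer_eq_top_iff, eq_top_iff, ← hUM_top]
    exact sup_le hUnorm Subgroup.le_normalizer
  exact ⟨U, M₀, hUn, hM₀normal, hUM, hUM_top, hcardU, hMmin, hpM₀⟩

theorem max_nilp_backward {G : Type u} [Group G] [Finite G] (p : ℕ) [Fact p.Prime]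
    (h : Group.IsNilpotent G ∨ Cfsg.IsMinimalNonNilpotent G ∨
        ∃ Z K : Subgroup G, Z.Normal ∧ K.Normal ∧ Z ⊓ K = ⊥ ∧ Z ⊔ K = ⊤ ∧ Nat.card Z = p ∧
          Cfsg.IsMinimalNonNilpotent K ∧ ¬ p ∣ Nat.card K)
    (M : Subgroup G) (hM : IsCoatom M) (hpM : p ∣ Nat.card M) : Group.IsNilpotent M := by
  rcases h with h | h | ⟨Z, K, hZn, hKn, hZK, hZKtop, hZcard, hKmin, hpK⟩
  · haveI := h; infer_instance
  · exact h.2 M hM.1
  · have hpp : p.Prime := Fact.out
    haveI := hZn
    haveI := hKn
    have hcard : Nat.card G = p * Nat.card K := by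
      have h1 := card_sup_mul_card_inf Z K (by rw [Subgroup.normalizer_eq_top]; exact le_top)
      rw [hZKtop, hZK, Subgroup.card_bot, mul_one, Subgroup.card_top, hZcard] at h1
      exact h1
    have hZidx : Z.index = Nat.card K := by
      have h1 := Subgroup.card_mul_index Z
      rw [hZcard, hcard] at h1
      exact Nat.eq_of_mul_eq_mul_left hpp.pos h1
    have hZM : Z ≤ M := by
      obtain ⟨x, hx⟩ := exists_prime_orderOf_dvd_card' (G := M) p hpM
      have hxZ : (x : G) ∈ Z := by
        apply mem_of_coprime_order_index Z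
        rw [Subgroup.orderOf_coe, hx, hZidx]
        exact (Nat.Prime.coprime_iff_not_dvd hpp).mpr hpK
      have hzp : Subgroup.zpowers (x : G) = Z := by
        apply Subgroup.eq_of_le_of_card_ge (Subgroup.zpowers_le.mpr hxZ)
        rw [Nat.card_zpowers, Subgroup.orderOf_coe, hx, hZcard]
      rw [← hzp]
      exact Subgroup.zpowers_le.mpr x.2
    haveI hcyc : IsCyclic Z := isCyclic_of_prime_card (p := p) hZcard
    have hdecomp : ∀ g : G, ∃ a ∈ Z, ∃ b ∈ K, a * b = g := by
      intro g
      have hg : g ∈ ((Z ⊔ K : Subgroup G) : Set G) := by rw [hZKtop]; trivial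
      rw [Subgroup.mul_normal] at hg
      obtain ⟨a, ha, b, hb, hab⟩ := Set.mem_mul.mp hg
      exact ⟨a, ha, b, hb, hab⟩
    have hZc : ∀ z ∈ Z, ∀ g : G, z * g = g * z := by
      intro z hz g
      obtain ⟨a, ha, b, hb, rfl⟩ := hdecomp g
      have h1 : z * a = a * z :=
        congrArg Subtype.val ((IsCyclic.commGroup (α := Z)).mul_comm ⟨z, hz⟩ ⟨a, ha⟩)
      have h2 : z * b = b * z :=
        (Subgroup.commute_of_normal_of_disjoint Z K hZn hKn (disjoint_iff.mpr hZK) z b hz hb).eq
      calc z * (a * b) = (z * a) * b := by group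
        _ = a * (z * b) := by rw [h1]; group
        _ = a * b * z := by rw [h2]; group
    have hMK : Group.IsNilpotent ↥(M ⊓ K) := by
      have hne : (M ⊓ K).subgroupOf K ≠ ⊤ := by
        intro h
        rw [Subgroup.subgroupOf_eq_top] at h
        have hKM : K ≤ M := h.trans inf_le_left
        exact hM.1 (eq_top_iff.mpr (hZKtop ▸ sup_le hZM hKM))
      haveI := hKmin.2 _ hne
      exact Group.nilpotent_of_mulEquiv (Subgroup.subgroupOfEquivOfLe inf_le_right)
    haveI : Group.IsNilpotent Z :=
      (IsPGroup.of_card (n := 1) (by rw [hZcard, pow_one])).isNilpotent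
    let f : ↥Z × ↥(M ⊓ K) →* ↥M :=
      MonoidHom.noncommCoprod (Subgroup.inclusion hZM) (Subgroup.inclusion inf_le_left) (by
        intro a b
        show _ * _ = _ * _
        apply Subtype.ext
        exact hZc a a.2 b)
    have hf : Function.Surjective f := by
      intro m
      obtain ⟨a, ha, b, hb, hab⟩ := hdecomp (m : G)
      have hbM : b ∈ M := by
        have h1 : b = a⁻¹ * m := by rw [← hab]; group
        rw [h1]; exact M.mul_mem (M.inv_mem (hZM ha)) m.2
      refine ⟨(⟨a, ha⟩, ⟨b, Subgroup.mem_inf.mpr ⟨hbM, hb⟩⟩), ?_⟩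
      apply Subtype.ext
      simp only [f, MonoidHom.noncommCoprod_apply]
      exact hab
    exact Group.nilpotent_of_surjective f hf

/-- S4242. -/
theorem max_nilp_iff {G : Type u} [Group G] [Finite G] (p : ℕ) (hp : p.Prime)
    (hpG : p ∣ Nat.card G) :
    (∀ M : Subgroup G, IsCoatom M → p ∣ Nat.card M → Group.IsNilpotent M) ↔
      (Group.IsNilpotent G ∨ Cfsg.IsMinimalNonNilpotent G ∨
        ∃ Z K : Subgroup G, Z.Normal ∧ K.Normal ∧ Z ⊓ K = ⊥ ∧ Z ⊔ K = ⊤ ∧ Nat.card Z = p ∧
          Cfsg.IsMinimalNonNilpotent K ∧ ¬ p ∣ Nat.card K) := by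
  haveI : Fact p.Prime := ⟨hp⟩
  constructor
  · intro hmax
    by_cases hnil : Group.IsNilpotent G
    · exact Or.inl hnil
    · by_cases hmin : Cfsg.IsMinimalNonNilpotent G
      · exact Or.inr (Or.inl hmin)
      · exact Or.inr (Or.inr (max_nilp_forward p hpG hmax hnil hmin))
  · intro h M hM hpM
    exact max_nilp_backward p h M hM hpM

end Cfsg.Agent.Helper4
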