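import Cfsg.Agent.Helper4.SylNormCompl
import Cfsg.Agent.Helper17.SylIn
import Cfsg.Agent.Helper17.RelSylow
import Cfsg.Agent.Helper1.Basic2
import Cfsg.Agent.Helper1.Coprime2
import Cfsg.Agent.Lead.FusionNPC
import Mathlib

set_option autoImplicit false

namespace Cfsg.Agent.Helper4

universe u

/-- Elementwise form of "class at most two": commutators of elements of `M` centralize `M`. -/
def Cl2 {G : Type*} [Group G] (M : Subgroup G) : Prop :=
  ∀ a ∈ M, ∀ b ∈ M, ∀ c ∈ M, (a * b * a⁻¹ * b⁻¹) * c = c * (a * b * a⁻¹ * b⁻¹)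

theorem cl2_of_nilpotencyClass_le {G : Type*} [Group G] (M : Subgroup G)
    [hnil : Group.IsNilpotent M] (hcl : Group.nilpotencyClass ↥M ≤ 2) : Cl2 M := by
  have h2 : Subgroup.upperCentralSeries M 2 = ⊤ :=
    Subgroup.upperCentralSeries_eq_top_iff_nilpotencyClass_le.mpr hcl
  intro a ha b hb c hc
  have h3 : (⟨a, ha⟩ : M) ∈ Subgroup.upperCentralSeries M (1 + 1) := by
    rw [h2]; trivial
  rw [Subgroup.mem_upperCentralSeries_succ_iff] at h3
  have h4 := h3 ⟨b, hb⟩
  rw [Subgroup.upperCentralSeries_one, Subgroup.mem_center_iff] at h4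
  have h5 := h4 ⟨c, hc⟩
  have h6 := congrArg (fun z : M => (z : G)) h5
  simp only [commutatorElement_def, Subgroup.coe_mul, Subgroup.coe_inv] at h6
  exact h6.symm

theorem cl2_centralizer_normalized {G : Type*} [Group G] (M : Subgroup G) (hc2 : Cl2 M)
    (w : G) (hw : w ∈ M) :
    M ≤ Subgroup.normalizer ((Subgroup.centralizer ({w} : Set G) ⊓ M : Subgroup G) : Set G) := by
  have hconj : ∀ m ∈ M, ∀ h ∈ Subgroup.centralizer ({w} : Set G) ⊓ M,
      m * h * m⁻¹ ∈ Subgroup.centralizer ({w} : Set G) ⊓ M := by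
    intro m hm h hh
    obtain ⟨hhc, hhM⟩ := Subgroup.mem_inf.mp hh
    refine Subgroup.mem_inf.mpr ⟨?_, M.mul_mem (M.mul_mem hm hhM) (M.inv_mem hm)⟩
    rw [Subgroup.mem_centralizer_iff] at hhc ⊢
    intro s hs
    rw [Set.mem_singleton_iff.mp hs]
    have h1 := hhc w (Set.mem_singleton w)
    have h2 := hc2 m hm h hhM w hw
    calc w * (m * h * m⁻¹) = w * (m * h * m⁻¹ * h⁻¹) * h := by group
      _ = (m * h * m⁻¹ * h⁻¹) * w * h := by rw [h2]
      _ = (m * h * m⁻¹ * h⁻¹) * (w * h) := by group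
      _ = (m * h * m⁻¹ * h⁻¹) * (h * w) := by rw [h1]
      _ = m * h * m⁻¹ * w := by group
  intro m hm
  rw [Subgroup.mem_normalizer_iff]
  intro h
  refine ⟨hconj m hm h, fun hh => ?_⟩
  have h1 := hconj m⁻¹ (M.inv_mem hm) _ hh
  have e : m⁻¹ * (m * h * m⁻¹) * m⁻¹⁻¹ = h := by group
  rwa [e] at h1

theorem cl2_fusion {G : Type*} [Group G] [Finite G] {p : ℕ} [Fact p.Prime] (P : Sylow p G)
    (hc2 : Cl2 (P : Subgroup G))
    (hN : ∀ D : Subgroup G, D ≤ (P : Subgroup G) → D ≠ ⊥ →
      (P : Subgroup G) ≤ Subgroup.normalizer (D : Set G) →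
      Subgroup.normalizer (D : Set G) = (P : Subgroup G))
    (x y : G) (hx : x ∈ (P : Subgroup G)) (hy : y ∈ (P : Subgroup G)) (g : G)
    (hg : g * x * g⁻¹ = y)
    (hcard : Nat.card ↥(Subgroup.centralizer ({y} : Set G) ⊓ (P : Subgroup G)) ≤
      Nat.card ↥(Subgroup.centralizer ({x} : Set G) ⊓ (P : Subgroup G))) :
    ∃ z ∈ (P : Subgroup G), z * x * z⁻¹ = y := by
  by_cases hx1 : x = 1
  · refine ⟨1, one_mem _, ?_⟩
    rw [← hg, hx1]; group
  have hy1 : y ≠ 1 := by
    intro h
    apply hx1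
    rw [← hg] at h
    have e : x = g⁻¹ * (g * x * g⁻¹) * g := by group
    rw [e, h]; group
  have hxE : x ∈ Subgroup.centralizer ({x} : Set G) ⊓ (P : Subgroup G) :=
    Subgroup.mem_inf.mpr ⟨Subgroup.mem_centralizer_iff.mpr
      (fun s hs => by rw [Set.mem_singleton_iff.mp hs]), hx⟩
  have hyD : y ∈ Subgroup.centralizer ({y} : Set G) ⊓ (P : Subgroup G) :=
    Subgroup.mem_inf.mpr ⟨Subgroup.mem_centralizer_iff.mpr
      (fun s hs => by rw [Set.mem_singleton_iff.mp hs]), hy⟩
  set E := Subgroup.centralizer ({x} : Set G) ⊓ (P : Subgroup G) with hE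
  set D := Subgroup.centralizer ({y} : Set G) ⊓ (P : Subgroup G) with hD
  have hE1 : E ≠ ⊥ := fun h => hx1 (by rw [h] at hxE; exact Subgroup.mem_bot.mp hxE)
  have hD1 : D ≠ ⊥ := fun h => hy1 (by rw [h] at hyD; exact Subgroup.mem_bot.mp hyD)
  have hNE : Subgroup.normalizer (E : Set G) = (P : Subgroup G) :=
    hN E inf_le_right hE1 (cl2_centralizer_normalized _ hc2 x hx)
  have hND : Subgroup.normalizer (D : Set G) = (P : Subgroup G) :=
    hN D inf_le_right hD1 (cl2_centralizer_normalized _ hc2 y hy)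
  have hP1 : (P : Subgroup G) ≠ ⊥ := fun h => hx1 (by rw [h] at hx; exact Subgroup.mem_bot.mp hx)
  have hNP : Subgroup.normalizer ((P : Subgroup G) : Set G) = (P : Subgroup G) :=
    hN P le_rfl hP1 Subgroup.le_normalizer
  have hDC : D ≤ Subgroup.centralizer ({y} : Set G) := inf_le_left
  have hDp : IsPGroup p D := P.2.to_le inf_le_right
  have hEp : IsPGroup p E := P.2.to_le inf_le_right
  have hsyl : Cfsg.Agent.Helper17.SylIn p D (Subgroup.centralizer ({y} : Set G)) := by
    obtain ⟨D₀, hD₀⟩ := (hDp.comap_subtype (K := Subgroup.centralizer ({y} : Set G))).exists_le_sylow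
    refine ⟨D₀, ?_⟩
    have hle : D ≤ (D₀ : Subgroup (Subgroup.centralizer ({y} : Set G))).map
        (Subgroup.centralizer ({y} : Set G)).subtype := by
      intro d hd
      exact ⟨⟨d, hDC hd⟩, hD₀ (Subgroup.mem_subgroupOf.mpr hd), rfl⟩
    by_contra hne
    obtain ⟨u, huQ, huD, huN⟩ := Cfsg.Agent.Helper17.exists_normalizer_mem_not_mem D
      ((D₀ : Subgroup (Subgroup.centralizer ({y} : Set G))).map
        (Subgroup.centralizer ({y} : Set G)).subtype) (D₀.2.map _) hle (Ne.symm hne)
    apply huD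
    rw [hND] at huN
    exact Subgroup.mem_inf.mpr ⟨Subgroup.map_subtype_le _ huQ, huN⟩
  have hgE : E.map (MulAut.conj g).toMonoidHom ≤ Subgroup.centralizer ({y} : Set G) := by
    rintro _ ⟨e, he, rfl⟩
    have hec := (Subgroup.mem_inf.mp he).1
    rw [Subgroup.mem_centralizer_iff] at hec
    have h1 := hec x (Set.mem_singleton x)
    rw [Subgroup.mem_centralizer_iff]
    intro s hs
    rw [Set.mem_singleton_iff.mp hs, ← hg]
    simp only [MulEquiv.coe_toMonoidHom, MulAut.conj_apply]
    calc g * x * g⁻¹ * (g * e * g⁻¹) = g * (x * e) * g⁻¹ := by group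
      _ = g * (e * x) * g⁻¹ := by rw [h1]
      _ = g * e * g⁻¹ * (g * x * g⁻¹) := by group
  obtain ⟨c, hcC, hcle⟩ := hsyl.exists_conj_le (E.map (MulAut.conj g).toMonoidHom) hgE
    (hEp.map _)
  have hcy : c * y * c⁻¹ = y := by
    rw [Subgroup.mem_centralizer_iff] at hcC
    have h1 := hcC y (Set.mem_singleton y)
    rw [← h1]; group
  have hmap : ∀ e ∈ E, (c * g) * e * (c * g)⁻¹ ∈ D := by
    intro e he
    have h1 : (MulAut.conj c).toMonoidHom ((MulAut.conj g).toMonoidHom e) ∈ D :=
      hcle ⟨_, ⟨e, he, rfl⟩, rfl⟩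
    simp only [MulEquiv.coe_toMonoidHom, MulAut.conj_apply] at h1
    have e2 : c * g * e * (c * g)⁻¹ = c * (g * e * g⁻¹) * c⁻¹ := by group
    rw [e2]; exact h1
  let φ : E → D := fun e => ⟨(c * g) * e * (c * g)⁻¹, hmap e e.2⟩
  have hφinj : Function.Injective φ := by
    intro a b hab
    have h1 : (c * g) * (a : G) * (c * g)⁻¹ = (c * g) * (b : G) * (c * g)⁻¹ :=
      congrArg (fun z : D => (z : G)) hab
    exact Subtype.ext (mul_left_cancel (mul_right_cancel h1))
  have hφbij := hφinj.bijective_of_nat_card_le hcard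
  have hDeq : E.map (MulAut.conj (c * g)).toMonoidHom = D := by
    apply le_antisymm
    · rintro _ ⟨e, he, rfl⟩
      simp only [MulEquiv.coe_toMonoidHom, MulAut.conj_apply]
      exact hmap e he
    · intro d hd
      obtain ⟨e, he⟩ := hφbij.2 ⟨d, hd⟩
      refine ⟨e, e.2, ?_⟩
      have h1 : (c * g) * (e : G) * (c * g)⁻¹ = d := congrArg (fun z : D => (z : G)) he
      simp only [MulEquiv.coe_toMonoidHom, MulAut.conj_apply]
      exact h1
  have hPeq : (P : Subgroup G).map (MulAut.conj (c * g)).toMonoidHom = (P : Subgroup G) := by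
    have h1 := Subgroup.map_equiv_normalizer_eq E (MulAut.conj (c * g))
    rw [hDeq, hNE, hND] at h1
    exact h1
  have hmem : c * g ∈ Subgroup.normalizer ((P : Subgroup G) : Set G) :=
    Cfsg.Agent.Helper17.mem_normalizer_of_map_conj_eq _ hPeq
  rw [hNP] at hmem
  refine ⟨c * g, hmem, ?_⟩
  calc c * g * x * (c * g)⁻¹ = c * (g * x * g⁻¹) * c⁻¹ := by group
    _ = c * y * c⁻¹ := by rw [hg]
    _ = y := hcy

theorem solvable_of_coprime_complement {G : Type u} [Group G] [Finite G] (M N : Subgroup G)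
    (hmax : IsCoatom M) (hMs : Group.IsSolvable M) [hNn : N.Normal] (hdisj : N ⊓ M = ⊥)
    (hN1 : N ≠ ⊥) (hcop : (Nat.card M).Coprime (Nat.card N)) : Group.IsSolvable G := by
  have hcardN : Nat.card N ≠ 1 := fun h => hN1 (Subgroup.card_eq_one.mp h)
  obtain ⟨q, hq, hqd⟩ := Nat.exists_prime_and_dvd hcardN
  haveI : Fact q.Prime := ⟨hq⟩
  obtain ⟨Q, hQN, hQcard, hMQ⟩ := Cfsg.Agent.Helper1.inv_sylow_exists M N
    (by rw [Subgroup.normalizer_eq_top]; exact le_top) hcop (Or.inl hMs) q
  have hQ1 : Q ≠ ⊥ := by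
    intro h
    rw [h, Subgroup.card_bot] at hQcard
    have hpos : 0 < (Nat.card N).factorization q :=
      hq.factorization_pos_of_dvd Nat.card_pos.ne' hqd
    have h2 : 1 < q ^ (Nat.card N).factorization q := Nat.one_lt_pow hpos.ne' hq.one_lt
    omega
  have hQM : ¬ Q ≤ M := by
    intro h
    apply hQ1
    rw [eq_bot_iff, ← hdisj]
    exact le_inf hQN h
  have htop : Q ⊔ M = ⊤ := by
    apply hmax.2
    exact lt_of_le_of_ne le_sup_right (fun h => hQM (by rw [h]; exact le_sup_left))
  haveI hQn : Q.Normal := by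
    rw [← Subgroup.normalizer_eq_top_iff, eq_top_iff, ← htop]
    exact sup_le Subgroup.le_normalizer hMQ
  have hsurj : Function.Surjective ((QuotientGroup.mk' Q).comp M.subtype) := by
    intro y
    obtain ⟨g, rfl⟩ := QuotientGroup.mk'_surjective Q y
    have hg : g ∈ Q ⊔ M := by rw [htop]; trivial
    rw [Subgroup.mem_sup_of_normal_left] at hg
    obtain ⟨a, ha, b, hb, rfl⟩ := hg
    refine ⟨⟨b, hb⟩, ?_⟩
    simp only [MonoidHom.comp_apply, Subgroup.subtype_apply, QuotientGroup.mk'_apply]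
    rw [QuotientGroup.mk_mul, (QuotientGroup.eq_one_iff a).mpr ha, one_mul]
  haveI : Group.IsSolvable (G ⧸ Q) := Group.isSolvable_of_surjective hsurj
  have hQp : IsPGroup q Q := IsPGroup.of_card hQcard
  haveI : Group.IsNilpotent Q := hQp.isNilpotent
  haveI : Group.IsSolvable Q := inferInstance
  exact Group.isSolvable_of_ker_le_range Q.subtype (QuotientGroup.mk' Q)
    (by rw [QuotientGroup.ker_mk', Subgroup.range_subtype])

theorem solvable_of_cl2_max : ∀ (n : ℕ) (G : Type u) [Group G] [Finite G] (M : Subgroup G),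
    Nat.card G = n → IsCoatom M → Group.IsNilpotent M → Cl2 M → Group.IsSolvable G := by
  intro n
  induction n using Nat.strong_induction_on with
  | _ n ih =>
  intro G _ _ M hn hmax hnil hc2
  haveI := hnil
  have hMs : Group.IsSolvable M := inferInstance
  by_cases hcase : ∃ D : Subgroup G, D ≤ M ∧ D ≠ ⊥ ∧ D.Normal
  · obtain ⟨D, hDM, hD1, hDn⟩ := hcase
    haveI := hDn
    have hlt : Nat.card (G ⧸ D) < n := by
      have h1 : 1 < Nat.card D := (Subgroup.one_lt_card_iff_ne_bot D).mpr hD1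
      have h2 := Subgroup.card_mul_index D
      have h3 : 0 < D.index := Nat.pos_of_ne_zero Subgroup.index_ne_zero_of_finite
      rw [← Subgroup.index_eq_card, ← hn, ← h2]
      nlinarith
    have hco := Cfsg.Agent.Helper1.isCoatom_map_mk D M hmax hDM
    have hsurj : Function.Surjective ((QuotientGroup.mk' D).subgroupMap M) :=
      MonoidHom.subgroupMap_surjective _ _
    have hnil' : Group.IsNilpotent (M.map (QuotientGroup.mk' D)) :=
      Group.nilpotent_of_surjective _ hsurj
    have hc2' : Cl2 (M.map (QuotientGroup.mk' D)) := by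
      rintro _ ⟨a, ha, rfl⟩ _ ⟨b, hb, rfl⟩ _ ⟨c, hc, rfl⟩
      have h1 := congrArg (QuotientGroup.mk' D) (hc2 a ha b hb c hc)
      simpa only [map_mul, map_inv] using h1
    haveI : Group.IsSolvable (G ⧸ D) :=
      ih _ hlt (G ⧸ D) (M.map (QuotientGroup.mk' D)) rfl hco hnil' hc2'
    haveI : Group.IsSolvable D :=
      Group.isSolvable_of_isSolvable_injective (f := Subgroup.inclusion hDM)
        (Subgroup.inclusion_injective hDM)
    exact Group.isSolvable_of_ker_le_range D.subtype (QuotientGroup.mk' D)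
      (by rw [QuotientGroup.ker_mk', Subgroup.range_subtype])
  · have hNorm : ∀ D : Subgroup G, D ≤ M → D ≠ ⊥ → M ≤ Subgroup.normalizer (D : Set G) →
        Subgroup.normalizer (D : Set G) = M := by
      intro D hDM hD1 hle
      by_contra hne
      have htop := hmax.2 _ (lt_of_le_of_ne hle (Ne.symm hne))
      exact hcase ⟨D, hDM, hD1, Subgroup.normalizer_eq_top_iff.mp htop⟩
    by_cases hM1 : M = ⊥
    · apply Group.isSolvable_of_comm
      intro a b
      by_cases ha : a = 1
      · rw [ha]; simp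
      have hz : Subgroup.zpowers a = ⊤ := by
        apply hmax.2
        rw [hM1]
        exact bot_lt_iff_ne_bot.mpr (fun h => ha (Subgroup.zpowers_eq_bot.mp h))
      have hb : b ∈ Subgroup.zpowers a := by rw [hz]; trivial
      obtain ⟨k, rfl⟩ := Subgroup.mem_zpowers_iff.mp hb
      exact (Commute.zpow_right (Commute.refl a) k).eq
    have hcompl : ∃ N : Subgroup G, N.Normal ∧ Subgroup.IsComplement' N M ∧
        (Nat.card M).Coprime (Nat.card N) := by
      by_cases hsy : ∃ p : ℕ, p.Prime ∧ ∃ P : Sylow p G, (P : Subgroup G) = M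
      · obtain ⟨p, hp, P, hPM⟩ := hsy
        haveI : Fact p.Prime := ⟨hp⟩
        have hc2P : Cl2 (P : Subgroup G) := by rw [hPM]; exact hc2
        have hNP : ∀ D : Subgroup G, D ≤ (P : Subgroup G) → D ≠ ⊥ →
            (P : Subgroup G) ≤ Subgroup.normalizer (D : Set G) →
            Subgroup.normalizer (D : Set G) = (P : Subgroup G) := by
          rw [hPM]; exact hNorm
        have hfus : ∀ x ∈ (P : Subgroup G), ∀ y ∈ (P : Subgroup G),
            (∃ g : G, g * x * g⁻¹ = y) → ∃ z ∈ (P : Subgroup G), z * x * z⁻¹ = y := by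
          intro x hx y hy ⟨g, hg⟩
          rcases le_total (Nat.card ↥(Subgroup.centralizer ({y} : Set G) ⊓ (P : Subgroup G)))
            (Nat.card ↥(Subgroup.centralizer ({x} : Set G) ⊓ (P : Subgroup G))) with h | h
          · exact cl2_fusion P hc2P hNP x y hx hy g hg h
          · have hg' : g⁻¹ * y * g⁻¹⁻¹ = x := by rw [← hg]; group
            obtain ⟨z, hz, hzx⟩ := cl2_fusion P hc2P hNP y x hy hx g⁻¹ hg' h
            refine ⟨z⁻¹, inv_mem hz, ?_⟩
            rw [← hzx]; group
        obtain ⟨K, hKn, hKc⟩ := Cfsg.Agent.Lead.npc_of_controls_fusion P hfus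
        refine ⟨K, hKn, by rw [← hPM]; exact hKc, ?_⟩
        have h1 : (P : Subgroup G).index = Nat.card K := hKc.index_eq_card
        obtain ⟨k, hk⟩ := P.2.exists_card_eq
        rw [← hPM, ← h1, hk]
        exact Nat.Coprime.pow_left _ ((Nat.Prime.coprime_iff_not_dvd hp).mpr P.not_dvd_index)
      · push Not at hsy
        have hnorm : ∀ p : ℕ, p.Prime → p ∣ Nat.card M → ∀ P : Sylow p M,
            Subgroup.normalizer (((P : Subgroup M).map M.subtype : Subgroup G) : Set G) = M := by
          intro p hp hpd P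
          haveI : Fact p.Prime := ⟨hp⟩
          apply hNorm
          · exact Subgroup.map_subtype_le _
          · exact (Subgroup.map_eq_bot_iff_of_injective _ M.subtype_injective).not.mpr
              (P.ne_bot_of_dvd_card hpd)
          · have hPn : (P : Subgroup M).Normal :=
              Sylow.normal_of_normalizerCondition Group.normalizerCondition_of_isNilpotent P
            have h1 := Subgroup.le_normalizer_map (H := (P : Subgroup M)) M.subtype
            rw [Subgroup.normalizer_eq_top_iff.mpr hPn, ← MonoidHom.range_eq_map,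
              Subgroup.range_subtype] at h1
            exact h1
        obtain ⟨N, hNn, hNc⟩ := normal_complement_of_sylow_normalizers M hsy hnorm
        refine ⟨N, hNn, hNc, ?_⟩
        have h1 : M.index = Nat.card N := hNc.index_eq_card
        rw [← h1]
        apply Nat.Coprime.symm
        apply Nat.coprime_of_dvd
        intro p hp hpi hpd
        haveI : Fact p.Prime := ⟨hp⟩
        obtain ⟨P, hP⟩ := Cfsg.Agent.Helper17.exists_sylow_eq_of_normalizer_le M
          (default : Sylow p M) (hnorm p hp hpd default).le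
        have hPM : (P : Subgroup G) ≤ M := by rw [hP]; exact Subgroup.map_subtype_le _
        exact P.not_dvd_index (dvd_trans hpi (Subgroup.index_dvd_of_le hPM))
    obtain ⟨N, hNn, hNc, hcop⟩ := hcompl
    haveI := hNn
    have hdisj : N ⊓ M = ⊥ := hNc.disjoint.eq_bot
    have hN1 : N ≠ ⊥ := by
      intro h
      have h1 : M.index = Nat.card N := hNc.index_eq_card
      rw [h, Subgroup.card_bot] at h1
      exact hmax.1 (Subgroup.index_eq_one.mp h1)
    exact solvable_of_coprime_complement M N hmax hMs hdisj hN1 hcop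

theorem solvable_of_nilpotent_class_two_maximal {G : Type u} [Group G] [Finite G]
    (M : Subgroup G) (hmax : IsCoatom M) (hnil : Group.IsNilpotent M)
    (hcl : Group.nilpotencyClass ↥M ≤ 2) : Group.IsSolvable G :=
  solvable_of_cl2_max _ G M rfl hmax hnil (cl2_of_nilpotencyClass_le M hcl)

end Cfsg.Agent.Helper4
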