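import Cfsg.Agent.Helper24.MaxClass
import Cfsg.Agent.Helper24.MaxClassBasic
import Cfsg.Agent.Helper24.MaxClassCube
import Cfsg.Agent.Helper24.MaxClassCyclic
import Cfsg.Agent.Helper1.Quat
import Cfsg.Agent.Helper17.RelSylow
import Cfsg.Agent.Helper11.LargeExtra3
import Cfsg.Agent.Helper4.CardMul
import Mathlib

set_option autoImplicit false

namespace Cfsg.Agent.Helper4

universe u

/-- In a `2`-group of maximal class every non-cyclic subgroup contains its centralizer. -/
theorem self_centralizing_of_maximal_class {G : Type u} [Group G] [Finite G] (n : ℕ) (hn : 3 ≤ n)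
    (hG : Nat.card G = 2 ^ n) (hc : Group.nilpotencyClass G = n - 1) (H : Subgroup G)
    (hH : ¬ IsCyclic ↥H) : Subgroup.centralizer (H : Set G) ≤ H := by
  haveI : Fact (Nat.Prime 2) := ⟨Nat.prime_two⟩
  obtain ⟨C, hCcyc, hCi⟩ :=
    Cfsg.Agent.Helper24.exists_cyclic_index_two_of_maximal_class n hn G hG hc
  obtain ⟨hZ, -, -⟩ := Cfsg.Agent.Helper24.card_center_of_maximal_class (p := 2) n hn hG hc
  haveI := hCcyc
  have hCab : ∀ a ∈ C, ∀ b ∈ C, a * b = b * a := by
    intro a ha b hb
    have h1 := (IsCyclic.commGroup (α := C)).mul_comm ⟨a, ha⟩ ⟨b, hb⟩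
    exact congrArg Subtype.val h1
  have hclaim : ∀ y : G, y ∉ C → ∀ c ∈ C, c * y = y * c → c ∈ Subgroup.center G := by
    intro y hy c hcC hcy
    rw [Subgroup.mem_center_iff]
    intro g
    by_cases hg : g ∈ C
    · exact hCab g hg c hcC
    · have h1 : g * y⁻¹ ∈ C := by
        rw [Subgroup.mul_mem_iff_of_index_two hCi]
        exact ⟨fun h => absurd h hg, fun h => absurd (inv_mem_iff.mp h) hy⟩
      have h2 := hCab (g * y⁻¹) h1 c hcC
      calc g * c = (g * y⁻¹) * (y * c) := by group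
        _ = (g * y⁻¹) * (c * y) := by rw [hcy]
        _ = ((g * y⁻¹) * c) * y := by group
        _ = (c * (g * y⁻¹)) * y := by rw [h2]
        _ = c * g := by group
  have hcardC : Nat.card C * 2 = 2 ^ n := by
    have h0 := Subgroup.card_mul_index C
    rw [hCi, hG] at h0
    exact h0
  have h8 : 8 ≤ 2 ^ n := by
    calc 8 = 2 ^ 3 := by norm_num
      _ ≤ 2 ^ n := Nat.pow_le_pow_right (by norm_num) hn
  have hZC : Subgroup.center G ≤ C := by
    by_contra hnot
    obtain ⟨z, hz, hzC⟩ := SetLike.not_le_iff_exists.mp hnot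
    have hCZ : C ≤ Subgroup.center G := by
      intro c hcC
      exact hclaim z hzC c hcC (Subgroup.mem_center_iff.mp hz c)
    have h1 := Subgroup.card_le_of_le hCZ
    rw [hZ] at h1
    omega
  have hHC : ¬ H ≤ C := by
    intro hle
    apply hH
    have e := Subgroup.subgroupOfEquivOfLe hle
    exact isCyclic_of_surjective e e.surjective
  obtain ⟨y, hyH, hyC⟩ := SetLike.not_le_iff_exists.mp hHC
  have hw : ∃ w ∈ H ⊓ C, w ≠ 1 := by
    by_cases hy2 : y * y = 1
    · have hne : ¬ H ≤ Subgroup.zpowers y := by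
        intro hle
        apply hH
        have heq : H = Subgroup.zpowers y := le_antisymm hle (Subgroup.zpowers_le.mpr hyH)
        rw [heq]
        infer_instance
      obtain ⟨h, hhH, hhy⟩ := SetLike.not_le_iff_exists.mp hne
      by_cases hhC : h ∈ C
      · refine ⟨h, Subgroup.mem_inf.mpr ⟨hhH, hhC⟩, ?_⟩
        rintro rfl
        exact hhy (one_mem _)
      · have hmem : h * y ∈ C := by
          rw [Subgroup.mul_mem_iff_of_index_two hCi]
          exact ⟨fun h' => absurd h' hhC, fun h' => absurd h' hyC⟩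
        refine ⟨h * y, Subgroup.mem_inf.mpr ⟨H.mul_mem hhH hyH, hmem⟩, ?_⟩
        · intro h1
          apply hhy
          have h2 : h = y⁻¹ := eq_inv_of_mul_eq_one_left h1
          rw [h2]
          exact inv_mem (Subgroup.mem_zpowers y)
    · have hmem : y * y ∈ C := by
        rw [Subgroup.mul_mem_iff_of_index_two hCi]
      exact ⟨y * y, Subgroup.mem_inf.mpr ⟨H.mul_mem hyH hyH, hmem⟩, hy2⟩
  obtain ⟨w, hwHC, hw1⟩ := hw
  have hGp : IsPGroup 2 G := IsPGroup.of_card hG
  have h2dvd : 2 ∣ Nat.card ↥(H ⊓ C) := by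
    obtain ⟨k, hk⟩ := (hGp.to_subgroup (H ⊓ C)).exists_card_eq
    rcases Nat.eq_zero_or_pos k with rfl | hkpos
    · rw [pow_zero] at hk
      have hbot := Subgroup.card_eq_one.mp hk
      rw [hbot] at hwHC
      exact absurd (Subgroup.mem_bot.mp hwHC) hw1
    · rw [hk]; exact dvd_pow_self 2 hkpos.ne'
  have hZH : Subgroup.center G ≤ H := by
    have h1 := Cfsg.Agent.Helper1.cyclic_le_of_card_dvd C hZC (inf_le_right : H ⊓ C ≤ C)
      (by rw [hZ]; exact h2dvd)
    exact h1.trans inf_le_left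
  intro g hg
  have hgy : y * g = g * y := Subgroup.mem_centralizer_iff.mp hg y hyH
  by_cases hgC : g ∈ C
  · exact hZH (hclaim y hyC g hgC hgy.symm)
  · have h1 : g * y⁻¹ ∈ C := by
      rw [Subgroup.mul_mem_iff_of_index_two hCi]
      exact ⟨fun h => absurd h hgC, fun h => absurd (inv_mem_iff.mp h) hyC⟩
    have h2 : (g * y⁻¹) * y = y * (g * y⁻¹) := by
      calc (g * y⁻¹) * y = g := by group
        _ = (g * y) * y⁻¹ := by group
        _ = (y * g) * y⁻¹ := by rw [hgy]
        _ = y * (g * y⁻¹) := by group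
    have h3 : g * y⁻¹ ∈ H := hZH (hclaim y hyC _ h1 h2)
    have h4 : g = (g * y⁻¹) * y := by group
    rw [h4]
    exact H.mul_mem h3 hyH

/-- A group with the generalized quaternion presentation contains a non-abelian subgroup of
order `8`. -/
theorem exists_q8_of_quat_structure {G : Type u} [Group G] [Finite G] (m : ℕ) (a x : G)
    (hm : 2 ≤ m) (hoa : orderOf a = 2 ^ m) (hx : x ∉ Subgroup.zpowers a)
    (hxa : x * a * x⁻¹ = a⁻¹) (hx2 : x ^ 2 = a ^ (2 ^ (m - 1))) :
    ∃ B : Subgroup G, Nat.card B = 2 ^ 3 ∧ ¬ IsMulCommutative B := by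
  obtain ⟨b, hb⟩ : ∃ b, b = a ^ (2 ^ (m - 2)) := ⟨_, rfl⟩
  have hob : orderOf b = 4 := by
    have h1 : 2 ^ m = 2 ^ (m - 2) * 4 := by
      rw [show (4:ℕ) = 2 ^ 2 by norm_num, ← pow_add]; congr 1; omega
    rw [hb, orderOf_pow_of_dvd (pow_ne_zero _ (by norm_num))
      (by rw [hoa]; exact pow_dvd_pow 2 (by omega)), hoa, h1,
      Nat.mul_div_cancel_left _ (by positivity)]
  have hxb : x * b * x⁻¹ = b⁻¹ := by
    rw [hb, ← conj_pow, hxa, inv_pow]
  have hb2 : x ^ 2 = b ^ 2 := by
    rw [hx2, hb, ← pow_mul, ← pow_succ]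
    congr 2
    omega
  have hb2ne : b ^ 2 ≠ 1 := by
    intro h
    have h1 := orderOf_dvd_of_pow_eq_one h
    rw [hob] at h1
    norm_num at h1
  have hb4 : b ^ 4 = 1 := by rw [← hob]; exact pow_orderOf_eq_one b
  have hox : orderOf x = 4 := by
    have h1 : ¬ x ^ 2 ^ 1 = 1 := by rw [pow_one, hb2]; exact hb2ne
    have h2 : x ^ 2 ^ (1 + 1) = 1 := by
      have h3 : x ^ 2 ^ (1 + 1) = (x ^ 2) ^ 2 := by rw [← pow_mul]; norm_num
      rw [h3, hb2, ← pow_mul]; exact hb4
    have h4 := orderOf_eq_prime_pow h1 h2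
    simpa using h4
  have hxnb : x ∉ Subgroup.zpowers b := by
    intro h
    apply hx
    have hle : Subgroup.zpowers b ≤ Subgroup.zpowers a := by
      rw [Subgroup.zpowers_le, hb]
      exact Subgroup.pow_mem _ (Subgroup.mem_zpowers a) _
    exact hle h
  have hLE : Subgroup.zpowers x ≤ Subgroup.normalizer ((Subgroup.zpowers b : Subgroup G) : Set G) := by
    rw [Subgroup.zpowers_le]
    apply Cfsg.Agent.Helper11.mem_normalizer_of_conj_le
    intro v hv
    obtain ⟨k, rfl⟩ := Subgroup.mem_zpowers_iff.mp hv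
    rw [← conj_zpow, hxb]
    exact Subgroup.zpow_mem _ (inv_mem (Subgroup.mem_zpowers b)) k
  have hcard := card_sup_mul_card_inf (Subgroup.zpowers x) (Subgroup.zpowers b) hLE
  have hH4 : Nat.card (Subgroup.zpowers x) = 4 := by rw [Nat.card_zpowers, hox]
  have hK4 : Nat.card (Subgroup.zpowers b) = 4 := by rw [Nat.card_zpowers, hob]
  have hinf : Nat.card (Subgroup.zpowers x ⊓ Subgroup.zpowers b : Subgroup G) = 2 := by
    have h1 : Nat.card (Subgroup.zpowers x ⊓ Subgroup.zpowers b : Subgroup G) ∣ 2 ^ 2 := by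
      have h0 := Subgroup.card_dvd_of_le
        (inf_le_left : Subgroup.zpowers x ⊓ Subgroup.zpowers b ≤ Subgroup.zpowers x)
      rw [hH4] at h0
      exact h0
    obtain ⟨j, hj, hjc⟩ := (Nat.dvd_prime_pow Nat.prime_two).mp h1
    have hj0 : j ≠ 0 := by
      rintro rfl
      rw [pow_zero] at hjc
      have hbot := Subgroup.card_eq_one.mp hjc
      have hmem : x ^ 2 ∈ Subgroup.zpowers x ⊓ Subgroup.zpowers b :=
        ⟨Subgroup.pow_mem _ (Subgroup.mem_zpowers x) 2,
          by rw [hb2]; exact Subgroup.pow_mem _ (Subgroup.mem_zpowers b) 2⟩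
      rw [hbot, Subgroup.mem_bot, hb2] at hmem
      exact hb2ne hmem
    have hj2 : j ≠ 2 := by
      rintro rfl
      have heq : Subgroup.zpowers x ⊓ Subgroup.zpowers b = Subgroup.zpowers x :=
        Subgroup.eq_of_le_of_card_ge inf_le_left (by rw [hjc, hH4]; norm_num)
      apply hxnb
      have h5 : x ∈ Subgroup.zpowers x ⊓ Subgroup.zpowers b := by
        rw [heq]; exact Subgroup.mem_zpowers x
      exact h5.2
    have hj1 : j = 1 := by omega
    rw [hjc, hj1, pow_one]
  rw [hinf, hH4, hK4] at hcard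
  refine ⟨Subgroup.zpowers x ⊔ Subgroup.zpowers b, by omega, ?_⟩
  intro hcomm
  have hxB : x ∈ Subgroup.zpowers x ⊔ Subgroup.zpowers b :=
    Subgroup.mem_sup_left (Subgroup.mem_zpowers x)
  have hbB : b ∈ Subgroup.zpowers x ⊔ Subgroup.zpowers b :=
    Subgroup.mem_sup_right (Subgroup.mem_zpowers b)
  have h1 := hcomm.is_comm.comm (⟨x, hxB⟩ : ↥(Subgroup.zpowers x ⊔ Subgroup.zpowers b)) ⟨b, hbB⟩
  have h2 : x * b = b * x := congrArg Subtype.val h1
  apply hb2ne
  have h3 : b = b⁻¹ := by
    rw [← hxb, h2]; group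
  calc b ^ 2 = b * b := pow_two b
    _ = b * b⁻¹ := by rw [← h3]
    _ = 1 := mul_inv_cancel b

theorem maximal_class_of_self_centralizing {G : Type u} [Group G] [Finite G]
    (hna : ¬ IsMulCommutative G) (n : ℕ) (hG : Nat.card G = 2 ^ n)
    (hsc : ∀ H : Subgroup G, ¬ IsCyclic ↥H → Subgroup.centralizer (H : Set G) ≤ H) :
    Group.nilpotencyClass G = n - 1 := by
  haveI : Fact (Nat.Prime 2) := ⟨Nat.prime_two⟩
  have hGp : IsPGroup 2 G := IsPGroup.of_card hG
  by_cases hA : ∃ A : Subgroup G, Nat.card A = 4 ∧ ¬ IsCyclic ↥A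
  · obtain ⟨A, hA4, hAnc⟩ := hA
    have hA4' : Nat.card A = 2 ^ 2 := by rw [hA4]; norm_num
    have hab : ∀ a ∈ A, ∀ b ∈ A, a * b = b * a := by
      intro a ha b hb
      have h1 := Cfsg.Agent.Helper24.comm_of_card_prime_pow_le_two (p := 2) 2 le_rfl hA4'
        (⟨a, ha⟩ : A) ⟨b, hb⟩
      exact congrArg Subtype.val h1
    have hC : Subgroup.centralizer (A : Set G) = A := by
      apply le_antisymm (hsc A hAnc)
      intro a ha
      rw [Subgroup.mem_centralizer_iff]
      intro b hb
      exact hab b hb a ha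
    exact Cfsg.Agent.Helper24.nilpotencyClass_of_self_centralizing_sq (p := 2) n G hG A hA4' hC
  · push Not at hA
    have hnc : ¬ IsCyclic G := by
      intro hcyc
      apply hna
      exact ⟨⟨fun a b => (IsCyclic.commGroup (α := G)).mul_comm a b⟩⟩
    haveI : Nontrivial G :=
      not_subsingleton_iff_nontrivial.mp (fun hs => hnc (@isCyclic_of_subsingleton G _ hs))
    obtain ⟨z, -, hoz, hzc⟩ := Cfsg.Agent.Helper17.exists_central_orderOf_eq_prime (p := 2)
      (⊤ : Subgroup G) (hGp.to_subgroup ⊤) top_ne_bot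
    have hzc' : ∀ g : G, g * z = z * g := fun g => hzc g (Subgroup.mem_top g)
    have hZ2 : Nat.card (Subgroup.zpowers z) = 2 := by rw [Nat.card_zpowers, hoz]
    haveI hZn : (Subgroup.zpowers z).Normal := by
      refine ⟨fun v hv g => ?_⟩
      obtain ⟨k, rfl⟩ := Subgroup.mem_zpowers_iff.mp hv
      have h0 := (Commute.zpow_right (show Commute g z from hzc' g) k).eq
      have h1 : g * z ^ k * g⁻¹ = z ^ k := by rw [h0]; group
      rw [h1]; exact hv
    have hkey : ∀ H : Subgroup G, Nat.card H = 2 → H = Subgroup.zpowers z := by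
      intro H hH2
      by_contra hne
      have hLE : H ≤ Subgroup.normalizer ((Subgroup.zpowers z : Subgroup G) : Set G) := by
        rw [Subgroup.normalizer_eq_top]; exact le_top
      have hcard := card_sup_mul_card_inf H (Subgroup.zpowers z) hLE
      have hinf : Nat.card (H ⊓ Subgroup.zpowers z : Subgroup G) = 1 := by
        have h1 : Nat.card (H ⊓ Subgroup.zpowers z : Subgroup G) ∣ 2 := by
          rw [← hH2]; exact Subgroup.card_dvd_of_le inf_le_left
        rcases (Nat.dvd_prime Nat.prime_two).mp h1 with h2 | h2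
        · exact h2
        · exfalso
          have e1 : H ⊓ Subgroup.zpowers z = H :=
            Subgroup.eq_of_le_of_card_ge inf_le_left (by rw [h2, hH2])
          have e2 : H ⊓ Subgroup.zpowers z = Subgroup.zpowers z :=
            Subgroup.eq_of_le_of_card_ge inf_le_right (by rw [h2, hZ2])
          exact hne (e1.symm.trans e2)
      rw [hinf, hH2, hZ2, mul_one] at hcard
      have hcyc := hA (H ⊔ Subgroup.zpowers z) (by rw [hcard])
      haveI := hcyc
      obtain ⟨g, hg⟩ := IsCyclic.exists_ofOrder_eq_natCard (α := ↥(H ⊔ Subgroup.zpowers z))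
      rw [hcard] at hg
      have hg2 : (g : G) ^ 2 = 1 := by
        obtain ⟨u, hu, v, hv, huv⟩ := Subgroup.mem_sup_of_normal_right.mp g.2
        have hu2 : u ^ 2 = 1 := by
          have h1 := pow_card_eq_one' (G := H) (x := ⟨u, hu⟩)
          rw [hH2] at h1
          exact congrArg Subtype.val h1
        have hv2 : v ^ 2 = 1 := by
          have h1 := pow_card_eq_one' (G := Subgroup.zpowers z) (x := ⟨v, hv⟩)
          rw [hZ2] at h1
          exact congrArg Subtype.val h1
        obtain ⟨k, rfl⟩ := Subgroup.mem_zpowers_iff.mp hv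
        have hcomm : Commute u (z ^ k) := Commute.zpow_right (show Commute u z from hzc' u) k
        rw [← huv, hcomm.mul_pow, hu2, hv2, mul_one]
      have h4 : orderOf (g : G) = 4 := by rw [Subgroup.orderOf_coe]; exact hg
      have h5 := orderOf_dvd_of_pow_eq_one hg2
      rw [h4] at h5
      norm_num at h5
    have huniq : ∀ H K : Subgroup G, Nat.card H = 2 → Nat.card K = 2 → H = K :=
      fun H K hH hK => (hkey H hH).trans (hkey K hK).symm
    obtain ⟨m, a, x, hm, hoa, hcard, hx, hxa, hx2⟩ :=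
      Cfsg.Agent.Helper1.quat_structure hGp huniq hnc
    obtain ⟨B, hB, hBna⟩ := exists_q8_of_quat_structure m a x hm hoa hx hxa hx2
    have hBnc : ¬ IsCyclic ↥B := by
      intro hcyc
      apply hBna
      exact ⟨⟨fun a b => (IsCyclic.commGroup (α := B)).mul_comm a b⟩⟩
    exact Cfsg.Agent.Helper24.nilpotencyClass_of_self_centralizing_cube n hG B hB hBna
      (hsc B hBnc)

theorem self_centralizing_iff_maximal_class {G : Type u} [Group G] [Finite G]
    (hna : ¬ IsMulCommutative G) (n : ℕ) (hG : Nat.card G = 2 ^ n) :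
    (∀ H : Subgroup G, ¬ IsCyclic ↥H → Subgroup.centralizer (H : Set G) ≤ H) ↔
      (⊤ : Subgroup G).lowerCentralSeries (n - 2) ≠ ⊥ := by
  haveI : Fact (Nat.Prime 2) := ⟨Nat.prime_two⟩
  have hGp : IsPGroup 2 G := IsPGroup.of_card hG
  haveI : Group.IsNilpotent G := hGp.isNilpotent
  have hn : 3 ≤ n := by
    by_contra hlt
    apply hna
    exact ⟨⟨fun a b =>
      Cfsg.Agent.Helper24.comm_of_card_prime_pow_le_two (p := 2) n (by omega) hG a b⟩⟩
  have hle := (Cfsg.Agent.Helper24.nilpotencyClass_le_of_card (p := 2) n G hG).2 (by omega)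
  have hiff : (⊤ : Subgroup G).lowerCentralSeries (n - 2) ≠ ⊥ ↔
      Group.nilpotencyClass G = n - 1 := by
    rw [Ne, Subgroup.lowerCentralSeries_eq_bot_iff_nilpotencyClass_le]
    omega
  rw [hiff]
  exact ⟨fun h => maximal_class_of_self_centralizing hna n hG h,
    fun hc H hH => self_centralizing_of_maximal_class n hn hG hc H hH⟩

end Cfsg.Agent.Helper4
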