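import Mathlib
import Cfsg.Agent.Helper17.RelSylow
import Cfsg.Agent.Helper21.CoprimeAbelian
import Cfsg.Agent.Helper21.Primary
import Cfsg.Agent.Lead.FusionNPC
import Cfsg.Agent.Helper4.CardMul

set_option autoImplicit false

namespace Cfsg.Agent.Helper4

/-- elements acting on `T` by conjugation like an element of `T` -/
def innerLike {G : Type*} [Group G] (T : Subgroup G) : Subgroup G where
  carrier := {h | ∃ u ∈ T, ∀ x ∈ T, h * x * h⁻¹ = u * x * u⁻¹}
  one_mem' := ⟨1, one_mem _, fun _ _ => rfl⟩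
  mul_mem' := by
    rintro a b ⟨u, hu, hua⟩ ⟨v, hv, hvb⟩
    refine ⟨u * v, mul_mem hu hv, fun x hx => ?_⟩
    have h1 : v * x * v⁻¹ ∈ T := mul_mem (mul_mem hv hx) (inv_mem hv)
    calc a * b * x * (a * b)⁻¹ = a * (b * x * b⁻¹) * a⁻¹ := by group
      _ = a * (v * x * v⁻¹) * a⁻¹ := by rw [hvb x hx]
      _ = u * (v * x * v⁻¹) * u⁻¹ := hua _ h1
      _ = u * v * x * (u * v)⁻¹ := by group
  inv_mem' := by
    rintro a ⟨u, hu, hua⟩
    refine ⟨u⁻¹, inv_mem hu, fun x hx => ?_⟩
    have h1 : u⁻¹ * x * u ∈ T := mul_mem (mul_mem (inv_mem hu) hx) hu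
    have h2 := hua _ h1
    have h3 : a * (u⁻¹ * x * u) * a⁻¹ = x := by rw [h2]; group
    calc a⁻¹ * x * a⁻¹⁻¹ = a⁻¹ * (a * (u⁻¹ * x * u) * a⁻¹) * a := by rw [h3]; group
      _ = u⁻¹ * x * u⁻¹⁻¹ := by group

theorem mem_innerLike {G : Type*} [Group G] (T : Subgroup G) (h : G) :
    h ∈ innerLike T ↔ ∃ u ∈ T, ∀ x ∈ T, h * x * h⁻¹ = u * x * u⁻¹ := Iff.rfl

theorem index_inf_dvd_mul {G : Type*} [Group G] (A B : Subgroup G) [A.Normal] :
    (A ⊓ B).index ∣ A.index * B.index := by
  rw [← Subgroup.relIndex_mul_index (inf_le_right : A ⊓ B ≤ B), Subgroup.inf_relIndex_right]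
  exact mul_dvd_mul_right (Subgroup.relIndex_dvd_index_of_normal A B) _

/-- two Sylow subgroups for different primes with the same normalizer commute elementwise -/
theorem commute_of_normalizer_eq {G : Type*} [Group G] [Finite G] {p q : ℕ} [Fact p.Prime]
    [Fact q.Prime] (hpq : p ≠ q) (H : Subgroup G) (T : Sylow p G) (U : Sylow q G)
    (hT : Subgroup.normalizer ((T : Subgroup G) : Set G) = H)
    (hU : Subgroup.normalizer ((U : Subgroup G) : Set G) = H) :
    ∀ a ∈ (T : Subgroup G), ∀ b ∈ (U : Subgroup G), a * b = b * a := by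
  intro a ha b hb
  have haH : a ∈ H := by rw [← hT]; exact Subgroup.le_normalizer ha
  have hbH : b ∈ H := by rw [← hU]; exact Subgroup.le_normalizer hb
  have h1 : a * b * a⁻¹ ∈ (U : Subgroup G) := by
    have : a ∈ Subgroup.normalizer ((U : Subgroup G) : Set G) := by rw [hU]; exact haH
    exact (Subgroup.mem_normalizer_iff.mp this b).mp hb
  have h2 : b * a⁻¹ * b⁻¹ ∈ (T : Subgroup G) := by
    have : b ∈ Subgroup.normalizer ((T : Subgroup G) : Set G) := by rw [hT]; exact hbH
    exact (Subgroup.mem_normalizer_iff.mp this a⁻¹).mp (inv_mem ha)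
  have h3 : a * b * a⁻¹ * b⁻¹ ∈ (T : Subgroup G) ⊓ (U : Subgroup G) := by
    refine Subgroup.mem_inf.mpr ⟨?_, mul_mem h1 (inv_mem hb)⟩
    have e : a * b * a⁻¹ * b⁻¹ = a * (b * a⁻¹ * b⁻¹) := by group
    rw [e]; exact mul_mem ha h2
  have hd : (T : Subgroup G) ⊓ (U : Subgroup G) = ⊥ :=
    disjoint_iff.mp (IsPGroup.disjoint_of_ne p q hpq _ _ T.2 U.2)
  rw [hd, Subgroup.mem_bot] at h3
  calc a * b = (a * b * a⁻¹ * b⁻¹) * b * a := by group
    _ = b * a := by rw [h3, one_mul]

theorem normal_complement_of_sylow_normalizers {G : Type*} [Group G] [Finite G] (H : Subgroup G)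
    (hnot : ∀ p : ℕ, p.Prime → ∀ P : Sylow p G, (P : Subgroup G) ≠ H)
    (hnorm : ∀ p : ℕ, p.Prime → p ∣ Nat.card H → ∀ P : Sylow p H,
      Subgroup.normalizer (((P : Subgroup H).map H.subtype : Subgroup G) : Set G) = H) :
    ∃ N : Subgroup G, N.Normal ∧ Subgroup.IsComplement' N H := by
  classical
  have key : ∀ p : ℕ, p.Prime → p ∣ Nat.card H → ∃ T : Sylow p G,
      Subgroup.normalizer ((T : Subgroup G) : Set G) = H := by
    intro p hp hpH
    haveI : Fact p.Prime := ⟨hp⟩
    obtain ⟨P⟩ : Nonempty (Sylow p H) := inferInstance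
    have h1 := hnorm p hp hpH P
    obtain ⟨T, hT⟩ := Cfsg.Agent.Helper17.exists_sylow_eq_of_normalizer_le H P h1.le
    exact ⟨T, by rw [hT]; exact h1⟩
  have hHall : (Nat.card H).Coprime H.index := by
    apply Nat.coprime_of_dvd
    intro p hp hpH hpI
    haveI : Fact p.Prime := ⟨hp⟩
    obtain ⟨T, hT⟩ := key p hp hpH
    have hTH : (T : Subgroup G) ≤ H := by rw [← hT]; exact Subgroup.le_normalizer
    exact T.not_dvd_index (hpI.trans (Subgroup.index_dvd_of_le hTH))
  have npc : ∀ p : ℕ, p.Prime → p ∣ Nat.card H → ∃ K : Subgroup G, K.Normal ∧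
      K.index ∣ Nat.card H ∧ ¬ p ∣ Nat.card K := by
    intro p hp hpH
    haveI : Fact p.Prime := ⟨hp⟩
    obtain ⟨T, hT⟩ := key p hp hpH
    have hTH : (T : Subgroup G) ≤ H := by rw [← hT]; exact Subgroup.le_normalizer
    obtain ⟨q, hq, hqH, hqp⟩ : ∃ q : ℕ, q.Prime ∧ q ∣ Nat.card H ∧ q ≠ p := by
      by_contra hcon
      push_neg at hcon
      have hHp : IsPGroup p H := by
        have h0 : Nat.card H ≠ 0 := Nat.card_pos.ne'
        have := Nat.eq_prime_pow_of_unique_prime_dvd h0 (fun {d} hd hdH => hcon d hd hdH)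
        exact IsPGroup.of_card this
      exact hnot p hp T (T.3 hHp hTH).symm
    haveI : Fact q.Prime := ⟨hq⟩
    obtain ⟨U, hU⟩ := key q hq hqH
    have hcomm := commute_of_normalizer_eq (Ne.symm hqp) H T U hT hU
    have hdec : ∀ h ∈ H, h ∈ innerLike (T : Subgroup G) := by
      intro h hh
      apply Cfsg.Agent.Helper21.mem_of_primary_powers_mem
      rintro z hz ⟨r, b, hr, hzo⟩
      have hzH : z ∈ H := (Subgroup.zpowers_le.mpr hh) hz
      by_cases hrp : r = p
      · rw [hrp] at hzo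
        have hzN : z ∈ Subgroup.normalizer ((T : Subgroup G) : Set G) := by rw [hT]; exact hzH
        have hzT : z ∈ (T : Subgroup G) :=
          Cfsg.Agent.Helper21.mem_sylow_of_mem_normalizer_of_orderOf T hzN hzo
        exact ⟨z, hzT, fun x _ => rfl⟩
      · refine ⟨1, one_mem _, fun x hx => ?_⟩
        have hzx : z * x = x * z := by
          rcases Nat.eq_zero_or_pos b with hb0 | hbpos
          · rw [hb0, pow_zero, orderOf_eq_one_iff] at hzo
            rw [hzo, one_mul, mul_one]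
          · haveI : Fact r.Prime := ⟨hr⟩
            have hrH : r ∣ Nat.card H := by
              have h1 : r ∣ orderOf z := by rw [hzo]; exact dvd_pow_self r hbpos.ne'
              have h2 : orderOf z ∣ Nat.card H := by
                have := orderOf_dvd_natCard (⟨z, hzH⟩ : H)
                rwa [Subgroup.orderOf_mk] at this
              exact h1.trans h2
            obtain ⟨R, hR⟩ := key r hr hrH
            have hzN : z ∈ Subgroup.normalizer ((R : Subgroup G) : Set G) := by
              rw [hR]; exact hzH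
            have hzR : z ∈ (R : Subgroup G) :=
              Cfsg.Agent.Helper21.mem_sylow_of_mem_normalizer_of_orderOf R hzN hzo
            exact (commute_of_normalizer_eq (Ne.symm hrp) H T R hT hR x hx z hzR).symm
        calc z * x * z⁻¹ = x * z * z⁻¹ := by rw [hzx]
          _ = 1 * x * 1⁻¹ := by group
    have hfus : ∀ x ∈ (T : Subgroup G), ∀ y ∈ (T : Subgroup G), (∃ g : G, g * x * g⁻¹ = y) →
        ∃ z ∈ (T : Subgroup G), z * x * z⁻¹ = y := by
      rintro x hx y hy ⟨g, rfl⟩
      have hUC : (U : Subgroup G) ≤ Subgroup.centralizer ({g * x * g⁻¹} : Set G) := by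
        intro b hb
        rw [Subgroup.mem_centralizer_iff]
        intro w hw
        rw [Set.mem_singleton_iff] at hw
        rw [hw]
        exact hcomm _ hy b hb
      have hUgC : (U : Subgroup G).map (MulAut.conj g).toMonoidHom
          ≤ Subgroup.centralizer ({g * x * g⁻¹} : Set G) := by
        rintro _ ⟨b, hb, rfl⟩
        rw [Subgroup.mem_centralizer_iff]
        intro w hw
        rw [Set.mem_singleton_iff] at hw
        rw [hw]
        have hxb := hcomm x hx b hb
        show g * x * g⁻¹ * (g * b * g⁻¹) = (g * b * g⁻¹) * (g * x * g⁻¹)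
        calc g * x * g⁻¹ * (g * b * g⁻¹) = g * (x * b) * g⁻¹ := by group
          _ = g * (b * x) * g⁻¹ := by rw [hxb]
          _ = g * b * g⁻¹ * (g * x * g⁻¹) := by group
      obtain ⟨c, hc, hce⟩ := Cfsg.Agent.Helper17.exists_conj_eq_of_le U _ hUC g hUgC
      have hn : c⁻¹ * g ∈ Subgroup.normalizer ((U : Subgroup G) : Set G) :=
        Cfsg.Agent.Helper17.mem_normalizer_of_map_conj_eq_map_conj (U : Subgroup G) hce
      rw [hU] at hn
      have hcy : c⁻¹ * (g * x * g⁻¹) * c = g * x * g⁻¹ := by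
        have := Subgroup.mem_centralizer_iff.mp hc (g * x * g⁻¹) rfl
        calc c⁻¹ * (g * x * g⁻¹) * c = c⁻¹ * ((g * x * g⁻¹) * c) := by group
          _ = c⁻¹ * (c * (g * x * g⁻¹)) := by rw [this]
          _ = g * x * g⁻¹ := by group
      obtain ⟨u, hu, huc⟩ := (mem_innerLike _ _).mp (hdec (c⁻¹ * g) hn)
      refine ⟨u, hu, ?_⟩
      rw [← huc x hx]
      calc c⁻¹ * g * x * (c⁻¹ * g)⁻¹ = c⁻¹ * (g * x * g⁻¹) * c := by group
        _ = g * x * g⁻¹ := hcy
    obtain ⟨K, hKn, hKc⟩ := Cfsg.Agent.Lead.npc_of_controls_fusion T hfus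
    refine ⟨K, hKn, ?_, ?_⟩
    · have h1 : K.index = Nat.card (T : Subgroup G) := hKc.symm.index_eq_card
      rw [h1]; exact Subgroup.card_dvd_of_le hTH
    · have h1 : (T : Subgroup G).index = Nat.card K := hKc.index_eq_card
      rw [← h1]; exact T.not_dvd_index
  choose! K hK using npc
  have hidx : ∀ s : Finset ℕ, (∀ p ∈ s, p.Prime ∧ p ∣ Nat.card H) →
      (⨅ p ∈ s, K p).index ∣ ∏ p ∈ s, (K p).index := by
    intro s
    induction s using Finset.induction_on with
    | empty => intro _; simp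
    | insert a s ha ih =>
      intro hs
      rw [Finset.iInf_insert, Finset.prod_insert ha]
      have h1 := ih (fun p hp => hs p (Finset.mem_insert_of_mem hp))
      haveI : (K a).Normal :=
        (hK a (hs a (Finset.mem_insert_self a s)).1 (hs a (Finset.mem_insert_self a s)).2).1
      exact (index_inf_dvd_mul (K a) _).trans (mul_dvd_mul_left _ h1)
  obtain ⟨N, hNdef⟩ : ∃ N : Subgroup G, N = ⨅ p ∈ (Nat.card H).primeFactors, K p := ⟨_, rfl⟩
  have hNn : N.Normal := by
    rw [hNdef]
    apply Subgroup.normal_iInf_normal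
    intro p
    apply Subgroup.normal_iInf_normal
    intro hp
    exact (hK p (Nat.prime_of_mem_primeFactors hp) (Nat.dvd_of_mem_primeFactors hp)).1
  have hdisj : N ⊓ H = ⊥ := by
    rw [eq_bot_iff]
    intro x hx
    obtain ⟨hxN, hxH⟩ := Subgroup.mem_inf.mp hx
    rw [Subgroup.mem_bot]
    by_contra hx1
    have ho : orderOf x ≠ 1 := fun h => hx1 (orderOf_eq_one_iff.mp h)
    obtain ⟨p, hp, hpo⟩ := Nat.exists_prime_and_dvd ho
    have hoH : orderOf x ∣ Nat.card H := by
      have := orderOf_dvd_natCard (⟨x, hxH⟩ : H)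
      rwa [Subgroup.orderOf_mk] at this
    have hpH : p ∣ Nat.card H := hpo.trans hoH
    have hps : p ∈ (Nat.card H).primeFactors :=
      Nat.mem_primeFactors.mpr ⟨hp, hpH, Nat.card_pos.ne'⟩
    have hxK : x ∈ K p := by
      rw [hNdef] at hxN
      have := Subgroup.mem_iInf.mp hxN p
      exact Subgroup.mem_iInf.mp this hps
    have hoK : orderOf x ∣ Nat.card (K p) := by
      have := orderOf_dvd_natCard (⟨x, hxK⟩ : K p)
      rwa [Subgroup.orderOf_mk] at this
    exact (hK p hp hpH).2.2 (hpo.trans hoK)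
  have hcop : (N.index).Coprime H.index := by
    rw [hNdef]
    apply Nat.Coprime.coprime_dvd_left (hidx _ (fun p hp =>
      ⟨Nat.prime_of_mem_primeFactors hp, Nat.dvd_of_mem_primeFactors hp⟩))
    apply Nat.Coprime.prod_left
    intro p hp
    exact Nat.Coprime.coprime_dvd_left
      (hK p (Nat.prime_of_mem_primeFactors hp) (Nat.dvd_of_mem_primeFactors hp)).2.1 hHall
  have hsup : N ⊔ H = ⊤ := by
    rw [← Subgroup.index_eq_one]
    have h1 : (N ⊔ H).index ∣ N.index := Subgroup.index_dvd_of_le le_sup_left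
    have h2 : (N ⊔ H).index ∣ H.index := Subgroup.index_dvd_of_le le_sup_right
    exact Nat.eq_one_of_dvd_coprimes hcop h1 h2
  refine ⟨N, hNn, ?_⟩
  apply Subgroup.isComplement'_of_card_mul_and_disjoint
  · have h1 := card_sup_mul_card_inf H N (by rw [Subgroup.normalizer_eq_top]; exact le_top)
    rw [sup_comm, hsup, Subgroup.card_top, inf_comm, hdisj, Subgroup.card_bot, mul_one] at h1
    rw [h1, mul_comm]
  · exact disjoint_iff.mpr hdisj

end Cfsg.Agent.Helper4
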