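import Cfsg.Prelude.Def_SporadicB

set_option autoImplicit false

namespace Cfsg.Agent.Helper4.TTB

theorem tt_mul_self {G : Type*} [Group G] {E : Set G} (hE : Cfsg.IsThreeTranspositionSet E)
    {a : G} (ha : a ∈ E) : a * a = 1 := by
  have := hE.1 a ha
  rw [← pow_two, ← this, pow_orderOf_eq_one]

theorem tt_inv {G : Type*} [Group G] {E : Set G} (hE : Cfsg.IsThreeTranspositionSet E)
    {a : G} (ha : a ∈ E) : a⁻¹ = a :=
  inv_eq_of_mul_eq_one_left (tt_mul_self hE ha)

theorem tt_ne_one {G : Type*} [Group G] {E : Set G} (hE : Cfsg.IsThreeTranspositionSet E)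
    {a : G} (ha : a ∈ E) : a ≠ 1 := by
  intro h
  have := hE.1 a ha
  rw [h, orderOf_one] at this
  omega

theorem braid_of_inv {G : Type*} [Group G] {x y : G} (hx : x⁻¹ = x) (hy : y⁻¹ = y)
    (h : (x * y) ^ 2 = 1 ∨ (x * y) ^ 3 = 1) (hn : ¬ Commute x y) : x * y * x = y * x * y := by
  rcases h with h2 | h3
  · exfalso
    apply hn
    have h4 : x * y * (x * y) = 1 := by rw [← pow_two]; exact h2
    have h5 : x * y = (x * y)⁻¹ := eq_inv_of_mul_eq_one_left h4
    rw [mul_inv_rev, hx, hy] at h5
    exact h5
  · have h6 : x * y * x * (y * x * y) = 1 := by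
      have : (x * y) ^ 3 = x * y * x * (y * x * y) := by
        simp [pow_succ, mul_assoc]
      rw [← this]; exact h3
    have h7 : y * x * y = (x * y * x)⁻¹ := eq_inv_of_mul_eq_one_right h6
    rw [h7, mul_inv_rev, mul_inv_rev, hx, hy, mul_assoc]

theorem tt_braid {G : Type*} [Group G] {E : Set G} (hE : Cfsg.IsThreeTranspositionSet E)
    {x y : G} (hx : x ∈ E) (hy : y ∈ E) (hn : ¬ Commute x y) : x * y * x = y * x * y :=
  braid_of_inv (tt_inv hE hx) (tt_inv hE hy) (hE.2 x hx y hy) hn

theorem tt_commute_mul_iff {G : Type*} [Group G] {E : Set G} (hE : Cfsg.IsThreeTranspositionSet E)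
    {a b e : G} (ha : a ∈ E) (hb : b ∈ E) (he : e ∈ E) (hab : a ≠ b) (_hcomm : Commute a b) :
    Commute e (a * b) ↔ (Commute e a ∧ Commute e b) := by
  constructor
  · intro hc
    have ha2 := tt_mul_self hE ha
    have hb2 := tt_mul_self hE hb
    have he2 := tt_mul_self hE he
    have hai := tt_inv hE ha
    have hbi := tt_inv hE hb
    have hei := tt_inv hE he
    by_cases hca : Commute e a
    · refine ⟨hca, ?_⟩
      have : Commute e (a⁻¹ * (a * b)) := (hca.inv_right).mul_right hc
      simpa using this
    · by_cases hcb : Commute e b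
      · exfalso
        apply hca
        have : Commute e (a * b * b⁻¹) := hc.mul_right hcb.inv_right
        simpa using this
      · exfalso
        apply hab
        have h1 : e * a * e = a * e * a := tt_braid hE he ha hca
        have h2 : e * b * e = b * e * b := tt_braid hE he hb hcb
        have k0 : b * (a * e * a) * b = e := by
          have e1 : b * (a * e * a) * b = b * a * (e * (a * b)) := by group
          rw [e1, hc.eq]
          have e2 : b * a * (a * b * e) = b * (a * a) * b * e := by group
          rw [e2, ha2, mul_one, hb2, one_mul]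
        have k1 : b * (e * a * e) * b = e := by rw [h1]; exact k0
        calc a = (b * e)⁻¹ * (b * (e * a * e) * b) * (e * b)⁻¹ := by group
          _ = (b * e)⁻¹ * e * (e * b)⁻¹ := by rw [k1]
          _ = e * b * e * (b * e) := by rw [mul_inv_rev, mul_inv_rev, hei, hbi]
          _ = (e * b * e) * b * e := by group
          _ = b * e * b * b * e := by rw [h2]
          _ = b * e * (b * b) * e := by group
          _ = b * (e * e) := by rw [hb2]; group
          _ = b := by rw [he2, mul_one]
  · rintro ⟨h1, h2⟩
    exact h1.mul_right h2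

end Cfsg.Agent.Helper4.TTB
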